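import Cfsg.Agent.H409.FprBasic
import Cfsg.Agent.S2119
import Cfsg.Agent.S0813
import Cfsg.Agent.S0252
import Cfsg.Agent.S0253
import Cfsg.Agent.S0254
import Cfsg.Agent.S0256
import Cfsg.Agent.ClassicalGeometry.PSL2Basic

/-!
# The excluded simple groups of S3578: automorphisms of `p`-power order are inner; coincidences
-/

set_option autoImplicit false
open Subgroup MulAction

namespace Cfsg.Agent.H398.FPR

universe u

/-- The simple groups excluded in S3578. -/
def Bad (p : ℕ) (S : Type u) [Group S] : Prop :=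
  (∃ m : ℕ, p + 1 < m ∧ m < p ^ 2 - p ∧ Nonempty (S ≃* alternatingGroup (Fin m))) ∨
    ∃ k : ℕ, p + 1 = 2 ^ k ∧ Nonempty (S ≃* Matrix.SpecialLinearGroup (Fin 2) (GaloisField 2 k))

theorem Bad.congr {p : ℕ} {S : Type*} {S' : Type*} [Group S] [Group S'] (e : S ≃* S')
    (h : Bad p S) : Bad p S' := by
  rcases h with ⟨m, h1, h2, ⟨f⟩⟩ | ⟨k, h1, ⟨f⟩⟩
  · exact Or.inl ⟨m, h1, h2, ⟨e.symm.trans f⟩⟩
  · exact Or.inr ⟨k, h1, ⟨e.symm.trans f⟩⟩

instance finite_mulAut (S : Type*) [Group S] [Finite S] : Finite (MulAut S) :=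
  Finite.of_injective (fun f : MulAut S => (f : S → S)) DFunLike.coe_injective

theorem hout_of_card {S : Type*} [Group S] [Finite S] [IsSimpleGroup S]
    (hna : ∃ x y : S, x * y ≠ y * x) {p c : ℕ} (hp : p.Prime)
    (hc : Nat.card (MulAut S) = c * Nat.card S) (hpc : ¬ p ∣ c) (φ : MulAut S)
    (hφ : ∃ k : ℕ, orderOf φ = p ^ k) : φ ∈ (MulAut.conj : S →* MulAut S).range := by
  have hcen : center S = ⊥ := by
    rcases (inferInstance : (center S).Normal).eq_bot_or_eq_top with h | h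
    · exact h
    · exfalso
      obtain ⟨x, y, hxy⟩ := hna
      have hx : y ∈ center S := by rw [h]; trivial
      exact hxy (mem_center_iff.1 hx x)
  have hinj : Function.Injective (MulAut.conj : S →* MulAut S) := by
    rw [injective_iff_map_eq_one]
    intro x hx
    have h1 : x ∈ center S := by
      rw [mem_center_iff]
      intro y
      have h2 : (MulAut.conj x) y = y := by rw [hx]; rfl
      rw [MulAut.conj_apply] at h2
      exact (mul_inv_eq_iff_eq_mul.1 h2).symm
    rwa [hcen, mem_bot] at h1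
  obtain ⟨N, hN⟩ : ∃ N, N = (MulAut.conj : S →* MulAut S).range := ⟨_, rfl⟩
  rw [← hN]
  have hNn : N.Normal := by
    constructor
    intro n hn g
    rw [hN] at hn ⊢
    obtain ⟨s, rfl⟩ := hn
    refine ⟨g s, ?_⟩
    apply MulEquiv.ext
    intro x
    rw [MulAut.conj_apply, MulAut.mul_apply, MulAut.mul_apply, MulAut.conj_apply, map_mul, map_mul,
      map_inv]
    congr 2
    exact (g.apply_symm_apply x).symm
  have hcardN : Nat.card N = Nat.card S := by
    rw [hN]
    exact (Nat.card_congr (MonoidHom.ofInjective hinj).toEquiv).symm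
  have hidx : N.index = c := by
    have h1 := N.index_mul_card
    rw [hcardN, hc] at h1
    exact Nat.eq_of_mul_eq_mul_right Nat.card_pos h1
  obtain ⟨k, hk⟩ := hφ
  have h1 : orderOf (QuotientGroup.mk' N φ) ∣ p ^ k := by
    rw [← hk]
    exact orderOf_map_dvd _ φ
  have h2 : orderOf (QuotientGroup.mk' N φ) ∣ c := by
    rw [← hidx]
    exact orderOf_dvd_natCard _
  have h3 : Nat.Coprime (p ^ k) c := Nat.Coprime.pow_left k ((Nat.Prime.coprime_iff_not_dvd hp).2 hpc)
  have h4 : orderOf (QuotientGroup.mk' N φ) = 1 := Nat.eq_one_of_dvd_coprimes h3 h1 h2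
  rw [orderOf_eq_one_iff] at h4
  exact (QuotientGroup.eq_one_iff _).1 h4

theorem hout_alt {p m : ℕ} (hp : p.Prime) (hp2 : p ≠ 2) (hm : 5 ≤ m)
    {S : Type*} [Group S] [Finite S] [IsSimpleGroup S]
    (hna : ∃ x y : S, x * y ≠ y * x) (e : S ≃* alternatingGroup (Fin m)) (φ : MulAut S)
    (hφ : ∃ k : ℕ, orderOf φ = p ^ k) : φ ∈ (MulAut.conj : S →* MulAut S).range := by
  have hcongr : Nat.card (MulAut S) = Nat.card (MulAut (alternatingGroup (Fin m))) :=
    Nat.card_congr (MulAut.congr e).toEquiv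
  have hcS : Nat.card S = Nat.card (alternatingGroup (Fin m)) := Nat.card_congr e.toEquiv
  have hp2' : ∀ k, ¬ p ∣ 2 ^ k := fun k h => hp2 ((Nat.prime_dvd_prime_iff_eq hp Nat.prime_two).1
    (hp.dvd_of_dvd_pow h))
  by_cases h6 : m = 6
  · subst h6
    have hfi : Fintype (GaloisField 3 2) := Fintype.ofFinite _
    obtain ⟨f⟩ := Cfsg.Agent.S0254.result (F := GaloisField 3 2) (by
      rw [← Nat.card_eq_fintype_card, GaloisField.card 3 2 (by norm_num)]; norm_num)
    have hF : Fintype.card (GaloisField 3 2) = 3 ^ 2 := by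
      rw [← Nat.card_eq_fintype_card, GaloisField.card 3 2 (by norm_num)]
    have h1 := Cfsg.Agent.S0813.result (F := GaloisField 3 2) 3 2 (by norm_num) hF 2 le_rfl
      (fun _ => by norm_num)
    rw [if_pos rfl, one_mul, Cfsg.Agent.ClassicalGeometry.PSL2Basic.card_PGL2,
      ← Cfsg.Agent.ClassicalGeometry.PSL2Basic.card_PSL2_gcd, hF] at h1
    refine hout_of_card hna hp (c := 4) ?_ (hp2' 2) φ hφ
    rw [hcongr, hcS, Nat.card_congr (MulAut.congr f.symm).toEquiv, h1, Nat.card_congr f.toEquiv]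
    norm_num
    ring
  · have hb := Cfsg.Agent.S2119.result m (by omega) h6
    have h1 := Nat.card_congr (Equiv.ofBijective _ hb)
    have : Nontrivial (Fin m) := Fin.nontrivial_iff_two_le.2 (by omega)
    have h2 : Nat.card (Equiv.Perm (Fin m)) = 2 * Nat.card (alternatingGroup (Fin m)) := by
      rw [Nat.card_eq_fintype_card, Nat.card_eq_fintype_card, two_mul_card_alternatingGroup]
    refine hout_of_card hna hp (c := 2) ?_ (by have := hp2' 1; rwa [pow_one] at this) φ hφ
    rw [hcongr, hcS, ← h1, h2]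

/-- `PSL_2 = SL_2` in characteristic two -/
theorem psl_sl_equiv {K : Type*} [Field K] (h2 : (2 : K) = 0) :
    Nonempty (Matrix.ProjectiveSpecialLinearGroup (Fin 2) K ≃*
      Matrix.SpecialLinearGroup (Fin 2) K) := by
  have hch : CharP K 2 := CharTwo.of_one_ne_zero_of_two_eq_zero one_ne_zero h2
  have hbot : center (Matrix.SpecialLinearGroup (Fin 2) K) = ⊥ := by
    rw [eq_bot_iff]
    intro A hA
    obtain ⟨r, hr, hr'⟩ := Matrix.SpecialLinearGroup.mem_center_iff.mp hA
    rw [Fintype.card_fin] at hr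
    have h3 : r = 1 := by
      have h4 : (r - 1) ^ 2 = 0 := by linear_combination hr - (r - 1) * h2
      exact sub_eq_zero.1 (pow_eq_zero_iff two_ne_zero |>.1 h4)
    rw [mem_bot]
    apply Subtype.ext
    rw [← hr', h3, map_one]
    rfl
  exact ⟨(QuotientGroup.quotientMulEquivOfEq hbot).trans QuotientGroup.quotientBot⟩

theorem two_pow_bounds {p k : ℕ} (hp : p.Prime) (hk : p + 1 = 2 ^ k) : 2 ≤ k ∧ ¬ p ∣ k := by
  have hp2 := hp.two_le
  have hk2 : 2 ≤ k := by
    by_contra hcon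
    have : k = 0 ∨ k = 1 := by omega
    rcases this with rfl | rfl
    · rw [pow_zero] at hk; omega
    · rw [pow_one] at hk; omega
  refine ⟨hk2, fun h => ?_⟩
  have h1 := Nat.le_of_dvd (by omega) h
  have h2 : ∀ j : ℕ, j + 2 + 1 < 2 ^ (j + 2) := by
    intro j
    induction j with
    | zero => norm_num
    | succ j ih =>
      have e : 2 ^ (j + 1 + 2) = 2 * 2 ^ (j + 2) := by ring
      rw [e]
      omega
  obtain ⟨j, rfl⟩ := Nat.exists_eq_add_of_le' hk2
  have := h2 j
  omega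

theorem hout_sl {p k : ℕ} (hp : p.Prime) (hk : p + 1 = 2 ^ k)
    {S : Type*} [Group S] [Finite S] [IsSimpleGroup S]
    (hna : ∃ x y : S, x * y ≠ y * x)
    (e : S ≃* Matrix.SpecialLinearGroup (Fin 2) (GaloisField 2 k)) (φ : MulAut S)
    (hφ : ∃ k : ℕ, orderOf φ = p ^ k) : φ ∈ (MulAut.conj : S →* MulAut S).range := by
  obtain ⟨hk2, hpk⟩ := two_pow_bounds hp hk
  have hch2 : (2 : GaloisField 2 k) = 0 := by
    have := CharP.cast_eq_zero (GaloisField 2 k) 2
    exact_mod_cast this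
  obtain ⟨f⟩ := psl_sl_equiv hch2
  have : Fintype (GaloisField 2 k) := Fintype.ofFinite _
  have hF : Fintype.card (GaloisField 2 k) = 2 ^ k := by
    rw [← Nat.card_eq_fintype_card, GaloisField.card 2 k (by omega)]
  have h4 : 4 ≤ 2 ^ k := by
    calc 4 = 2 ^ 2 := by norm_num
      _ ≤ 2 ^ k := Nat.pow_le_pow_right (by norm_num) hk2
  have h1 := Cfsg.Agent.S0813.result (F := GaloisField 2 k) 2 k (by omega) hF 2 le_rfl
    (fun _ => h4)
  have hodd : Nat.gcd 2 (2 ^ k - 1) = 1 := by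
    rw [Nat.gcd_comm]
    have : Nat.Coprime (2 ^ k - 1) 2 := by
      rw [Nat.coprime_two_right]
      have h5 : 2 ∣ 2 ^ k := dvd_pow_self 2 (by omega)
      rw [Nat.odd_iff]
      omega
    exact this
  rw [if_pos rfl, one_mul, Cfsg.Agent.ClassicalGeometry.PSL2Basic.card_PGL2,
    ← Cfsg.Agent.ClassicalGeometry.PSL2Basic.card_PSL2_gcd, hF, hodd, mul_one] at h1
  refine hout_of_card hna hp (c := k) ?_ hpk φ hφ
  rw [Nat.card_congr (MulAut.congr (e.trans f.symm)).toEquiv, h1,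
    Nat.card_congr (e.trans f.symm).toEquiv]

/-- **Automorphisms of `p`-power order of the excluded groups are inner.** -/
theorem Bad.hout {p : ℕ} (hp : p.Prime) (hp2 : p ≠ 2) {S : Type u} [Group S] [Finite S]
    (hS : IsSimpleGroup S) (hna : ∃ x y : S, x * y ≠ y * x) (h : Bad p S) (φ : MulAut S)
    (hφ : ∃ k : ℕ, orderOf φ = p ^ k) : φ ∈ (MulAut.conj : S →* MulAut S).range := by
  rcases h with ⟨m, h1, h2, ⟨f⟩⟩ | ⟨k, h1, ⟨f⟩⟩
  · refine hout_alt hp hp2 ?_ hna f φ hφ
    have := hp.two_le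
    omega
  · exact hout_sl hp h1 hna f φ hφ

/-- `PSL_2(p + 1)` is excluded. -/
theorem bad_psl_two {F : Type*} [Field F] [Fintype F] {p : ℕ} (hp : p.Prime) (hp2 : p ≠ 2)
    (hF : Fintype.card F = p + 1) : Bad p (Matrix.ProjectiveSpecialLinearGroup (Fin 2) F) := by
  obtain ⟨r, hr⟩ := CharP.exists F
  have hrp : r.Prime := CharP.char_is_prime F r
  have : Fact r.Prime := ⟨hrp⟩
  obtain ⟨k, -, hk⟩ := FiniteField.card F r
  have hr2 : r = 2 := by
    have h1 : 2 ∣ p + 1 := by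
      obtain ⟨j, hj⟩ := hp.odd_of_ne_two hp2
      omega
    rw [← hF, hk] at h1
    exact ((Nat.prime_dvd_prime_iff_eq Nat.prime_two hrp).1 (Nat.prime_two.dvd_of_dvd_pow h1)).symm
  subst hr2
  have h2 : (2 : F) = 0 := by
    have := CharP.cast_eq_zero F 2
    exact_mod_cast this
  have hk' : p + 1 = 2 ^ (k : ℕ) := by rw [← hF, hk]
  obtain ⟨f⟩ := psl_sl_equiv h2
  have : Fintype (GaloisField 2 (k : ℕ)) := Fintype.ofFinite _
  have hG : Fintype.card (GaloisField 2 (k : ℕ)) = Fintype.card F := by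
    rw [← Nat.card_eq_fintype_card, GaloisField.card 2 (k : ℕ) (by exact k.ne_zero), hk]
  obtain ⟨g⟩ : Nonempty (F ≃+* GaloisField 2 (k : ℕ)) :=
    ⟨FiniteField.ringEquivOfCardEq hG.symm⟩
  refine Or.inr ⟨k, hk', ⟨f.trans ?_⟩⟩
  refine MonoidHom.toMulEquiv
    (Matrix.SpecialLinearGroup.map (n := Fin 2) (g : F →+* GaloisField 2 (k : ℕ)))
    (Matrix.SpecialLinearGroup.map (n := Fin 2) (g.symm : GaloisField 2 (k : ℕ) →+* F)) ?_ ?_
  · ext A i j
    simp
  · ext A i j
    simp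

/-- `PSL_4(2) ≅ A_8` is excluded for `p = 5`. -/
theorem bad_psl_four {F : Type*} [Field F] [Fintype F] (hF : Fintype.card F = 2) :
    Bad 5 (Matrix.ProjectiveSpecialLinearGroup (Fin 4) F) := by
  obtain ⟨f⟩ := Cfsg.Agent.S0256.result hF
  exact Or.inl ⟨8, by norm_num, by norm_num, ⟨f⟩⟩

end Cfsg.Agent.H398.FPR
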