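import Cfsg.Agent.H398.FPR.Frame

/-!
# `p ∣ q - 1` in characteristic two: long root elements exist (`Λ ≠ 0`)
-/

set_option autoImplicit false
open Subgroup MulAction

namespace Cfsg.Agent.H398.FPR

open Cfsg.Agent.TitsThree.Siegel Cfsg.Agent.TitsThree.SiegelGen Cfsg.Agent.H110.Fpr
open Cfsg.Agent.H435.Fpr (PairM)

variable {F : Type*} [Field F] {V : Type*} [AddCommGroup V] [Module F V]
variable {H : HForm F V} {P : PQ H}

theorem charP_two (h2 : (2 : F) = 0) : CharP F 2 :=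
  CharTwo.of_one_ne_zero_of_two_eq_zero one_ne_zero h2

theorem Dec.rad_le_SG {T M T' : Submodule F V} (d : Dec P T M T') :
    rad P T (T ⊔ M) ≤ SG P := by
  apply rad_le
  intro u w c hu hw huT _ hwc
  exact sie_mem_SG P hu hw (d.s1 u huT) hwc

/-- `x` acts freely on `zrad` -/
theorem FreeOn.zrad {T M T' : Submodule F V} (_d : Dec P T M T') {x : V ≃ₗ[F] V}
    (a : XAct P T M T' x) (h : FreeOn x (rad P T (T ⊔ M))) : FreeOn x (zrad P T M) := by
  refine ⟨?_, fun r hr => h.free r hr.1⟩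
  have hxM : ∀ m ∈ M, x⁻¹ m = m := by
    intro m hm
    have h1 : x.symm m = m := by rw [LinearEquiv.symm_apply_eq, a.m m hm]
    exact h1
  rw [mem_normalizer_iff]
  intro g
  rw [mem_zrad, mem_zrad]
  constructor
  · rintro ⟨h1, h2⟩
    refine ⟨(mem_normalizer_iff.1 h.norm g).1 h1, fun m hm => ?_⟩
    show x (g (x⁻¹ m)) = m
    rw [hxM m hm, h2 m hm, a.m m hm]
  · rintro ⟨h1, h2⟩
    refine ⟨(mem_normalizer_iff.1 h.norm g).2 h1, fun m hm => ?_⟩
    have h3 : x (g (x⁻¹ m)) = m := h2 m hm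
    rw [hxM m hm] at h3
    rw [← hxM m hm]
    have h4 : x⁻¹ (x (g m)) = x⁻¹ m := by rw [h3]
    rw [show x⁻¹ (x (g m)) = g m from x.symm_apply_apply (g m)] at h4
    rw [hxM m hm] at h4 ⊢
    exact h4

theorem FreeOn.pow_ne {G : Type*} [Group G] {x : G} {R : Subgroup G} (h : FreeOn x R)
    (hR : ∃ g ∈ R, g ≠ 1) : x ≠ 1 := by
  rintro rfl
  obtain ⟨g, hg, hg1⟩ := hR
  exact hg1 (h.free g hg (by group))

/-- **Two radicals, with the overgroup argument.** -/
theorem uGood_dec [Finite V] (h2 : (2 : F) = 0) {T M T' : Submodule F V} (d : Dec P T M T')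
    {p k m0 : ℕ} (hp : p.Prime) (hM : ∀ t : ℕ, t ≠ 0 → 2 ^ t ≡ 1 [MOD p] → m0 ≤ 2 ^ t)
    {x : V ≃ₗ[F] V} (hxS : x ∈ SG P) (hx : x ^ p ^ k = 1) (a : XAct P T M T' x)
    (f1 : FreeOn x (rad P T (T ⊔ M))) (f2 : FreeOn x (rad P T' (T' ⊔ M)))
    {u u' : V} (hu : u ∈ T) (hu' : u' ∈ T') (huu' : H.h u u' ≠ 0) {m m' : V} (hm : m ∈ M)
    (hm' : m' ∈ M) (hmm' : H.h m m' ≠ 0)
    (z1 : ∃ z ∈ zrad P T M, z ≠ 1) (z2 : ∃ z ∈ zrad P T' M, z ≠ 1)
    (hzt1 : ∀ D : Subgroup (V ≃ₗ[F] V), rad P T (T ⊔ M) ≤ D → ∀ u ∈ T, Zt P D Set.univ u)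
    (hzt2 : ∀ D : Subgroup (V ≃ₗ[F] V), rad P T' (T' ⊔ M) ≤ D → ∀ u ∈ T', Zt P D Set.univ u) :
    UGood 1 m0 (⟨x, hxS⟩ : SG P) := by
  have hch := charP_two h2
  have : Fact (Nat.Prime 2) := ⟨Nat.prime_two⟩
  have hfin : Finite (V ≃ₗ[F] V) := instFin
  have hR1 : IsPGroup 2 (rad P T (T ⊔ M)) := rad_isPGroup d
  have hR2 : IsPGroup 2 (rad P T' (T' ⊔ M)) := rad_isPGroup d.symm
  have hZ1 : IsPGroup 2 (zrad P T M) := hR1.to_le inf_le_left
  have hZ2 : IsPGroup 2 (zrad P T' M) := hR2.to_le inf_le_left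
  have c1 : m0 ≤ Nat.card (zrad P T M) := (f1.zrad d a).le_card hp Nat.prime_two hx hZ1 hM z1
  have c2 : m0 ≤ Nat.card (zrad P T' M) :=
    (f2.zrad d.symm a.symm).le_card hp Nat.prime_two hx hZ2 hM z2
  have hx' : (⟨x, hxS⟩ : SG P) ^ p ^ k = 1 := Subtype.ext hx
  have p1 := (f1.subgroupOf hxS).pairM hp Nat.prime_two hx' (isPGroup_subgroupOf hR1) hM
  have p2 := (f2.subgroupOf hxS).pairM hp Nat.prime_two hx' (isPGroup_subgroupOf hR2) hM
  apply two_free_uGood (f1.subgroupOf hxS) (f2.subgroupOf hxS)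
  intro D hD hxD
  have hDle : D.map (SG P).subtype ≤ SG P := by
    rintro _ ⟨g, -, rfl⟩
    exact g.2
  have hDne : ¬ SG P ≤ D.map (SG P).subtype := by
    intro hle
    apply hD
    rw [eq_top_iff]
    intro g _
    obtain ⟨g', hg', he⟩ := hle g.2
    rwa [← Subtype.ext he]
  have hle : ∀ {R : Subgroup (V ≃ₗ[F] V)}, R ≤ SG P → R.subgroupOf (SG P) ≤ D →
      R ≤ D.map (SG P).subtype := by
    intro R hR h1 g hg
    exact ⟨⟨g, hR hg⟩, h1 hg, rfl⟩
  by_cases a1 : (rad P T (T ⊔ M)).subgroupOf (SG P) ≤ D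
  · have b1 := over_relIndex d hDle hDne (hzt1 _ (hle d.rad_le_SG a1)) hu hu' huu' hm hm' hmm'
    rw [← relIndex_subgroupOf_eq d.symm.rad_le_SG] at b1
    omega
  · by_cases a2 : (rad P T' (T' ⊔ M)).subgroupOf (SG P) ≤ D
    · have b1 := over_relIndex d.symm hDle hDne (hzt2 _ (hle d.symm.rad_le_SG a2)) hu' hu
        (fun h => huu' (H.orth_symm h)) hm hm' hmm'
      rw [← relIndex_subgroupOf_eq d.rad_le_SG] at b1
      omega
    · have b1 := le_relIndex_of_pairM p1 hxD a1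
      have b2 := le_relIndex_of_pairM p2 hxD a2
      omega

section One

variable {e f : V}

theorem frame_one (he : P.ok e 0) (hf : P.ok f 0) (hef : H.h e f = 1) :
    HFr P (fun _ : Unit => e) (fun _ : Unit => f) where
  es _ := he
  fs _ := hf
  ee _ _ := P.iso he
  ff _ _ := P.iso hf
  ef _ _ := by rw [hef, if_pos rfl]

/-- the subgroup generated by the two long root subgroups -/
def KOne (P : PQ H) (e f : V) : Subgroup (V ≃ₗ[F] V) :=
  Subgroup.closure {g | ∃ (u : V) (c : F) (hu : H.h u u = 0), (u = e ∨ u = f) ∧ P.ok 0 c ∧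
    g = H.sie u 0 c hu (H.zero_right u)}

theorem KOne_le (he : P.ok e 0) (hf : P.ok f 0) : KOne P e f ≤ SG P := by
  unfold KOne
  rw [closure_le]
  rintro _ ⟨u, c, hu, rfl | rfl, hc, rfl⟩
  · exact sie_mem_SG P _ _ he hc
  · exact sie_mem_SG P _ _ hf hc

/-- **The element `diag (λ, 1, λ⁻¹)`.** -/
theorem exists_diag_one (h2 : (2 : F) = 0) (hε : H.ε = 1) (he : P.ok e 0) (hf : P.ok f 0)
    (hef : H.h e f = 1) {lam : F} (hl : lam ≠ 0) (k1 : P.ok 0 lam)
    (k2 : P.ok 0 ((lam + 1) / lam)) (k3 : P.ok 0 1) (k4 : P.ok 0 (lam + 1)) :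
    ∃ x ∈ KOne P e f, x e = lam • e ∧ x f = lam⁻¹ • f ∧
      ∀ v, H.h v e = 0 → H.h v f = 0 → x v = v := by
  have hee := P.iso he
  have hff := P.iso hf
  have hfe : H.h f e = 1 := by rw [H.swap e f, hef, map_one, mul_one, hε]
  obtain ⟨A, hA⟩ : ∃ A : F → V ≃ₗ[F] V, A = fun s => H.sie e 0 s hee (H.zero_right e) := ⟨_, rfl⟩
  obtain ⟨B, hB⟩ : ∃ B : F → V ≃ₗ[F] V, B = fun s => H.sie f 0 s hff (H.zero_right f) := ⟨_, rfl⟩
  have a0 : ∀ s v, A s v = v + (s * H.h v e) • e := by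
    intro s v
    rw [hA]
    show H.sie e 0 s hee (H.zero_right e) v = _
    rw [H.sie_apply, H.zero_right]
    simp
  have b0 : ∀ s v, B s v = v + (s * H.h v f) • f := by
    intro s v
    rw [hB]
    show H.sie f 0 s hff (H.zero_right f) v = _
    rw [H.sie_apply, H.zero_right]
    simp
  have key := diag_apply h2 A B (u := e) (u' := f) (fun s => by rw [a0, hee]; simp)
    (fun s => by rw [a0, hfe]; simp) (fun s => by rw [b0, hff]; simp)
    (fun s => by rw [b0, hef]; simp) hl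
  refine ⟨_, ?_, key.1, key.2, ?_⟩
  · have hAm : ∀ s, P.ok 0 s → A s ∈ KOne P e f := by
      intro s hs
      rw [hA]
      exact subset_closure ⟨e, s, hee, Or.inl rfl, hs, rfl⟩
    have hBm : ∀ s, P.ok 0 s → B s ∈ KOne P e f := by
      intro s hs
      rw [hB]
      exact subset_closure ⟨f, s, hff, Or.inr rfl, hs, rfl⟩
    exact mul_mem (mul_mem (mul_mem (hAm _ k1) (hBm _ k2)) (hAm _ k3)) (hBm _ k4)
  · intro v hve hvf
    show A lam (B ((lam + 1) / lam) (A 1 (B (lam + 1) v))) = v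
    have hA1 : ∀ s, A s v = v := fun s => by rw [a0, hve]; simp
    have hB1 : ∀ s, B s v = v := fun s => by rw [b0, hvf]; simp
    rw [hB1, hA1, hB1, hA1]

/-- a nontrivial central element of the radical -/
theorem exists_zrad_one (he : P.ok e 0) (hf : P.ok f 0) (hef : H.h e f = 1) (k3 : P.ok 0 1) :
    ∃ z ∈ zrad P (Submodule.span F (Set.range fun _ : Unit => e))
      (mid H (fun _ : Unit => e) fun _ : Unit => f), z ≠ 1 := by
  have hee := P.iso he
  have hff := P.iso hf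
  have hfe : H.h f e ≠ 0 := by
    intro h
    have := H.orth_symm h
    rw [hef] at this
    exact one_ne_zero this
  refine ⟨H.sie e 0 1 hee (H.zero_right e), ⟨?_, ?_⟩, ?_⟩
  · exact sie_mem_rad _ _ (Submodule.subset_span ⟨(), rfl⟩) (Submodule.zero_mem _) k3
  · intro m hm
    rw [H.sie_apply, (mem_mid.1 hm).1 (), H.zero_right]
    simp
  · intro h
    have h1 := congrArg (fun g : V ≃ₗ[F] V => g f) h
    have h3 : H.sie e 0 1 hee (H.zero_right e) f = f := h1
    rw [H.sie_apply, H.zero_right] at h3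
    have h4 : H.h f e • e = 0 := by
      have h5 : f + H.h f e • e = f := by simpa using h3
      exact left_eq_add.1 h5.symm
    rcases smul_eq_zero.1 h4 with h5 | h5
    · exact hfe h5
    · rw [h5, H.zero_left] at hef
      exact zero_ne_one hef

/-- **The case of a scalar on a singular line.** -/
theorem uGood_one [Finite V] (h2 : (2 : F) = 0) {p k m0 : ℕ} (hp : p.Prime)
    (hM : ∀ t : ℕ, t ≠ 0 → 2 ^ t ≡ 1 [MOD p] → m0 ≤ 2 ^ t)
    (hnd : ∀ v : V, v ≠ 0 → ∃ w, H.h v w ≠ 0)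
    (he : P.ok e 0) (hf : P.ok f 0) (hef : H.h e f = 1) (k3 : P.ok 0 1)
    {lam : F} (hl0 : lam ≠ 0) (hl2 : lam * lam ≠ 1) {x : V ≃ₗ[F] V} (hxS : x ∈ SG P)
    (hx : x ^ p ^ k = 1) (hxe : x e = lam • e) (hxf : x f = lam⁻¹ • f)
    (hxM : ∀ v, H.h v e = 0 → H.h v f = 0 → x v = v)
    {m m' : V} (hme : H.h m e = 0) (hmf : H.h m f = 0) (hme' : H.h m' e = 0)
    (hmf' : H.h m' f = 0) (hmm' : H.h m m' ≠ 0) : UGood 1 m0 (⟨x, hxS⟩ : SG P) := by
  have hfr := frame_one he hf hef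
  have d := hfr.dec hnd
  have hee := P.iso he
  have hff := P.iso hf
  have hl1 : lam ≠ 1 := fun h => hl2 (by rw [h, one_mul])
  have hli1 : lam⁻¹ ≠ 1 := fun h => hl1 (by rw [← inv_inv lam, h, inv_one])
  have hll : lam ≠ lam⁻¹ := by
    intro h
    apply hl2
    nth_rewrite 2 [h]
    exact mul_inv_cancel₀ hl0
  have heT : e ∈ Submodule.span F (Set.range fun _ : Unit => e) :=
    Submodule.subset_span ⟨(), rfl⟩
  have hfT : f ∈ Submodule.span F (Set.range fun _ : Unit => f) :=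
    Submodule.subset_span ⟨(), rfl⟩
  have hmid : ∀ v, v ∈ mid H (fun _ : Unit => e) (fun _ : Unit => f) ↔
      H.h v e = 0 ∧ H.h v f = 0 := by
    intro v
    rw [mem_mid]
    exact ⟨fun h => ⟨h.1 (), h.2 ()⟩, fun h => ⟨fun _ => h.1, fun _ => h.2⟩⟩
  have a : XAct P _ _ _ x := xact_of (e := fun _ : Unit => e) (f := fun _ : Unit => f) hxS
    (fun _ => by rw [hxe]; exact Submodule.smul_mem _ _ heT)
    (fun _ => by rw [hxf]; exact Submodule.smul_mem _ _ hfT)
    (fun w hw => hxM w ((hmid w).1 hw).1 ((hmid w).1 hw).2)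
  have s1 : ∀ t ∈ Submodule.span F (Set.range fun _ : Unit => e), x t = lam • t := by
    intro t ht
    rw [Set.range_const, Submodule.mem_span_singleton] at ht
    obtain ⟨s, rfl⟩ := ht
    rw [map_smul, hxe, smul_comm]
  have s2 : ∀ t ∈ Submodule.span F (Set.range fun _ : Unit => f), x t = lam⁻¹ • t := by
    intro t ht
    rw [Set.range_const, Submodule.mem_span_singleton] at ht
    obtain ⟨s, rfl⟩ := ht
    rw [map_smul, hxf, smul_comm]
  have rt : ∀ {e f : V}, H.h e f = 1 → ∀ D : Subgroup (V ≃ₗ[F] V),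
      ∀ u ∈ Submodule.span F (Set.range fun _ : Unit => e),
      ∀ t ∈ Submodule.span F (Set.range fun _ : Unit => f), H.h u t = 0 → Rt H D u t := by
    intro e f hef D u hu t ht hut
    rw [Set.range_const, Submodule.mem_span_singleton] at hu ht
    obtain ⟨s, rfl⟩ := hu
    obtain ⟨s', rfl⟩ := ht
    rw [H.smul_left, H.smul_right, hef, mul_one] at hut
    intro r hx hy
    have h1 : H.sie (s • e) (r • s' • f) 0 hx hy = 1 := by
      ext v
      rw [H.sie_apply, H.smul_right, H.smul_right, H.smul_right]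
      rcases mul_eq_zero.1 hut with h0 | h0
      · rw [h0]; simp
      · have : s' = 0 := by simpa using h0
        rw [this]; simp
    rw [h1]
    exact one_mem _
  have hfe1 : H.h ((H.ε⁻¹ : F) • f) e = 1 := by
    rw [H.smul_left, H.swap e f, hef, map_one, mul_one, inv_mul_cancel₀ H.ε_ne]
  refine uGood_dec h2 d hp hM hxS hx a (freeOn_scal d a s1 s2 hl1 hll)
    (freeOn_scal d.symm a.symm s2 s1 hli1 hll.symm) heT hfT (by rw [hef]; exact one_ne_zero)
    ((hmid m).2 ⟨hme, hmf⟩) ((hmid m').2 ⟨hme', hmf'⟩) hmm' (exists_zrad_one he hf hef k3) ?_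
    (fun D hD => over_zt d hD (rt hef D)) ?_
  · have h3 := exists_zrad_one (P := P) (P.sing_smul hf H.ε⁻¹) he hfe1 k3
    have e1 : Submodule.span F (Set.range fun _ : Unit => (H.ε⁻¹ : F) • f) =
        Submodule.span F (Set.range fun _ : Unit => f) := by
      rw [Set.range_const, Set.range_const]
      exact Submodule.span_singleton_smul_eq (IsUnit.mk0 _ (inv_ne_zero H.ε_ne)) f
    have e2 : mid H (fun _ : Unit => (H.ε⁻¹ : F) • f) (fun _ : Unit => e) =
        mid H (fun _ : Unit => e) (fun _ : Unit => f) := by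
      ext v
      rw [hmid, mem_mid]
      constructor
      · rintro ⟨h4, h5⟩
        refine ⟨h5 (), ?_⟩
        have h6 := h4 ()
        rw [H.smul_right] at h6
        rcases mul_eq_zero.1 h6 with h7 | h7
        · exfalso
          have : H.ε⁻¹ = 0 := by simpa using h7
          exact inv_ne_zero H.ε_ne this
        · exact h7
      · rintro ⟨h4, h5⟩
        exact ⟨fun _ => by rw [H.smul_right, h5, mul_zero], fun _ => h4⟩
    rw [e1, e2] at h3
    exact h3
  · intro D hD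
    refine over_zt d.symm hD ?_
    intro u hu t ht hut
    have e1 : Submodule.span F (Set.range fun _ : Unit => (H.ε⁻¹ : F) • f) =
        Submodule.span F (Set.range fun _ : Unit => f) := by
      rw [Set.range_const, Set.range_const]
      exact Submodule.span_singleton_smul_eq (IsUnit.mk0 _ (inv_ne_zero H.ε_ne)) f
    exact rt hfe1 D u (by rw [e1]; exact hu) t ht hut

end One

end Cfsg.Agent.H398.FPR
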