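import Cfsg.Agent.H398.FPR.KT

/-!
# `p = 2 ^ k - 1`, `ord_p q = k ≥ 3`: `x ∈ SL(T)`, `dim T = k`
-/

set_option autoImplicit false
open Subgroup MulAction

namespace Cfsg.Agent.H398.FPR

open Cfsg.Agent.TitsThree.Siegel Cfsg.Agent.TitsThree.SiegelGen Cfsg.Agent.H110.Fpr
open Cfsg.Agent.H435.Fpr (PairM)
open Cfsg.Agent.H221.PP

variable {F : Type*} [Field F] {V : Type*} [AddCommGroup V] [Module F V]
variable {H : HForm F V} {P : PQ H} {T M T' : Submodule F V}

/-- The Mersenne algebra. -/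
theorem mers_zero (h2 : (2 : F) = 0) {x : V ≃ₗ[F] V} {w : V} {s p : ℕ}
    (h1 : x w + w = (x ^ s) w) (h1' : (x ^ s) (x w + w) = x w) (hp : (x ^ p) w = w)
    (h3 : Nat.Coprime 3 p) : w = 0 := by
  have hdouble : ∀ v : V, v + v = 0 := by
    intro v
    have : v + v = (2 : F) • v := by rw [two_smul]
    rw [this, h2, zero_smul]
  have hcomm : x ((x ^ s) w) = (x ^ s) (x w) := by
    have : x * x ^ s = x ^ s * x := by rw [← pow_succ', pow_succ]
    exact congrArg (fun g : V ≃ₗ[F] V => g w) this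
  -- `x² w = x w + w`
  have h4 : x (x w) = x w + w := by
    have h5 : x (x w + w) + (x w + w) = x w := by
      conv_lhs => rw [h1, hcomm, ← map_add, h1']
    rw [map_add] at h5
    have h6 : x (x w) + x w + (x w + w) = x (x w) + w := by
      have : x (x w) + x w + (x w + w) = x (x w) + w + (x w + x w) := by abel
      rw [this, hdouble, add_zero]
    rw [h6] at h5
    have h7 : x (x w) = x (x w) + w + w := by rw [add_assoc, hdouble, add_zero]
    rw [h7, h5]
  have h5 : x (x (x w)) = w := by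
    rw [h4, map_add, h4]
    have : x w + w + x w = w + (x w + x w) := by abel
    rw [this, hdouble, add_zero]
  have h6 : x ^ 3 ∈ stabilizer (V ≃ₗ[F] V) w := by
    rw [mem_stabilizer_iff]
    exact h5
  have h7 : x ^ p ∈ stabilizer (V ≃ₗ[F] V) w := hp
  have h8 : x ∈ stabilizer (V ≃ₗ[F] V) w := by
    have h9 : IsCoprime (3 : ℤ) (p : ℤ) := by
      have := Nat.isCoprime_iff_coprime.2 h3
      exact_mod_cast this
    obtain ⟨a, b, hab⟩ := h9
    have h10 : x = (x ^ 3) ^ a * (x ^ p) ^ b := by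
      rw [← zpow_natCast, ← zpow_natCast, ← zpow_mul, ← zpow_mul, ← zpow_add]
      have : ((3 : ℕ) : ℤ) * a + (p : ℤ) * b = 1 := by
        push_cast
        linear_combination hab
      rw [this, zpow_one]
    rw [h10]
    exact mul_mem (zpow_mem h6 a) (zpow_mem h7 b)
  have h9 : x w = w := h8
  rw [h9, hdouble] at h1
  exact ((x ^ s).map_eq_zero_iff).1 h1.symm

/-- the relation on the dual side -/
theorem mers_dual (d : Dec P T M T') {x : V ≃ₗ[F] V} (a : XAct P T M T' x) {s p : ℕ}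
    (hp : p ≠ 0) (hxp : x ^ p = 1) (hs : ∀ t ∈ T, x t + t = (x ^ s) t) :
    ∀ t ∈ T', (x ^ s) (x t + t) = x t := by
  intro t ht
  have hpi := isIso_pow a.iso s
  have c1 : ∀ v, (x ^ s) (x v) = x ((x ^ s) v) := by
    intro v
    have : x ^ s * x = x * x ^ s := by rw [← pow_succ, pow_succ']
    exact congrArg (fun g : V ≃ₗ[F] V => g v) this
  rw [← sub_eq_zero]
  have hmem : (x ^ s) (x t + t) - x t ∈ T' :=
    T'.sub_mem (pow_mem_sub a.t2 s _ (T'.add_mem (a.t2 t ht) ht)) (a.t2 t ht)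
  apply d.eq_zero
  · intro u hu
    -- `u = x ^ s (x r)`
    obtain ⟨r, hr, rfl⟩ : ∃ r ∈ T, u = (x ^ s) (x r) := by
      refine ⟨(x ^ ((s + 1) * (p - 1))) u, pow_mem_sub a.t1 _ u hu, ?_⟩
      have h1 : x ^ s * x * x ^ ((s + 1) * (p - 1)) = 1 := by
        rw [← pow_succ, ← pow_add]
        have : s + 1 + (s + 1) * (p - 1) = p * (s + 1) := by
          obtain ⟨p', rfl⟩ := Nat.exists_eq_succ_of_ne_zero hp
          rw [Nat.succ_sub_one, Nat.succ_eq_add_one]
          ring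
        rw [this, pow_mul, hxp, one_pow]
      exact (congrArg (fun g : V ≃ₗ[F] V => g u) h1).symm
    have e1 : H.h ((x ^ s) (x t)) ((x ^ s) (x r)) = H.h t r := by rw [hpi, a.iso]
    have e2 : H.h ((x ^ s) t) ((x ^ s) (x r)) = H.h t (x r) := by rw [hpi]
    have e3 : H.h (x t) ((x ^ s) (x r)) = H.h t (x r) + H.h t r := by
      rw [c1, a.iso, ← hs r hr, H.add_right]
    rw [map_add, H.sub_left, H.add_left, e1, e2, e3]
    ring
  · exact fun m hm => d.m2 _ hmem m hm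
  · exact fun u hu => d.o2 _ hmem u hu

/-- **Free action on both radicals.** -/
theorem freeOn_mers [Finite V] (h2 : (2 : F) = 0) (d : Dec P T M T') {x : V ≃ₗ[F] V}
    (a : XAct P T M T' x) {s p : ℕ} (hp : p ≠ 0) (hxp : x ^ p = 1) (h3 : Nat.Coprime 3 p)
    (hs : ∀ t ∈ T, x t + t = (x ^ s) t) :
    FreeOn x (rad P T (T ⊔ M)) ∧ FreeOn x (rad P T' (T' ⊔ M)) := by
  have hs' := mers_dual d a hp hxp hs
  have hdouble : ∀ v : V, v + v = 0 := by
    intro v
    have : v + v = (2 : F) • v := by rw [two_smul]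
    rw [this, h2, zero_smul]
  have hpow : ∀ v, (x ^ p) v = v := fun v => by rw [hxp]; rfl
  have tpow : ∀ (τ : V →ₗ[F] V) (T : Submodule F V), (∀ v ∈ T, x v ∈ T) →
      (∀ v ∈ T, x (τ v) = τ (x v)) → ∀ n : ℕ, ∀ v ∈ T, (x ^ n) (τ v) = τ ((x ^ n) v) := by
    intro τ T hT h n
    induction n with
    | zero => intro v _; rfl
    | succ n ih =>
      intro v hv
      rw [pow_succ]
      show (x ^ n) (x (τ v)) = τ ((x ^ n) (x v))
      rw [h v hv, ih _ (hT v hv)]
  constructor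
  · apply freeOn_rad d a
    · intro t ht hx
      have h4 := hs t ht
      rw [hx, hdouble] at h4
      exact ((x ^ s).map_eq_zero_iff).1 h4.symm
    · intro τ h4 h5 v hv
      apply mers_zero h2 (s := s) (p := p) (hs _ (h4 v hv)) _ (hpow _) h3
      rw [h5 v hv, ← map_add, tpow τ T' a.t2 h5 s _ (T'.add_mem (a.t2 v hv) hv), hs' v hv]
  · apply freeOn_rad d.symm a.symm
    · intro t ht hx
      have h4 := hs' t ht
      rw [hx, hdouble, map_zero] at h4
      exact h4.symm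
    · intro τ h4 h5 v hv
      apply mers_zero h2 (s := s) (p := p) _ (hs' _ (h4 v hv)) (hpow _) h3
      rw [h5 v hv, ← map_add, hs v hv, tpow τ T a.t1 h5 s v hv]

theorem FreeOn.of_pow {G : Type*} [Group G] {y : G} {R : Subgroup G} {j : ℕ}
    (h : FreeOn (y ^ j) R) (hy : y ∈ normalizer (R : Set G)) : FreeOn y R := by
  refine ⟨hy, fun r hr hyr => h.free r hr ?_⟩
  have h1 : ∀ n : ℕ, y ^ n * r * (y ^ n)⁻¹ = r := by
    intro n
    induction n with
    | zero => simp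
    | succ n ih =>
      have e : y ^ (n + 1) * r * (y ^ (n + 1))⁻¹ = y * (y ^ n * r * (y ^ n)⁻¹) * y⁻¹ := by
        rw [pow_succ']; group
      rw [e, ih, hyr]
  exact h1 j

/-- elements of `KT` act as in `XAct` -/
theorem Dec.kt_xact (d : Dec P T M T') {g : V ≃ₗ[F] V} (hg : g ∈ KT H T T') :
    XAct P T M T' g := by
  have h := (d.kprop hg).1
  obtain ⟨h1, h2, -⟩ := SG_iso (d.KT_le hg)
  exact ⟨h1, h2, h.t1, h.t2, h.m⟩

theorem XAct.normalizer (_d : Dec P T M T') [Finite V] {g : V ≃ₗ[F] V} (a : XAct P T M T' g) :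
    g ∈ Subgroup.normalizer ((rad P T (T ⊔ M) : Subgroup (V ≃ₗ[F] V)) : Set (V ≃ₗ[F] V)) := by
  apply mem_normalizer_of_conj
  refine rad_conj a.iso a.ok a.t1 ?_
  intro w hw
  obtain ⟨t, ht, m, hm, rfl⟩ := Submodule.mem_sup.1 hw
  rw [map_add, a.m m hm]
  exact Submodule.add_mem_sup (a.t1 t ht) hm

/-- nontrivial elements of `zrad` -/
theorem exists_zrad_two {ι : Type*} [DecidableEq ι] {e f : ι → V} (hfr : HFr P e f) {i j : ι}
    (hij : i ≠ j) : ∃ z ∈ zrad P (Submodule.span F (Set.range e)) (mid H e f), z ≠ 1 := by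
  have hei := hfr.ee i i
  have hej := hfr.ee i j
  have hmi : e i ∈ Submodule.span F (Set.range e) := Submodule.subset_span ⟨i, rfl⟩
  have hmj : e j ∈ Submodule.span F (Set.range e) := Submodule.subset_span ⟨j, rfl⟩
  refine ⟨H.sie (e i) (e j) 0 hei hej, mem_zrad.2
    ⟨sie_mem_rad hei hej hmi (Submodule.mem_sup_left hmj) (hfr.es j), fun m hm => ?_⟩, ?_⟩
  · rw [H.sie_apply, (mem_mid.1 hm).1 i, (mem_mid.1 hm).1 j]
    simp
  · intro h
    have h1 : H.sie (e i) (e j) 0 hei hej (f i) = f i := by rw [h]; rfl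
    rw [H.sie_apply, hfr.fe i i, hfr.fe i j, if_pos rfl, if_neg hij] at h1
    have h2 : f i + H.ε • e j = f i := by simpa using h1
    have h3 := left_eq_add.1 h2.symm
    have h4 := (smul_eq_zero.1 h3).resolve_left H.ε_ne
    have h5 := hfr.ef j j
    rw [h4, H.zero_left, if_pos rfl] at h5
    exact zero_ne_one h5

/-- elements of two kinds -/
def TwoKinds (R : Subgroup (V ≃ₗ[F] V)) : Prop :=
  ∃ Q : (V ≃ₗ[F] V) → Prop, (∀ x g, Q g ↔ Q (x * g * x⁻¹)) ∧ (∃ g ∈ R, g ≠ 1 ∧ Q g) ∧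
    ∃ g ∈ R, g ≠ 1 ∧ ¬ Q g

/-- **The main theorem for `x ∈ SL(T)`.** -/
theorem c2_uGood [Finite V] (h2 : (2 : F) = 0) {ι : Type*} [DecidableEq ι] [Fintype ι]
    {e f : ι → V} (hfr : HFr P e f) (hfr' : HFr P f e) (hnd : ∀ v : V, v ≠ 0 → ∃ w, H.h v w ≠ 0)
    {i j : ι} (hij : i ≠ j) {p kk m0 : ℕ} (hp : p.Prime) (h3 : Nat.Coprime 3 p) (hm0 : 2 ≤ m0)
    (hM : ∀ t : ℕ, t ≠ 0 → 2 ^ t ≡ 1 [MOD p] → m0 ≤ 2 ^ t)
    {y0 : SpecialLinearGroup F (Submodule.span F (Set.range e))} (hyp : y0 ^ p ^ kk = 1)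
    (hy : UGood 1 m0 y0) {l s : ℕ} (hxp : (y0 ^ l) ^ p = 1)
    (hs : ∀ t, (y0 ^ l) t + t = ((y0 ^ l) ^ s) t)
    (hm0p : m0 ≤ p + 1)
    (hcase : (∃ m ∈ mid H e f, ∃ m' ∈ mid H e f, H.h m m' ≠ 0) ∨
      (mid H e f = ⊥ ∧ TwoKinds (rad P (Submodule.span F (Set.range e))
        (Submodule.span F (Set.range e) ⊔ mid H e f)) ∧
       TwoKinds (rad P (Submodule.span F (Set.range f))
        (Submodule.span F (Set.range f) ⊔ mid H e f)))) :
    ∃ x : SG P, x ^ p ^ kk = 1 ∧ UGood 1 m0 x := by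
  have d := hfr.dec hnd
  have hch := charP_two h2
  have : Fact (Nat.Prime 2) := ⟨Nat.prime_two⟩
  have hfin : Finite (V ≃ₗ[F] V) := instFin
  have hsurj := resSL_surjective hfr d
  obtain ⟨E, hE⟩ : ∃ E : KT H (Submodule.span F (Set.range e)) (Submodule.span F (Set.range f)) ≃*
      SpecialLinearGroup F (Submodule.span F (Set.range e)), ∀ g, E g = resSL d g :=
    ⟨MulEquiv.ofBijective (resSL d) ⟨resSL_injective d, hsurj⟩, fun _ => rfl⟩
  obtain ⟨φ, hφ⟩ : ∃ φ : SpecialLinearGroup F (Submodule.span F (Set.range e)) →* SG P,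
      φ = (Subgroup.inclusion d.KT_le).comp E.symm.toMonoidHom := ⟨_, rfl⟩
  have hφK : ∀ g, (φ g : V ≃ₗ[F] V) ∈ KT H (Submodule.span F (Set.range e))
      (Submodule.span F (Set.range f)) := by
    intro g
    rw [hφ]
    exact (E.symm g).2
  have hφa : ∀ g (t : Submodule.span F (Set.range e)), (φ g : V ≃ₗ[F] V) t = (g t : _) := by
    intro g t
    have h4 : g = resSL d (E.symm g) := by rw [← hE, E.apply_symm_apply]
    conv_rhs => rw [h4]
    rw [resSL_apply, hφ]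
    rfl
  have hφr : ∀ g ∈ KT H (Submodule.span F (Set.range e)) (Submodule.span F (Set.range f)),
      ∃ g', (φ g' : V ≃ₗ[F] V) = g := by
    intro g hg
    refine ⟨E ⟨g, hg⟩, ?_⟩
    rw [hφ]
    show ((E.symm (E ⟨g, hg⟩) : KT H _ _) : V ≃ₗ[F] V) = g
    rw [E.symm_apply_apply]
  obtain ⟨y, hyd⟩ : ∃ y, y = φ y0 := ⟨_, rfl⟩
  have hypp : y ^ p ^ kk = 1 := by rw [hyd, ← map_pow, hyp, map_one]
  have ay : XAct P _ _ _ (y : V ≃ₗ[F] V) := d.kt_xact (by rw [hyd]; exact hφK y0)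
  have ax : XAct P _ _ _ ((y ^ l : SG P) : V ≃ₗ[F] V) :=
    d.kt_xact (by rw [hyd, ← map_pow]; exact hφK _)
  have hxp' : ((y ^ l : SG P) : V ≃ₗ[F] V) ^ p = 1 := by
    have h4 : (y ^ l) ^ p = 1 := by rw [hyd, ← map_pow, ← map_pow, hxp, map_one]
    exact congrArg Subtype.val h4
  have hs' : ∀ t ∈ Submodule.span F (Set.range e), ((y ^ l : SG P) : V ≃ₗ[F] V) t + t =
      (((y ^ l : SG P) : V ≃ₗ[F] V) ^ s) t := by
    intro t ht
    have h4 := congrArg Subtype.val (hs ⟨t, ht⟩)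
    have h5 : ((y ^ l : SG P) : V ≃ₗ[F] V) t = (((y0 ^ l) ⟨t, ht⟩ : _) : V) := by
      rw [hyd, ← map_pow]; exact hφa _ ⟨t, ht⟩
    have h6 : (((y ^ l : SG P) : V ≃ₗ[F] V) ^ s) t = ((((y0 ^ l) ^ s) ⟨t, ht⟩ : _) : V) := by
      have h7 : ((y ^ l : SG P) : V ≃ₗ[F] V) ^ s = ((φ ((y0 ^ l) ^ s) : SG P) : V ≃ₗ[F] V) := by
        rw [hyd, map_pow, map_pow]; rfl
      rw [h7]; exact hφa _ ⟨t, ht⟩
    rw [h5, h6]
    exact h4
  obtain ⟨g1, g2⟩ := freeOn_mers h2 d ax hp.ne_zero hxp' h3 hs'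
  have hval : ((y ^ l : SG P) : V ≃ₗ[F] V) = (y : V ≃ₗ[F] V) ^ l := rfl
  rw [hval] at g1 g2
  have f1 : FreeOn (y : V ≃ₗ[F] V) _ := g1.of_pow (ay.normalizer d)
  have f2 : FreeOn (y : V ≃ₗ[F] V) _ := g2.of_pow (ay.symm.normalizer d.symm)
  have hR1 := rad_isPGroup (r := 2) d
  have hR2 := rad_isPGroup (r := 2) d.symm
  have hyv : (y : V ≃ₗ[F] V) ^ p ^ kk = 1 := congrArg Subtype.val hypp
  have l1 := d.rad_le_SG
  have l2 := d.symm.rad_le_SG
  -- the bound for overgroups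
  have bound : ∀ {e f : ι → V} (hfr : HFr P e f) (hfr' : HFr P f e),
      FreeOn (y : V ≃ₗ[F] V) (rad P (Submodule.span F (Set.range f))
        (Submodule.span F (Set.range f) ⊔ mid H e f)) →
      XAct P (Submodule.span F (Set.range e)) (mid H e f) (Submodule.span F (Set.range f))
        (y : V ≃ₗ[F] V) →
      ((∃ m ∈ mid H e f, ∃ m' ∈ mid H e f, H.h m m' ≠ 0) ∨
      (mid H e f = ⊥ ∧ TwoKinds (rad P (Submodule.span F (Set.range f))
        (Submodule.span F (Set.range f) ⊔ mid H e f)))) →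
      ∀ D : Subgroup (SG P), D ≠ ⊤ →
      (∀ u ∈ Submodule.span F (Set.range e), ∀ t ∈ Submodule.span F (Set.range f), H.h u t = 0 →
        Rt H (D.map (SG P).subtype) u t) →
      rad P (Submodule.span F (Set.range e)) (Submodule.span F (Set.range e) ⊔ mid H e f) ≤
        D.map (SG P).subtype →
      2 * m0 - 1 ≤ D.relIndex ((rad P (Submodule.span F (Set.range f))
        (Submodule.span F (Set.range f) ⊔ mid H e f)).subgroupOf (SG P)) := by
    intro e f hfr hfr' f2 ay hcase D hD hrt hR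
    have d := hfr.dec hnd
    have hDle : D.map (SG P).subtype ≤ SG P := by
      rintro _ ⟨g, -, rfl⟩
      exact g.2
    have hDne : ¬ SG P ≤ D.map (SG P).subtype := by
      intro hle
      apply hD
      rw [eq_top_iff]
      intro g _
      obtain ⟨g', hg', he⟩ := hle g.2
      rwa [← Subtype.ext he]
    have hz := over_zt d hR hrt
    rw [relIndex_subgroupOf_eq d.symm.rad_le_SG]
    rcases hcase with ⟨m, hm, m', hm', hmm'⟩ | ⟨hbot, hc⟩
    · have h4 := over_relIndex d hDle hDne hz (u := e i) (u' := f i)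
        (Submodule.subset_span ⟨i, rfl⟩) (Submodule.subset_span ⟨i, rfl⟩)
        (by rw [hfr.ef, if_pos rfl]; exact one_ne_zero) hm hm' hmm'
      have h5 : m0 ≤ Nat.card (zrad P (Submodule.span F (Set.range f)) (mid H e f)) := by
        refine (f2.zrad d.symm ay.symm).le_card hp Nat.prime_two hyv
          ((rad_isPGroup d.symm).to_le inf_le_left) hM ?_
        have h6 := exists_zrad_two hfr' hij
        rw [mid_symm] at h6
        exact h6
      omega
    · have h4 : D.map (SG P).subtype ⊓ rad P (Submodule.span F (Set.range f))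
          (Submodule.span F (Set.range f) ⊔ mid H e f) = ⊥ := by
        rw [eq_bot_iff]
        rintro g ⟨hgD, hg⟩
        rw [mem_bot]
        refine over_zrad d hDle hDne hz g (mem_zrad.2 ⟨hg, ?_⟩) hgD
        intro m hm
        rw [hbot] at hm
        have hm0 : m = 0 := hm
        rw [hm0]
        exact map_zero g
      rw [relIndex_eq_card_of_disjoint h4]
      obtain ⟨Q, hQ, ⟨g1, hg1, hg1', hg1Q⟩, g2, hg2, hg2', hg2Q⟩ := hc
      have h5 := f2.le_card_two hp hyv Q (hQ _) hg1 hg1' hg1Q hg2 hg2' hg2Q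
      omega
  have hxK : y ∈ φ.range := ⟨y0, hyd.symm⟩
  refine ⟨y, hypp, t4_free hm0 (K := φ.range) (R1 := (rad P (Submodule.span F (Set.range e))
      (Submodule.span F (Set.range e) ⊔ mid H e f)).subgroupOf (SG P))
    (R2 := (rad P (Submodule.span F (Set.range f))
      (Submodule.span F (Set.range f) ⊔ mid H e f)).subgroupOf (SG P)) hxK ?_ ?_ ?_
    ((f1.subgroupOf y.2).pairM hp Nat.prime_two hypp (isPGroup_subgroupOf hR1) hM)
    ((f2.subgroupOf y.2).pairM hp Nat.prime_two hypp (isPGroup_subgroupOf hR2) hM)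
    (f1.subgroupOf y.2) (f2.subgroupOf y.2) ?_ ?_⟩
  · have h4 := UGood.of_surjective (f := φ.rangeRestrict) hy φ.rangeRestrict_surjective
    have h5 : φ.rangeRestrict y0 = (⟨y, hxK⟩ : φ.range) := Subtype.ext hyd.symm
    rw [h5] at h4
    exact h4
  · rintro _ ⟨g, rfl⟩
    have h4 := (d.kt_xact (hφK g)).normalizer d
    rw [mem_normalizer_iff] at h4 ⊢
    intro h
    exact h4 (h : V ≃ₗ[F] V)
  · rintro _ ⟨g, rfl⟩
    have h4 := (d.kt_xact (hφK g)).symm.normalizer d.symm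
    rw [mem_normalizer_iff] at h4 ⊢
    intro h
    exact h4 (h : V ≃ₗ[F] V)
  · intro D hD hKD hRD
    refine bound hfr hfr' f2 ay ?_ D hD ?_ ?_
    · rcases hcase with h4 | ⟨h4, -, h5⟩
      · exact Or.inl h4
      · exact Or.inr ⟨h4, h5⟩
    · intro u hu t ht hut s hus hust
      obtain ⟨g', hg'⟩ := hφr _ (sie_mem_KT hus hust hu (Submodule.smul_mem _ s ht))
      exact ⟨φ g', hKD ⟨g', rfl⟩, hg'⟩
    · intro g hg
      exact ⟨⟨g, l1 hg⟩, hRD hg, rfl⟩
  · intro D hD hKD hRD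
    have f1' : FreeOn (y : V ≃ₗ[F] V) (rad P (Submodule.span F (Set.range e))
        (Submodule.span F (Set.range e) ⊔ mid H f e)) := by rw [mid_symm]; exact f1
    have ay' : XAct P (Submodule.span F (Set.range f)) (mid H f e)
        (Submodule.span F (Set.range e)) (y : V ≃ₗ[F] V) := by rw [mid_symm]; exact ay.symm
    have h4 := bound hfr' hfr f1' ay' ?_ D hD ?_ ?_
    · rw [mid_symm] at h4
      exact h4
    · rw [mid_symm]
      rcases hcase with h4 | ⟨h4, h5, -⟩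
      · exact Or.inl h4
      · exact Or.inr ⟨h4, h5⟩
    · intro u hu t ht hut
      refine Rt.symm (d.o1 t ht t ht) (d.o2 u hu u hu) (H.orth_symm hut) ?_
      intro s hus hust
      obtain ⟨g', hg'⟩ := hφr _ (sie_mem_KT hus hust ht (Submodule.smul_mem _ s hu))
      exact ⟨φ g', hKD ⟨g', rfl⟩, hg'⟩
    · intro g hg
      rw [mid_symm] at hg
      exact ⟨⟨g, l2 hg⟩, hRD hg, rfl⟩

end Cfsg.Agent.H398.FPR
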