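import Cfsg.Agent.H398.FPR.SylGen

/-!
# `p = 2 ^ k - 1`, `k ≥ 3` prime, `p ∤ q - 1`: the row `(p + 1, 1)`
-/

set_option autoImplicit false
open Subgroup MulAction

namespace Cfsg.Agent.H398.FPR

open Cfsg.Agent.TitsThree.Siegel Cfsg.Agent.TitsThree.SiegelGen Cfsg.Agent.H110.Fpr
open Cfsg.Agent.H409

section

/-- a row gives an element of order `p` -/
theorem dvd_of_row {G : Type*} [Group G] [Finite G] {p : ℕ} (hp : p.Prime)
    (hne : Nontrivial G) (h : FprRow (p + 1) 1 p G) : p ∣ Nat.card G := by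
  by_contra hcon
  obtain ⟨s, ⟨j, hs⟩, hle⟩ := h ⊥ bot_ne_top
  have h1 : p ^ j ∣ Nat.card G := hs ▸ orderOf_dvd_natCard s
  have hj : j = 0 := by
    by_contra hj
    exact hcon ((dvd_pow_self p hj).trans h1)
  rw [hj, pow_zero, orderOf_eq_one_iff] at hs
  rw [hs] at hle
  have h2 : Nat.card (fixedBy (G ⧸ (⊥ : Subgroup G)) (1 : G)) =
      Nat.card (G ⧸ (⊥ : Subgroup G)) := by
    rw [fixedBy_one_eq_univ]
    exact Nat.card_congr (Equiv.Set.univ _)
  rw [h2] at hle
  have h3 : 0 < Nat.card (G ⧸ (⊥ : Subgroup G)) := Nat.card_pos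
  have h4 := hp.pos
  nlinarith

variable {F : Type*} [Field F] {T : Type*} [AddCommGroup T] [Module F T]

/-- **Generators of Sylow `p`-subgroups of `SL_k(q)`.** -/
theorem exists_sl_gen [Finite F] [Finite T] (h2 : (2 : F) = 0) {p k : ℕ} (hp : p.Prime)
    (hk : k.Prime) (hk3 : 3 ≤ k) (hpk : p + 1 = 2 ^ k) (hq : ¬ p ∣ Nat.card F - 1)
    (b : Module.Basis (Fin k) F T)
    (hSL : FprRow (p + 1) 1 p (Matrix.SpecialLinearGroup (Fin k) F)) :
    ∃ (y0 : SpecialLinearGroup F T) (l s kk : ℕ), y0 ^ p ^ kk = 1 ∧ UGood 1 (p + 1) y0 ∧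
      (y0 ^ l) ^ p = 1 ∧ ∀ t, (y0 ^ l) t + t = ((y0 ^ l) ^ s) t := by
  classical
  have hpf : Fact p.Prime := ⟨hp⟩
  have hfinT : Finite (T ≃ₗ[F] T) := instFin
  have := Fintype.ofFinite F
  have hk2 : 2 ∣ 2 ^ k := dvd_pow_self 2 hk.ne_zero
  have hodd : Odd p := by
    rw [← hpk] at hk2
    rw [Nat.odd_iff]
    omega
  have hpF := charF_ne h2 hodd
  have hfr : Module.finrank F T = k := by
    rw [Module.finrank_eq_card_basis b, Fintype.card_fin]
  have hrow : FprRow (p + 1) 1 p (SpecialLinearGroup F T) :=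
    FprRow.of_mulEquiv hp (Matrix.SpecialLinearGroup.toLin_equiv b) hSL
  have hnt : Nontrivial (SpecialLinearGroup F T) := by
    have : Nontrivial (Matrix.SpecialLinearGroup (Fin k) F) := by
      have hij : (⟨0, by omega⟩ : Fin k) ≠ ⟨1, by omega⟩ := by
        intro h
        have := congrArg Fin.val h
        simp at this
      refine ⟨1, Matrix.SpecialLinearGroup.transvection hij 1, fun h => ?_⟩
      have h3 := Cfsg.Agent.LieClassical.SLGen.transvection_smul hij (1 : F)
        (Pi.single ⟨1, by omega⟩ 1)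
      rw [← h, one_smul] at h3
      have h4 := left_eq_add.1 h3
      rw [Pi.single_eq_same, one_mul, one_smul] at h4
      have h5 := congrFun h4 ⟨0, by omega⟩
      rw [Pi.single_eq_same] at h5
      exact one_ne_zero h5
    exact (Matrix.SpecialLinearGroup.toLin_equiv b).symm.toEquiv.nontrivial
  have hdvd := dvd_of_row hp hnt hrow
  obtain ⟨g, hg⟩ := exists_prime_orderOf_dvd_card' p hdvd
  have hgp : g ^ p = 1 := by rw [← hg]; exact pow_orderOf_eq_one g
  have hg1 : g ≠ 1 := by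
    rintro rfl
    rw [orderOf_one] at hg
    exact hp.one_lt.ne hg
  -- `g` acts irreducibly
  obtain ⟨x, hx⟩ : ∃ x : T ≃ₗ[F] T, x = g.1 := ⟨_, rfl⟩
  have hxp : x ^ p = 1 := by rw [hx]; exact congrArg Subtype.val hgp
  have hx1 : x ≠ 1 := by
    rintro rfl
    exact hg1 (Subtype.ext hx.symm)
  have hU : Inv x (movS p x) := movS_inv rfl
  have hU0 : movS p x ≠ ⊥ := by
    intro h
    apply hx1
    have h1 := fixS_sup_movS hxp hpF
    rw [h, bot_sup_eq] at h1
    ext v
    have hv : v ∈ fixS x := by rw [h1]; trivial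
    exact hv
  obtain ⟨T0, hTU, hT⟩ := exists_isMin hU hU0
  have hfpf : ∀ v ∈ T0, x v = v → v = 0 := fun v hv h => eq_zero_of_mem hpF (hTU hv) h
  obtain ⟨v, hv, hv0⟩ := (Submodule.ne_bot_iff T0).1 hT.ne
  have hmov : ∃ v ∈ T0, x v ≠ v := ⟨v, hv, fun h => hv0 (hfpf v hv h)⟩
  have hdim : Module.finrank F T0 = k := by
    rw [hT.finrank_eq hp hxp hmov hpF, orderOf_card h2 hp hk hpk hq]
  have hfin : Module.Finite F T := Module.Finite.of_finite
  have htop : T0 = ⊤ := Submodule.eq_top_of_finrank_eq (by rw [hdim, hfr])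
  obtain ⟨s, hs⟩ := mers_rel h2 hp hpk hxp hT hmov
  rw [htop] at hs
  -- the Sylow subgroups are cyclic
  obtain ⟨ρ, hρ⟩ : ∃ ρ : SpecialLinearGroup F T →* Module.End F T, ρ =
      (LinearEquiv.automorphismGroup.toLinearMapMonoidHom).comp
        (SpecialLinearGroup.toLinearEquiv) := ⟨_, rfl⟩
  have hρi : Function.Injective ρ := by
    intro a b hab
    apply SpecialLinearGroup.ext
    intro t
    have h3 : ρ a t = ρ b t := by rw [hab]
    rw [hρ] at h3
    exact h3
  have he : ∀ j, p ∣ Fintype.card F ^ j - 1 → k ∣ j := by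
    intro j hj
    rw [← Nat.card_eq_fintype_card] at hj
    have h3 := (dvd_pow_sub_one_iff (p := p) (q := Nat.card F) (k := j) Nat.card_pos).1 hj
    rw [← orderOf_card h2 hp hk hpk hq]
    exact orderOf_dvd_of_pow_eq_one h3
  have hp2 : p ≠ 2 := by
    rintro rfl
    revert hodd
    decide
  obtain ⟨Q, y, hy, -⟩ := Cyc.exists_sylow (ρ := ρ) (e := k) hp2 hρi hpF he
    (by rw [hfr]; have := hk.pos; omega) hdvd (MonoidHom.id _) Function.surjective_id
    (by
      intro z hz
      have h3 : z = 1 := hz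
      rw [h3]
      exact one_mem _)
    (by
      intro h3
      have h4 : (MonoidHom.id (SpecialLinearGroup F T)).ker = ⊥ := by
        rw [eq_bot_iff]
        intro z hz
        exact hz
      rw [h4, Subgroup.card_bot] at h3
      exact hp.one_lt.ne' (Nat.dvd_one.1 h3))
    (c := Nat.card (SpecialLinearGroup F T))
    (fun z _ => Subgroup.card_le_card_group _)
  obtain ⟨y0, l, kk, h5, h6, h7⟩ := exists_gen_cyc Q hy hrow (x := g) (k := 1)
    (by rw [pow_one]; exact hgp)
  refine ⟨y0, l, s, kk, h5, h6, ?_, ?_⟩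
  · rw [h7]
    exact hgp
  · intro t
    rw [h7]
    have h8 := hs t trivial
    rw [hx] at h8
    exact h8

end

variable {F : Type*} [Field F] {V : Type*} [AddCommGroup V] [Module F V]
variable {H : HForm F V} {P : PQ H}

section

variable {ι : Type*} [DecidableEq ι] {e f : ι → V}

omit [DecidableEq ι] in
theorem li_le_finset {v : ι → V} [Fintype ι] (i : LinearIndependent F v) (w : Finset V)
    (s : Set.range v ≤ Submodule.span F (w : Set V)) : Fintype.card ι ≤ w.card := by
  have h := linearIndependent_le_span' v i w s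
  rw [Cardinal.mk_fintype] at h
  simpa only [Finset.coe_sort_coe, Fintype.card_coe, Nat.cast_le] using h

theorem HFr.swap (hε : H.ε = 1) (hfr : HFr P e f) : HFr P f e where
  es := hfr.fs
  fs := hfr.es
  ee := hfr.ff
  ff := hfr.ee
  ef i j := by rw [hfr.fe, hε]

theorem HFr.li [Fintype ι] (hfr : HFr P e f) : LinearIndependent F e := by
  rw [Fintype.linearIndependent_iff]
  intro g hg i
  have h1 : H.h (∑ j, g j • e j) (f i) = g i := by
    rw [sum_left]
    simp only [hfr.ef, mul_ite, mul_one, mul_zero, Finset.sum_ite_eq', Finset.mem_univ, if_true]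
  rw [hg, H.zero_left] at h1
  exact h1.symm

theorem twoKinds_root [Fintype ι] (hfr : HFr P e f) (hε : H.ε = 1) {i j : ι} (hij : i ≠ j)
    {c : F} (hc : P.ok 0 c) (hc0 : c ≠ 0) {W : Submodule F V}
    (hW : Submodule.span F (Set.range e) ≤ W) :
    TwoKinds (rad P (Submodule.span F (Set.range e)) W) := by
  classical
  have hmi : ∀ i, e i ∈ Submodule.span F (Set.range e) := fun i =>
    Submodule.subset_span ⟨i, rfl⟩
  have fe := hfr.fe
  rw [hε] at fe
  refine ⟨fun g => ∃ u : V, ∀ v, ∃ a : F, g v - v = a • u, ?_, ?_, ?_⟩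
  · intro x g
    constructor
    · rintro ⟨u, hu⟩
      refine ⟨x u, fun v => ?_⟩
      obtain ⟨a, ha⟩ := hu (x⁻¹ v)
      refine ⟨a, ?_⟩
      rw [← map_smul, ← ha, map_sub]
      congr 1
      exact (x.apply_symm_apply v).symm
    · rintro ⟨u, hu⟩
      refine ⟨x⁻¹ u, fun v => ?_⟩
      obtain ⟨a, ha⟩ := hu (x v)
      refine ⟨a, ?_⟩
      rw [← map_smul, ← ha, map_sub]
      have h1 : x⁻¹ ((x * g * x⁻¹) (x v)) = g v := by
        show x.symm (x (g (x.symm (x v)))) = g v
        rw [x.symm_apply_apply, x.symm_apply_apply]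
      have h2 : x⁻¹ (x v) = v := x.symm_apply_apply v
      rw [h1, h2]
  · refine ⟨H.sie (e i) 0 c (hfr.ee i i) (H.zero_right _), sie_mem_rad _ _ (hmi i)
      W.zero_mem hc, ?_, e i, fun v => ⟨c * H.h v (e i), ?_⟩⟩
    · intro h
      have h1 : H.sie (e i) 0 c (hfr.ee i i) (H.zero_right _) (f i) = f i := by rw [h]; rfl
      rw [H.sie_apply, H.zero_right, fe i i, if_pos rfl] at h1
      have h2 : f i + c • e i = f i := by simpa using h1
      have h3 := left_eq_add.1 h2.symm
      have h4 := (smul_eq_zero.1 h3).resolve_left hc0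
      have h5 := hfr.ef i i
      rw [h4, H.zero_left, if_pos rfl] at h5
      exact zero_ne_one h5
    · rw [H.sie_apply, H.zero_right]
      simp
  · refine ⟨H.sie (e i) (e j) 0 (hfr.ee i i) (hfr.ee i j), sie_mem_rad _ _ (hmi i)
      (hW (hmi j)) (hfr.es j), ?_, ?_⟩
    · intro h
      have h1 : H.sie (e i) (e j) 0 (hfr.ee i i) (hfr.ee i j) (f i) = f i := by rw [h]; rfl
      rw [H.sie_apply, fe i i, fe i j, if_pos rfl, if_neg hij] at h1
      have h2 : f i + e j = f i := by simpa using h1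
      have h3 := left_eq_add.1 h2.symm
      have h5 := hfr.ef j j
      rw [h3, H.zero_left, if_pos rfl] at h5
      exact zero_ne_one h5
    · rintro ⟨u, hu⟩
      obtain ⟨a, ha⟩ := hu (f i)
      obtain ⟨b, hb⟩ := hu (f j)
      rw [H.sie_apply, fe i i, fe i j, if_pos rfl, if_neg hij, hε] at ha
      rw [H.sie_apply, fe j i, fe j j, if_pos rfl, if_neg (Ne.symm hij), hε] at hb
      have ha' : e j = a • u := by rw [← ha]; simp
      have hb' : e i = (-b) • u := by rw [neg_smul, ← hb]; simp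
      have h6 : LinearIndependent F ![e i, e j] := by
        have h7 := hfr.li.comp ![i, j] (by
          intro x y hxy
          fin_cases x <;> fin_cases y <;> simp_all)
        convert h7 using 1
        ext x
        fin_cases x <;> rfl
      have h8 := li_le_finset h6 {u} (by
        rintro _ ⟨x, rfl⟩
        rw [Finset.coe_singleton, SetLike.mem_coe, Submodule.mem_span_singleton]
        fin_cases x
        · exact ⟨-b, hb'.symm⟩
        · exact ⟨a, ha'.symm⟩)
      simp at h8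

theorem twoKinds_four {k : ℕ} {e f : Fin k → V} (hfr : HFr P e f) (hε : H.ε = 1)
    (hk : 4 ≤ k) {W : Submodule F V} (hW : Submodule.span F (Set.range e) ≤ W) :
    TwoKinds (rad P (Submodule.span F (Set.range e)) W) := by
  classical
  have hmi : ∀ i, e i ∈ Submodule.span F (Set.range e) := fun i =>
    Submodule.subset_span ⟨i, rfl⟩
  have fe := hfr.fe
  rw [hε] at fe
  obtain ⟨i0, hi0⟩ : ∃ i : Fin k, i.1 = 0 := ⟨⟨0, by omega⟩, rfl⟩
  obtain ⟨i1, hi1⟩ : ∃ i : Fin k, i.1 = 1 := ⟨⟨1, by omega⟩, rfl⟩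
  obtain ⟨i2, hi2⟩ : ∃ i : Fin k, i.1 = 2 := ⟨⟨2, by omega⟩, rfl⟩
  obtain ⟨i3, hi3⟩ : ∃ i : Fin k, i.1 = 3 := ⟨⟨3, by omega⟩, rfl⟩
  have n01 : i0 ≠ i1 := fun h => by rw [h] at hi0; omega
  have n02 : i0 ≠ i2 := fun h => by rw [h] at hi0; omega
  have n03 : i0 ≠ i3 := fun h => by rw [h] at hi0; omega
  have n12 : i1 ≠ i2 := fun h => by rw [h] at hi1; omega
  have n13 : i1 ≠ i3 := fun h => by rw [h] at hi1; omega
  have n23 : i2 ≠ i3 := fun h => by rw [h] at hi2; omega
  refine ⟨fun g => ∃ u u' : V, ∀ v, ∃ a b : F, g v - v = a • u + b • u', ?_, ?_, ?_⟩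
  · intro x g
    constructor
    · rintro ⟨u, u', hu⟩
      refine ⟨x u, x u', fun v => ?_⟩
      obtain ⟨a, b, ha⟩ := hu (x⁻¹ v)
      refine ⟨a, b, ?_⟩
      rw [← map_smul, ← map_smul, ← map_add, ← ha, map_sub]
      congr 1
      exact (x.apply_symm_apply v).symm
    · rintro ⟨u, u', hu⟩
      refine ⟨x⁻¹ u, x⁻¹ u', fun v => ?_⟩
      obtain ⟨a, b, ha⟩ := hu (x v)
      refine ⟨a, b, ?_⟩
      rw [← map_smul, ← map_smul, ← map_add, ← ha, map_sub]
      have h1 : x⁻¹ ((x * g * x⁻¹) (x v)) = g v := by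
        show x.symm (x (g (x.symm (x v)))) = g v
        rw [x.symm_apply_apply, x.symm_apply_apply]
      have h2 : x⁻¹ (x v) = v := x.symm_apply_apply v
      rw [h1, h2]
  · refine ⟨H.sie (e i0) (e i1) 0 (hfr.ee _ _) (hfr.ee _ _), sie_mem_rad _ _ (hmi i0)
      (hW (hmi i1)) (hfr.es i1), ?_, e i1, e i0, fun v => ⟨H.h v (e i0), -(H.ε⁻¹ * H.h v (e i1)),
        ?_⟩⟩
    · intro h
      have h1 : H.sie (e i0) (e i1) 0 (hfr.ee _ _) (hfr.ee _ _) (f i0) = f i0 := by rw [h]; rfl
      rw [H.sie_apply, fe, fe, if_pos rfl, if_neg n01] at h1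
      have h2 : f i0 + e i1 = f i0 := by simpa using h1
      have h3 := left_eq_add.1 h2.symm
      have h5 := hfr.ef i1 i1
      rw [h3, H.zero_left, if_pos rfl] at h5
      exact zero_ne_one h5
    · rw [H.sie_apply]
      module
  · refine ⟨H.sie (e i0) (e i1) 0 (hfr.ee _ _) (hfr.ee _ _) *
      H.sie (e i2) (e i3) 0 (hfr.ee _ _) (hfr.ee _ _),
      mul_mem (sie_mem_rad _ _ (hmi i0) (hW (hmi i1)) (hfr.es i1))
        (sie_mem_rad _ _ (hmi i2) (hW (hmi i3)) (hfr.es i3)), ?_, ?_⟩
    all_goals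
      have a0 : (H.sie (e i0) (e i1) 0 (hfr.ee _ _) (hfr.ee _ _) *
        H.sie (e i2) (e i3) 0 (hfr.ee _ _) (hfr.ee _ _)) (f i0) - f i0 = e i1 := by
          rw [LinearEquiv.mul_apply, H.sie_apply (e i2) (e i3), fe, fe, if_neg n02, if_neg n03]
          simp only [zero_smul, mul_zero, add_zero, sub_zero]
          rw [H.sie_apply, fe, fe, if_pos rfl, if_neg n01]
          simp
    · intro h
      rw [h] at a0
      have h3 : e i1 = 0 := by rw [← a0]; exact sub_self _
      have h5 := hfr.ef i1 i1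
      rw [h3, H.zero_left, if_pos rfl] at h5
      exact zero_ne_one h5
    · have a1 : (H.sie (e i0) (e i1) 0 (hfr.ee _ _) (hfr.ee _ _) *
        H.sie (e i2) (e i3) 0 (hfr.ee _ _) (hfr.ee _ _)) (f i1) - f i1 = - e i0 := by
          rw [LinearEquiv.mul_apply, H.sie_apply (e i2) (e i3), fe, fe, if_neg n12, if_neg n13]
          simp only [zero_smul, mul_zero, add_zero, sub_zero]
          rw [H.sie_apply, fe, fe, if_pos rfl, if_neg (Ne.symm n01), hε]
          simp
      have a2 : (H.sie (e i0) (e i1) 0 (hfr.ee _ _) (hfr.ee _ _) *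
        H.sie (e i2) (e i3) 0 (hfr.ee _ _) (hfr.ee _ _)) (f i2) - f i2 = e i3 := by
          rw [LinearEquiv.mul_apply, H.sie_apply (e i2) (e i3), fe, fe, if_pos rfl, if_neg n23]
          simp only [zero_smul, mul_zero, add_zero, sub_zero, one_smul, zero_mul]
          rw [H.sie_apply, H.add_left, H.add_left, fe, fe, hfr.ee, hfr.ee, if_neg (Ne.symm n02),
            if_neg (Ne.symm n12)]
          simp
      rintro ⟨u, u', hu⟩
      obtain ⟨a, b, ha⟩ := hu (f i0)
      obtain ⟨a', b', hb⟩ := hu (f i1)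
      obtain ⟨a'', b'', hc⟩ := hu (f i2)
      rw [a0] at ha
      rw [a1] at hb
      rw [a2] at hc
      have h6 : LinearIndependent F ![e i0, e i1, e i3] := by
        have h7 := hfr.li.comp ![i0, i1, i3] (by
          intro x y hxy
          fin_cases x <;> fin_cases y <;> simp_all)
        convert h7 using 1
        ext x
        fin_cases x <;> rfl
      have h8 := li_le_finset h6 {u, u'} (by
        rintro _ ⟨x, rfl⟩
        rw [Finset.coe_insert, Finset.coe_singleton, SetLike.mem_coe, Submodule.mem_span_pair]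
        fin_cases x
        · refine ⟨-a', -b', ?_⟩
          show (-a') • u + (-b') • u' = e i0
          rw [neg_smul, neg_smul, ← neg_add, ← hb, neg_neg]
        · exact ⟨a, b, ha.symm⟩
        · exact ⟨a'', b'', hc.symm⟩)
      have h9 : Finset.card ({u, u'} : Finset V) ≤ 2 := Finset.card_le_two
      rw [Fintype.card_fin] at h8
      omega

end

/-- **Mersenne primes, characteristic two, `p ∤ q - 1`.** -/
theorem mers_row [Finite F] [Finite V] (h2 : (2 : F) = 0) (hε : H.ε = 1)
    (hnd : ∀ v : V, v ≠ 0 → ∃ w, H.h v w ≠ 0) {p k : ℕ} (hp : p.Prime) (hk : k.Prime)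
    (hk3 : 3 ≤ k) (hpk : p + 1 = 2 ^ k) (hq : ¬ p ∣ Nat.card F - 1) (hd : p ∣ Nat.card (SG P))
    (hSL : FprRow (p + 1) 1 p (Matrix.SpecialLinearGroup (Fin k) F))
    (hbot : (∃ c : F, c ≠ 0 ∧ P.ok 0 c) ∨ 7 ≤ Module.finrank F V) :
    FprRow (p + 1) 1 p (SG P) := by
  classical
  have hfinV : Module.Finite F V := Module.Finite.of_finite
  obtain ⟨T0, -, -, -, -, -, hTs, hTT, hTk⟩ := exists_ts h2 hp hk hk3 hpk hq hd
  obtain ⟨e, f, -, -, hfr⟩ := exists_frame (P := P) hε k ⊤
    (fun v _ hv => by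
      obtain ⟨w, hw⟩ := hnd v hv
      exact ⟨w, trivial, hw⟩) T0 le_top hTs hTT hTk.ge
  have hfr' := hfr.swap hε
  obtain ⟨T, hTdef⟩ : ∃ T, T = Submodule.span F (Set.range e) := ⟨_, rfl⟩
  obtain ⟨y0, l, s, kk, hy1, hy2, hy3, hy4⟩ := exists_sl_gen h2 hp hk hk3 hpk hq
    (Module.Basis.span hfr.li) hSL
  have d := hfr.dec hnd
  -- numerics
  have h8 : 2 ^ 3 ≤ 2 ^ k := Nat.pow_le_pow_right (by norm_num) hk3
  have h3p : Nat.Coprime 3 p := by
    rw [Nat.coprime_primes Nat.prime_three hp]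
    rintro rfl
    omega
  obtain ⟨i, hi⟩ : ∃ i : Fin k, i.1 = 0 := ⟨⟨0, by omega⟩, rfl⟩
  obtain ⟨j, hj⟩ : ∃ j : Fin k, j.1 = 1 := ⟨⟨1, by omega⟩, rfl⟩
  have hij : i ≠ j := fun h => by rw [h] at hi; omega
  have hcase : (∃ m ∈ mid H e f, ∃ m' ∈ mid H e f, H.h m m' ≠ 0) ∨
      (mid H e f = ⊥ ∧ TwoKinds (rad P (Submodule.span F (Set.range e))
        (Submodule.span F (Set.range e) ⊔ mid H e f)) ∧
       TwoKinds (rad P (Submodule.span F (Set.range f))
        (Submodule.span F (Set.range f) ⊔ mid H e f))) := by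
    by_cases hbot' : mid H e f = ⊥
    · right
      refine ⟨hbot', ?_⟩
      rcases hbot with ⟨c, hc0, hc⟩ | hdim
      · exact ⟨twoKinds_root hfr hε hij hc hc0 le_sup_left,
          twoKinds_root hfr' hε hij hc hc0 le_sup_left⟩
      · have hk4 : 4 ≤ k := by
          have h1 : Module.finrank F V ≤ k + k := by
            have htop := d.top
            rw [hbot', sup_bot_eq] at htop
            have h2 := Submodule.finrank_add_le_finrank_add_finrank
              (Submodule.span F (Set.range e)) (Submodule.span F (Set.range f))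
            rw [htop, finrank_top] at h2
            have h3 := finrank_range_le_card (R := F) e
            have h4 := finrank_range_le_card (R := F) f
            rw [Fintype.card_fin] at h3 h4
            unfold Set.finrank at h3 h4
            omega
          omega
        exact ⟨twoKinds_four hfr hε hk4 le_sup_left,
          twoKinds_four hfr' hε hk4 le_sup_left⟩
    · left
      obtain ⟨m, hm, hm0⟩ := (Submodule.ne_bot_iff _).1 hbot'
      obtain ⟨w, hw⟩ := hnd m hm0
      have hwt : w ∈ Submodule.span F (Set.range e) ⊔ mid H e f ⊔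
          Submodule.span F (Set.range f) := by rw [d.top]; trivial
      obtain ⟨a, ha, t', ht', rfl⟩ := Submodule.mem_sup.1 hwt
      obtain ⟨t, ht, m', hm', rfl⟩ := Submodule.mem_sup.1 ha
      refine ⟨m, hm, m', hm', ?_⟩
      rw [H.add_right, H.add_right, H.orth_symm (d.m1 t ht m hm),
        H.orth_symm (d.m2 t' ht' m hm), zero_add, add_zero] at hw
      exact hw
  obtain ⟨x, hx1, hx2⟩ := c2_uGood h2 hfr hfr' hnd hij hp h3p (m0 := p + 1)
    (by have := hp.two_le; omega) (pow_two_le hp) hy1 hy2 hy3 hy4 le_rfl hcase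
  exact row_of_uGood hp hx1 hx2

end Cfsg.Agent.H398.FPR
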