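import Cfsg.Agent.H398.FPR.COneO
import Cfsg.Agent.H110.Fpr.Small

/-!
# `p ∣ q - 1` in characteristic two, general forms
-/

set_option autoImplicit false
open Subgroup MulAction

namespace Cfsg.Agent.H398.FPR

open Cfsg.Agent.TitsThree.Siegel Cfsg.Agent.TitsThree.SiegelGen Cfsg.Agent.H110.Fpr

variable {F : Type*} [Field F] {V : Type*} [AddCommGroup V] [Module F V]
variable {H : HForm F V} {P : PQ H}

theorem pow_fix_scal {x : V ≃ₗ[F] V} {v : V} {lam : F} (h : x v = lam • v) (n : ℕ) :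
    (x ^ n) v = lam ^ n • v := by
  induction n with
  | zero => simp
  | succ n ih =>
    rw [pow_succ]
    show (x ^ n) (x v) = _
    rw [h, map_smul, ih, smul_smul, pow_succ']

/-- **Long root elements exist** (`Λ ≠ 0`): symplectic and unitary groups. -/
theorem uGood_long [Finite V] (h2 : (2 : F) = 0) (hε : H.ε = 1) {p m0 : ℕ} (hp : p.Prime)
    (hp2 : p ≠ 2) (hM : ∀ t : ℕ, t ≠ 0 → 2 ^ t ≡ 1 [MOD p] → m0 ≤ 2 ^ t)
    (hND : ∀ v : V, v ≠ 0 → ∃ w, H.h v w ≠ 0) (hdim : 3 ≤ Module.finrank F V)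
    {e : V} (he : P.ok e 0) (he0 : e ≠ 0)
    {lam : F} (hl1 : lam ≠ 1) (hlp : lam ^ p = 1) (k1 : P.ok 0 lam)
    (k2 : P.ok 0 ((lam + 1) / lam)) (k3 : P.ok 0 1) (k4 : P.ok 0 (lam + 1)) :
    ∃ x : SG P, x ^ p = 1 ∧ UGood 1 m0 x := by
  have hl0 : lam ≠ 0 := by
    rintro rfl
    rw [zero_pow hp.ne_zero] at hlp
    exact zero_ne_one hlp
  have hnd0 : ∀ v ∈ (⊤ : Submodule F V), v ≠ 0 → ∃ w ∈ (⊤ : Submodule F V), H.h v w ≠ 0 := by
    intro v _ hv
    obtain ⟨w, hw⟩ := hND v hv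
    exact ⟨w, trivial, hw⟩
  have heT : e ∈ (⊤ : Submodule F V) := trivial
  obtain ⟨f, hfT, hf, hef⟩ := exists_hyp hnd0 heT he he0
  obtain ⟨hnd1, hd1⟩ := split_hyp hnd0 heT hfT he hf hef
  rw [top_inf_eq, finrank_top] at hd1
  rw [top_inf_eq] at hnd1
  obtain ⟨m, hm, hm0⟩ : ∃ m ∈ perp H {e, f}, m ≠ 0 := by
    by_contra hcon
    push Not at hcon
    have : perp H {e, f} = ⊥ := by
      rw [eq_bot_iff]
      intro v hv
      exact hcon v hv
    rw [this, finrank_bot] at hd1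
    omega
  obtain ⟨m', hm', hmm⟩ := hnd1 m hm hm0
  have hmem : ∀ {w : V}, w ∈ perp H {e, f} → H.h w e = 0 ∧ H.h w f = 0 := fun hw =>
    ⟨hw e (by simp), hw f (by simp)⟩
  obtain ⟨x, hxK, hxe, hxf, hxM⟩ := exists_diag_one h2 hε he hf hef hl0 k1 k2 k3 k4
  have hxS : x ∈ SG P := KOne_le he hf hxK
  have hl2 : lam * lam ≠ 1 := by
    intro h
    apply hl1
    have h3 : orderOf lam ∣ 2 := orderOf_dvd_of_pow_eq_one (by rw [pow_two]; exact h)
    have h4 : orderOf lam ∣ p := orderOf_dvd_of_pow_eq_one hlp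
    have h5 : Nat.Coprime 2 p := (Nat.coprime_primes Nat.prime_two hp).2 hp2.symm
    exact orderOf_eq_one_iff.1 (Nat.eq_one_of_dvd_coprimes h5 h3 h4)
  have hxp : x ^ p = 1 := by
    have d := (frame_one he hf hef).dec hND
    ext v
    obtain ⟨t, ht, w, hw, t', ht', rfl⟩ := d.exists_eq v
    rw [Set.range_const, Submodule.mem_span_singleton] at ht ht'
    obtain ⟨s, rfl⟩ := ht
    obtain ⟨s', rfl⟩ := ht'
    have hw' := mem_mid.1 hw
    show (x ^ p) (s • e + w + s' • f) = s • e + w + s' • f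
    have e3 : (x ^ p) w = w := by
      have h6 := pow_fix_scal (x := x) (v := w) (lam := 1)
        (by rw [one_smul]; exact hxM w (hw'.1 ()) (hw'.2 ())) p
      rw [one_pow, one_smul] at h6
      exact h6
    rw [map_add, map_add, map_smul, map_smul, pow_fix_scal hxe, pow_fix_scal hxf, e3, inv_pow, hlp,
      inv_one, one_smul, one_smul]
  refine ⟨⟨x, hxS⟩, Subtype.ext hxp, ?_⟩
  exact uGood_one (k := 1) h2 hp hM hND he hf hef k3 hl0 hl2 hxS (by rw [pow_one]; exact hxp) hxe hxf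
    hxM (hmem hm).1 (hmem hm).2 (hmem hm').1 (hmem hm').2 hmm

/-- **`Λ = 0`**: orthogonal groups. -/
theorem uGood_orth [Finite V] (h2 : (2 : F) = 0) (hε : H.ε = 1) (hσ : ∀ s, H.σ s = s) {p m0 : ℕ}
    (hp : p.Prime) (hp2 : p ≠ 2) (hM : ∀ t : ℕ, t ≠ 0 → 2 ^ t ≡ 1 [MOD p] → m0 ≤ 2 ^ t)
    (hlam : ∀ c, P.ok 0 c → c = 0)
    (hND : ∀ v : V, v ≠ 0 → ∃ w, H.h v w ≠ 0)
    {κ : ℕ} (hκ3 : κ ≤ 3)
    (hκ : ∀ A : Submodule F V, κ ≤ Module.finrank F A → ∃ w ∈ A, w ≠ 0 ∧ P.ok w 0)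
    (hdim : 5 ≤ Module.finrank F V)
    {lam : F} (hl1 : lam ≠ 1) (hlp : lam ^ p = 1) :
    ∃ x : SG P, x ^ p = 1 ∧ UGood 1 m0 x := by
  have hl0 : lam ≠ 0 := by
    rintro rfl
    rw [zero_pow hp.ne_zero] at hlp
    exact zero_ne_one hlp
  have hneg : ∀ s : F, -s = s := fun s => by linear_combination (-s) * h2
  have hnd0 : ∀ v ∈ (⊤ : Submodule F V), v ≠ 0 → ∃ w ∈ (⊤ : Submodule F V), H.h v w ≠ 0 := by
    intro v _ hv
    obtain ⟨w, hw⟩ := hND v hv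
    exact ⟨w, trivial, hw⟩
  have hfr : Module.finrank F (⊤ : Submodule F V) = Module.finrank F V := finrank_top F V
  obtain ⟨e0, he0, he0n, se0⟩ := hκ ⊤ (by omega)
  obtain ⟨f0, hf0, sf0, h00⟩ := exists_hyp hnd0 he0 se0 he0n
  obtain ⟨hnd1, hd1⟩ := split_hyp hnd0 he0 hf0 se0 sf0 h00
  rw [top_inf_eq] at hnd1 hd1
  obtain ⟨e1, he1, he1n, se1⟩ := hκ (perp H {e0, f0}) (by omega)
  obtain ⟨f1, hf1, sf1, h11⟩ := exists_hyp hnd1 he1 se1 he1n
  obtain ⟨hnd2, hd2⟩ := split_hyp hnd1 he1 hf1 se1 sf1 h11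
  have he1e : H.h e1 e0 = 0 := he1 e0 (by simp)
  have he1f : H.h e1 f0 = 0 := he1 f0 (by simp)
  have hf1e : H.h f1 e0 = 0 := hf1 e0 (by simp)
  have hf1f : H.h f1 f0 = 0 := hf1 f0 (by simp)
  have he0e := H.orth_symm he1e
  have he0f1 := H.orth_symm hf1e
  have hf0e1 := H.orth_symm he1f
  have hf0f1 := H.orth_symm hf1f
  have h00' : H.h f0 e0 = 1 := by rw [H.swap e0 f0, h00, map_one, mul_one, hε]
  have h11' : H.h f1 e1 = 1 := by rw [H.swap e1 f1, h11, map_one, mul_one, hε]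
  have e00 := P.iso se0
  have e11 := P.iso se1
  have f00 := P.iso sf0
  have f11 := P.iso sf1
  have hfr : HFr P ![e0, f1] ![f0, e1] :=
    frame_two se0 sf1 sf0 se1 he0f1 hf0e1 h00 h11' he0e hf1f
  have hperp : ∀ w, w ∈ perp H {e0, f0} ⊓ perp H {e1, f1} ↔ w ∈ mid H ![e0, f1] ![f0, e1] := by
    intro w
    rw [Submodule.mem_inf, mem_perp, mem_perp, mem_mid_two]
    simp only [Set.mem_insert_iff, Set.mem_singleton_iff, forall_eq_or_imp, forall_eq]
    tauto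
  obtain ⟨m, hm, hm0⟩ : ∃ m ∈ perp H {e0, f0} ⊓ perp H {e1, f1}, m ≠ 0 := by
    by_contra hcon
    push Not at hcon
    have : perp H {e0, f0} ⊓ perp H {e1, f1} = ⊥ := by
      rw [eq_bot_iff]
      intro v hv
      exact hcon v hv
    rw [this, finrank_bot] at hd2
    omega
  obtain ⟨m', hm', hmm⟩ := hnd2 m hm hm0
  -- the element
  have hA0 : ∀ s, H.h e0 (s • f1) = 0 := fun s => by rw [H.smul_right, he0f1, mul_zero]
  have hB0 : ∀ s, H.h e1 (s • f0) = 0 := fun s => by rw [H.smul_right, he1f, mul_zero]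
  obtain ⟨A, hA⟩ : ∃ A : F → V ≃ₗ[F] V, A = fun s => H.sie e0 (s • f1) 0 e00 (hA0 s) := ⟨_, rfl⟩
  obtain ⟨B, hB⟩ : ∃ B : F → V ≃ₗ[F] V, B = fun s => H.sie e1 (s • f0) 0 e11 (hB0 s) := ⟨_, rfl⟩
  have a0 : ∀ s v, A s v = v + (s * H.h v e0) • f1 + (s * H.h v f1) • e0 := by
    intro s v
    rw [hA]
    show H.sie e0 (s • f1) 0 e00 (hA0 s) v = _
    rw [H.sie_apply, H.smul_right, hσ, hε, inv_one, one_mul, sub_eq_add_neg, ← neg_smul, hneg]
    module
  have b0 : ∀ s v, B s v = v + (s * H.h v e1) • f0 + (s * H.h v f0) • e1 := by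
    intro s v
    rw [hB]
    show H.sie e1 (s • f0) 0 e11 (hB0 s) v = _
    rw [H.sie_apply, H.smul_right, hσ, hε, inv_one, one_mul, sub_eq_add_neg, ← neg_smul, hneg]
    module
  have key1 := diag_apply h2 A B (u := e0) (u' := e1)
    (fun s => by rw [a0, e00, he0f1]; simp) (fun s => by rw [a0, he1e, h11]; simp)
    (fun s => by rw [b0, e11, he1f]; simp) (fun s => by rw [b0, he0e, h00]; simp) hl0
  have key2 := diag_apply h2 A B (u := f1) (u' := f0)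
    (fun s => by rw [a0, hf1e, f11]; simp) (fun s => by rw [a0, h00', hf0f1]; simp)
    (fun s => by rw [b0, hf0e1, f00]; simp) (fun s => by rw [b0, h11', hf1f]; simp) hl0
  obtain ⟨x, hx⟩ : ∃ x, x = A lam * B ((lam + 1) / lam) * A 1 * B (lam + 1) := ⟨_, rfl⟩
  rw [← hx] at key1 key2
  have hAm : ∀ s, A s ∈ SG P := by
    intro s
    rw [hA]
    exact sie_mem_SG P _ _ se0 (P.sing_smul sf1 s)
  have hBm : ∀ s, B s ∈ SG P := by
    intro s
    rw [hB]
    exact sie_mem_SG P _ _ se1 (P.sing_smul sf0 s)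
  have hxS : x ∈ SG P := by
    rw [hx]
    exact mul_mem (mul_mem (mul_mem (hAm _) (hBm _)) (hAm _)) (hBm _)
  have hxM : ∀ v ∈ mid H ![e0, f1] ![f0, e1], x v = v := by
    intro v hv
    obtain ⟨⟨v1, v2⟩, v3, v4⟩ := mem_mid_two.1 hv
    have hA1 : ∀ s, A s v = v := fun s => by rw [a0, v1, v2]; simp
    have hB1 : ∀ s, B s v = v := fun s => by rw [b0, v3, v4]; simp
    rw [hx]
    show A lam (B ((lam + 1) / lam) (A 1 (B (lam + 1) v))) = v
    rw [hB1, hA1, hB1, hA1]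
  have hl2 : lam * lam ≠ 1 := by
    intro h
    apply hl1
    have h3 : orderOf lam ∣ 2 := orderOf_dvd_of_pow_eq_one (by rw [pow_two]; exact h)
    have h4 : orderOf lam ∣ p := orderOf_dvd_of_pow_eq_one hlp
    have h5 : Nat.Coprime 2 p := (Nat.coprime_primes Nat.prime_two hp).2 hp2.symm
    exact orderOf_eq_one_iff.1 (Nat.eq_one_of_dvd_coprimes h5 h3 h4)
  have hli1 : lam⁻¹ ≠ 1 := fun h => hl1 (by rw [← inv_inv lam, h, inv_one])
  have hll : lam ≠ lam⁻¹ := by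
    intro h
    apply hl2
    nth_rewrite 2 [h]
    exact mul_inv_cancel₀ hl0
  have hxp : x ^ p = 1 := by
    have d := hfr.dec hND
    ext v
    obtain ⟨t, ht, w, hw, t', ht', rfl⟩ := d.exists_eq v
    obtain ⟨s, s', rfl⟩ := (mem_span_two e0 f1 t).1 ht
    obtain ⟨r, r', rfl⟩ := (mem_span_two f0 e1 t').1 ht'
    show (x ^ p) (s • e0 + s' • f1 + w + (r • f0 + r' • e1)) =
      s • e0 + s' • f1 + w + (r • f0 + r' • e1)
    have e3 : (x ^ p) w = w := by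
      have h6 := pow_fix_scal (x := x) (v := w) (lam := 1)
        (by rw [one_smul]; exact hxM w hw) p
      rw [one_pow, one_smul] at h6
      exact h6
    simp only [map_add, map_smul, pow_fix_scal key1.1, pow_fix_scal key1.2, pow_fix_scal key2.1,
      pow_fix_scal key2.2, e3, inv_pow, hlp, inv_one, one_smul]
  refine ⟨⟨x, hxS⟩, Subtype.ext hxp, ?_⟩
  exact uGood_two (k := 1) h2 hε hp hM hlam hND hfr
    ⟨m, (hperp m).1 hm, m', (hperp m').1 hm', hmm⟩ hl1 hli1 hll hxS (by rw [pow_one]; exact hxp)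
    key1.1 key2.1 key2.2 key1.2 hxM

end Cfsg.Agent.H398.FPR
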