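import Cfsg.Agent.H398.FPR.EOne
import Cfsg.Agent.H110.Fpr.FamSp
import Cfsg.Agent.H110.Fpr.FamU
import Cfsg.Agent.H110.Fpr.FamO

/-!
# The rows for `p ∣ q - 1`, characteristic two, ratio `1 / (p + 1)`: symplectic, unitary, orthogonal
-/

set_option autoImplicit false
open Subgroup MulAction

namespace Cfsg.Agent.H398.FPR

open Cfsg
open Cfsg.Agent Cfsg.Agent.TitsThree
open Cfsg.Agent.TitsThree.Siegel Cfsg.Agent.TitsThree.SiegelGen Cfsg.Agent.H110.Fpr
open Cfsg.Agent.H409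

/-- `UGood` gives a row -/
theorem row_of_uGood {S : Type*} [Group S] {p m k : ℕ} (hp : p.Prime) {x : S} (hx : x ^ p ^ k = 1)
    (h : UGood 1 m x) : FprRow m 1 p S := by
  intro H hH
  obtain ⟨j, -, hj⟩ := (Nat.dvd_prime_pow hp).1 (orderOf_dvd_of_pow_eq_one hx)
  exact ⟨x, ⟨j, hj⟩, h H hH⟩

theorem row_of_uGood' {S : Type*} [Group S] {p m : ℕ} (hp : p.Prime)
    (h : ∃ x : S, x ^ p = 1 ∧ UGood 1 m x) : FprRow m 1 p S := by
  obtain ⟨x, hx, h⟩ := h
  exact row_of_uGood (k := 1) hp (by rw [pow_one]; exact hx) h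

theorem pow_two_le {p : ℕ} (_hp : p.Prime) : ∀ t : ℕ, t ≠ 0 → 2 ^ t ≡ 1 [MOD p] →
    p + 1 ≤ 2 ^ t := by
  intro t ht h
  have h1 : 1 < 2 ^ t := Nat.one_lt_two_pow ht
  have h2 : p ∣ 2 ^ t - 1 := (Nat.modEq_iff_dvd' h1.le).1 h.symm
  have h3 := Nat.le_of_dvd (by omega) h2
  omega

/-- an element of order `p` in the multiplicative group -/
theorem exists_order {F : Type*} [Field F] [Finite F] {p : ℕ} (hp : p.Prime)
    (h : p ∣ Nat.card F - 1) : ∃ lam : F, lam ≠ 1 ∧ lam ^ p = 1 := by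
  classical
  have := Fact.mk hp
  have := Fintype.ofFinite F
  have hcu : Nat.card Fˣ = Nat.card F - 1 := by
    rw [Nat.card_eq_fintype_card, Nat.card_eq_fintype_card, Fintype.card_units]
  obtain ⟨u, hu⟩ := exists_prime_orderOf_dvd_card' (G := Fˣ) p (by rw [hcu]; exact h)
  refine ⟨u, ?_, ?_⟩
  · intro h1
    have h2 : u = 1 := Units.ext h1
    rw [h2, orderOf_one] at hu
    exact hp.one_lt.ne hu
  · have h1 := pow_orderOf_eq_one u
    rw [hu] at h1
    have h2 := congrArg Units.val h1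
    simpa using h2

section Sp

variable {F : Type*} [Field F] {m : ℕ}

theorem sp_of_SG [Finite F] {a b p : ℕ} (hp : p.Prime) (h : FprRow a b p (SG (SpGen.pq m F))) :
    FprRow a b p (PSp m F) := by
  have hfin : Finite ((Fin m ⊕ Fin m → F) ≃ₗ[F] (Fin m ⊕ Fin m → F)) := instFin
  let e : SG (SpGen.pq m F) ≃* SpIdent.isos (SpIdent.form m F) := MulEquiv.subgroupCongr SG_pq
  let f : SG (SpGen.pq m F) →* PSp m F := SpIdent.toPSp.comp e.toMonoidHom
  have hf : Function.Surjective f := SpIdent.toPSp_surjective.comp e.surjective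
  exact FprRow.of_surjective hp f hf h

/-- **`PSp_{2m}(q)`, `q` even, `p ∣ q - 1`.** -/
theorem psp_eone [Finite F] (hm : 2 ≤ m) (h2 : (2 : F) = 0) {p : ℕ} (hp : p.Prime) (hp2 : p ≠ 2)
    (hd : p ∣ Nat.card F - 1) : FprRow (p + 1) 1 p (PSp m F) := by
  apply sp_of_SG hp
  obtain ⟨lam, hl1, hlp⟩ := exists_order hp hd
  apply row_of_uGood' hp
  exact uGood_long h2 (alt_form h2).eps hp hp2 (pow_two_le hp) nd_form
    (by rw [finrank_sp]; omega) (e := SpIdent.e m F ⟨0, by omega⟩) trivial (by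
      intro h
      have h1 := SpIdent.ef (F := F) (⟨0, by omega⟩ : Fin m) ⟨0, by omega⟩
      rw [h, if_pos rfl] at h1
      have h3 : (SpIdent.form m F).h 0 (SpIdent.f m F ⟨0, by omega⟩) = 1 := h1
      rw [HForm.zero_left] at h3
      exact zero_ne_one h3) hl1 hlp trivial trivial trivial trivial

end Sp

section U

variable {F : Type*} [Field F] [Fintype F] {q N : ℕ}

theorem su_of_SG (hF : Fintype.card F = q ^ 2) (hN : 3 ≤ N) {a b p : ℕ} (hp : p.Prime)
    (h : FprRow a b p (SG (KSideU.PU hF N))) : FprRow a b p (PSU N F q) := by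
  have hfin : Finite ((Fin N → F) ≃ₗ[F] (Fin N → F)) := instFin
  have e : SG (KSideU.PU hF N) ≃* SU N F q :=
    ((MonoidHom.ofInjective (KSideU.toLin_injective (F := F) (q := q) (N := N))).trans
      (MulEquiv.subgroupCongr (SG_PU hF hN).symm)).symm
  let f : SG (KSideU.PU hF N) →* PSU N F q :=
    (QuotientGroup.mk' (Subgroup.center (SU N F q))).comp e.toMonoidHom
  have hf : Function.Surjective f := (QuotientGroup.mk'_surjective _).comp e.surjective
  exact FprRow.of_surjective hp f hf h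

/-- **`PSU_n(q)`, `q` even, `p ∣ q - 1`.** -/
theorem psu_eone (hF : Fintype.card F = q ^ 2) (hN : 3 ≤ N) (h2 : (2 : F) = 0) {p : ℕ}
    (hp : p.Prime) (hp2 : p ≠ 2) (hd : p ∣ q - 1) : FprRow (p + 1) 1 p (PSU N F q) := by
  apply su_of_SG hF hN hp
  obtain ⟨lam', hl1', hlp'⟩ := exists_order (F := fixF hF) hp (by rw [card_fixF]; exact hd)
  obtain ⟨lam, hlam⟩ : ∃ lam : F, lam = (lam' : F) := ⟨_, rfl⟩
  have hl1 : lam ≠ 1 := by
    rw [hlam]
    intro h
    exact hl1' (Subtype.ext h)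
  have hlp : lam ^ p = 1 := by
    rw [hlam]
    have := congrArg (fun z : fixF hF => (z : F)) hlp'
    simpa using this
  have hlq : lam ^ q = lam := by rw [hlam]; exact lam'.2
  have hok : ∀ c : F, c ^ q = c → (KSideU.PU hF N).ok 0 c := by
    intro c hc
    rw [KSideU.ok_iff, hc, LieClassical.HermBasic.herm_zero_left, neg_zero]
    linear_combination c * h2
  have hlq1 : (lam + 1) ^ q = lam + 1 := by
    rw [LieClassical.HermBasic.add_pow_q hF, hlq, one_pow]
  obtain ⟨e, -, he0, he⟩ := exists_iso_mem hF (⊤ : Submodule F (Fin N → F)) (by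
    rw [finrank_top, Module.finrank_fintype_fun_eq_card, Fintype.card_fin]; omega)
  apply row_of_uGood' hp
  exact uGood_long h2 (KSideU.HU_ε hF) hp hp2 (pow_two_le hp) (nd_HU hF)
    (by rw [Module.finrank_fintype_fun_eq_card, Fintype.card_fin]; exact hN) he he0 hl1 hlp
    (hok _ hlq) (hok _ (by rw [div_pow, hlq1, hlq])) (hok _ (one_pow q)) (hok _ hlq1)

end U

section O

open LieClassical LieClassical.OrthCore LieClassical.OrthFinite LieClassical.OrthForms

theorem ugood_EQ {F V : Type*} [Field F] [Finite F] [AddCommGroup V] [Module F V] [Finite V]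
    {Q : QuadraticForm F V} (hQ : Nondeg Q) (hd : 5 ≤ Module.finrank F V) (h2 : (2 : F) = 0)
    {p : ℕ} (hp : p.Prime) (hp2 : p ≠ 2) (hpq : p ∣ Nat.card F - 1) :
    FprRow (p + 1) 1 p (SG (KSideO.PO Q)) := by
  have hND : ∀ v : V, v ≠ 0 → ∃ w, (KSideO.HO Q).h v w ≠ 0 := by
    intro v hv
    by_contra hcon
    push Not at hcon
    exact hv (hQ v hcon)
  have hκ : ∀ A : Submodule F V, 3 ≤ Module.finrank F A → ∃ w ∈ A, w ≠ 0 ∧
      (KSideO.PO Q).ok w 0 := by
    intro A hA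
    obtain ⟨w, hw, hw0, hQw⟩ := exists_sing_mem (Q := Q) A hA
    exact ⟨w, hw, hw0, (KSideO.sing_iff Q).2 hQw⟩
  obtain ⟨lam, hl1, hlp⟩ := exists_order hp hpq
  apply row_of_uGood' hp
  refine uGood_orth h2 rfl (fun _ => rfl) hp hp2 (pow_two_le hp) ?_ hND le_rfl hκ hd hl1 hlp
  intro c hc
  have hc' : c = -Q 0 := hc
  rw [QuadraticMap.map_zero, neg_zero] at hc'
  exact hc'

theorem omega_of_SG {ι : Type} [Fintype ι] [DecidableEq ι] {F : Type*} [Field F] [Finite F]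
    {Q : QuadraticForm F (ι → F)} (hQ : Nondeg Q) (hd : 5 ≤ Module.finrank F (ι → F))
    {a b p : ℕ} (hp : p.Prime) (h : FprRow a b p (SG (KSideO.PO Q))) :
    FprRow a b p (Cfsg.POmega F ⇑Q) := by
  have hG := good_of_finite hQ hd
  have : Finite ((ι → F) ≃ₗ[F] (ι → F)) := instFin
  refine FprRow.of_surjective hp (KSideO.toPOmega hG) (KSideO.toPOmega_surjective hG) ?_
  rw [← SG_PO]
  exact h

/-- **`PΩ⁺_{2m}(q)`, `q` even, `p ∣ q - 1`.** -/
theorem oplus_eone {F : Type} [Field F] [Fintype F] {m : ℕ} (hm : 4 ≤ m) (h2 : (2 : F) = 0)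
    {p : ℕ} (hp : p.Prime) (hp2 : p ≠ 2) (hpq : p ∣ Nat.card F - 1) :
    FprRow (p + 1) 1 p (Cfsg.POmega F (Cfsg.quadFormPlus m F)) := by
  rw [← coe_plusForm]
  have hd : 5 ≤ Module.finrank F (Fin m ⊕ Fin m → F) := by
    rw [Module.finrank_fintype_fun_eq_card, Fintype.card_sum, Fintype.card_fin]
    omega
  exact omega_of_SG (nondeg_plusForm m F) hd hp
    (ugood_EQ (nondeg_plusForm m F) hd h2 hp hp2 hpq)

/-- **`PΩ⁻_{2m}(q)`, `q` even, `p ∣ q - 1`.** -/
theorem ominus_eone {F : Type} [Field F] [Fintype F] {m : ℕ} (hm : 4 ≤ m) {a b : F}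
    (hab : ∀ z₁ z₂ : F, z₁ ^ 2 + a * z₁ * z₂ + b * z₂ ^ 2 = 0 → z₁ = 0 ∧ z₂ = 0)
    (h2 : (2 : F) = 0) {p : ℕ} (hp : p.Prime) (hp2 : p ≠ 2) (hpq : p ∣ Nat.card F - 1) :
    FprRow (p + 1) 1 p (Cfsg.POmega F (Cfsg.quadFormMinus (m - 1) F a b)) := by
  rw [← coe_minusForm]
  have hd : 5 ≤ Module.finrank F ((Fin (m - 1) ⊕ Fin (m - 1)) ⊕ Fin 2 → F) := by
    rw [Module.finrank_fintype_fun_eq_card, Fintype.card_sum, Fintype.card_sum, Fintype.card_fin,
      Fintype.card_fin]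
    omega
  exact omega_of_SG (nondeg_minusForm (m - 1) F a b hab) hd hp
    (ugood_EQ (nondeg_minusForm (m - 1) F a b hab) hd h2 hp hp2 hpq)

end O

end Cfsg.Agent.H398.FPR
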