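import Cfsg.Agent.H398.FPR.CTwoRow

/-!
# Mersenne primes, characteristic two: the rows `1 / (p + 1)` for all symplectic, unitary and
orthogonal groups, from the one for `PSL_k(q)`, `p = 2 ^ k - 1`
-/

set_option autoImplicit false
open Subgroup MulAction

namespace Cfsg.Agent.H398.FPR

open Cfsg
open Cfsg.Agent Cfsg.Agent.TitsThree
open Cfsg.Agent.TitsThree.Siegel Cfsg.Agent.TitsThree.SiegelGen Cfsg.Agent.H110.Fpr
open Cfsg.Agent.H409

theorem dvd_card_of_surjective {G S : Type*} [Group G] [Finite G] [Group S] {p : ℕ}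
    (f : G →* S) (hf : Function.Surjective f) (h : p ∣ Nat.card S) : p ∣ Nat.card G :=
  h.trans (Subgroup.card_dvd_of_surjective f hf)

/-- The row for `SL_n(q)` from the one for `PSL_n(q)`. -/
theorem sl_of_psl {F : Type*} [Field F] [Finite F] {a b p n : ℕ} (hp : p.Prime) (hn : 3 ≤ n)
    (hq : ¬ p ∣ Nat.card F - 1)
    (h : FprRow a b p (Matrix.ProjectiveSpecialLinearGroup (Fin n) F)) :
    FprRow a b p (Matrix.SpecialLinearGroup (Fin n) F) := by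
  classical
  have := Fintype.ofFinite F
  have hker : (QuotientGroup.mk' (center (Matrix.SpecialLinearGroup (Fin n) F))).ker =
      center (Matrix.SpecialLinearGroup (Fin n) F) := QuotientGroup.ker_mk' _
  refine FprRow.lift hp (QuotientGroup.mk' (center (Matrix.SpecialLinearGroup (Fin n) F)))
    (QuotientGroup.mk'_surjective _) hker.le ?_
    (Cfsg.Agent.LieClassical.SLGen.commutator_eq_top (by rw [Fintype.card_fin]; exact hn)) h
  rw [hker]
  intro hd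
  apply hq
  have h1 : Nat.card (center (Matrix.SpecialLinearGroup (Fin n) F)) =
      Nat.card (rootsOfUnity (max (Fintype.card (Fin n)) 1) F) :=
    Nat.card_congr Matrix.SpecialLinearGroup.center_equiv_rootsOfUnity.toEquiv
  rw [h1] at hd
  have h2 : Nat.card Fˣ = Nat.card F - 1 := by
    rw [Nat.card_eq_fintype_card, Nat.card_eq_fintype_card, Fintype.card_units]
  rw [← h2]
  exact hd.trans (Subgroup.card_subgroup_dvd_card _)

/-- `p ∣ q ^ 2 - 1` implies `p ∣ q - 1` -/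
theorem mers_sq {F : Type*} [Field F] [Fintype F] {q : ℕ} (hF : Fintype.card F = q ^ 2)
    (h2 : (2 : F) = 0) {p k : ℕ} (hp : p.Prime)
    (hk : k.Prime) (hk3 : 3 ≤ k) (hpk : p + 1 = 2 ^ k) (h : p ∣ q ^ 2 - 1) : p ∣ q - 1 := by
  have hpf : Fact p.Prime := ⟨hp⟩
  have hch := charP_two h2
  obtain ⟨a, -, ha⟩ := FiniteField.card F 2
  rw [hF] at ha
  obtain ⟨b, -, hb⟩ := (Nat.dvd_prime_pow Nat.prime_two).1 (Dvd.intro_left (q ^ 1) (by
    rw [← ha]; ring) : q ∣ 2 ^ (a : ℕ))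
  have hq0 : 0 < q := by rw [hb]; positivity
  have h3 := (dvd_pow_sub_one_iff (p := p) (q := q) (k := 2) hq0).1 h
  have h4 : orderOf (2 : ZMod p) ∣ 2 * b := by
    apply orderOf_dvd_of_pow_eq_one
    rw [mul_comm, pow_mul]
    have h5 : ((q : ℕ) : ZMod p) = 2 ^ b := by rw [hb]; push_cast; rfl
    rw [← h5]
    exact h3
  rw [orderOf_two hp hk hpk] at h4
  have h5 : k ∣ b := by
    rcases (hk.dvd_mul).1 h4 with h6 | h6
    · have := Nat.le_of_dvd (by norm_num) h6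
      omega
    · exact h6
  have h6 : ((q : ℕ) : ZMod p) ^ 1 = 1 := by
    have h7 : ((q : ℕ) : ZMod p) = 2 ^ b := by rw [hb]; push_cast; rfl
    rw [pow_one, h7]
    exact orderOf_dvd_iff_pow_eq_one.1 (by rw [orderOf_two hp hk hpk]; exact h5)
  have h7 := (dvd_pow_sub_one_iff (p := p) (q := q) (k := 1) hq0).2 h6
  rwa [pow_one] at h7

theorem mers_ne_two {p k : ℕ} (hk : k.Prime) (hpk : p + 1 = 2 ^ k) : p ≠ 2 := by
  rintro rfl
  have h : 2 ∣ 2 ^ k := dvd_pow_self 2 hk.ne_zero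
  rw [← hpk] at h
  omega

section Sp

variable {F : Type*} [Field F] {m : ℕ}

/-- **`PSp_{2m}(q)`, `q` even, `p = 2 ^ k - 1`, `p ∤ q - 1`.** -/
theorem psp_mers [Finite F] (h2 : (2 : F) = 0) {p k : ℕ} (hp : p.Prime)
    (hk : k.Prime) (hk3 : 3 ≤ k) (hpk : p + 1 = 2 ^ k) (hq : ¬ p ∣ Nat.card F - 1)
    (hd : p ∣ Nat.card (PSp m F))
    (hL : FprRow (p + 1) 1 p (Matrix.ProjectiveSpecialLinearGroup (Fin k) F)) :
    FprRow (p + 1) 1 p (PSp m F) := by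
  have hfin : Finite ((Fin m ⊕ Fin m → F) ≃ₗ[F] (Fin m ⊕ Fin m → F)) := instFin
  apply sp_of_SG hp
  have hd' : p ∣ Nat.card (SG (SpGen.pq m F)) := by
    let e : SG (SpGen.pq m F) ≃* SpIdent.isos (SpIdent.form m F) := MulEquiv.subgroupCongr SG_pq
    let f : SG (SpGen.pq m F) →* PSp m F := SpIdent.toPSp.comp e.toMonoidHom
    have hf : Function.Surjective f := SpIdent.toPSp_surjective.comp e.surjective
    exact dvd_card_of_surjective f hf hd
  exact mers_row h2 (alt_form h2).eps nd_form hp hk hk3 hpk hq hd' (sl_of_psl hp hk3 hq hL)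
    (Or.inl ⟨1, one_ne_zero, trivial⟩)

/-- **`PSp_{2m}(q)`, `q` even, `p = 2 ^ k - 1`, `k ≥ 3`.** -/
theorem psp_mers' [Finite F] (hm : 2 ≤ m) (h2 : (2 : F) = 0) {p k : ℕ} (hp : p.Prime)
    (hk : k.Prime) (hk3 : 3 ≤ k) (hpk : p + 1 = 2 ^ k) (hd : p ∣ Nat.card (PSp m F))
    (hL : ¬ p ∣ Nat.card F - 1 →
      FprRow (p + 1) 1 p (Matrix.ProjectiveSpecialLinearGroup (Fin k) F)) :
    FprRow (p + 1) 1 p (PSp m F) := by
  by_cases hq : p ∣ Nat.card F - 1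
  · exact psp_eone hm h2 hp (mers_ne_two hk hpk) hq
  · exact psp_mers h2 hp hk hk3 hpk hq hd (hL hq)

end Sp

section U

variable {F : Type*} [Field F] [Fintype F] {q N : ℕ}

/-- **`PSU_n(q)`, `q` even, `p = 2 ^ k - 1`, `p ∤ q ^ 2 - 1`.** -/
theorem psu_mers (hF : Fintype.card F = q ^ 2) (hN : 3 ≤ N) (h2 : (2 : F) = 0) {p k : ℕ}
    (hp : p.Prime) (hk : k.Prime) (hk3 : 3 ≤ k) (hpk : p + 1 = 2 ^ k) (hq : ¬ p ∣ q ^ 2 - 1)
    (hd : p ∣ Nat.card (PSU N F q))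
    (hL : FprRow (p + 1) 1 p (Matrix.ProjectiveSpecialLinearGroup (Fin k) F)) :
    FprRow (p + 1) 1 p (PSU N F q) := by
  have hfin : Finite ((Fin N → F) ≃ₗ[F] (Fin N → F)) := instFin
  apply su_of_SG hF hN hp
  have hd' : p ∣ Nat.card (SG (KSideU.PU hF N)) := by
    have e : SG (KSideU.PU hF N) ≃* SU N F q :=
      ((MonoidHom.ofInjective (KSideU.toLin_injective (F := F) (q := q) (N := N))).trans
        (MulEquiv.subgroupCongr (SG_PU hF hN).symm)).symm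
    let f : SG (KSideU.PU hF N) →* PSU N F q :=
      (QuotientGroup.mk' (Subgroup.center (SU N F q))).comp e.toMonoidHom
    have hf : Function.Surjective f := (QuotientGroup.mk'_surjective _).comp e.surjective
    exact dvd_card_of_surjective f hf hd
  have hok : (KSideU.PU hF N).ok 0 1 := by
    rw [KSideU.ok_iff, one_pow, LieClassical.HermBasic.herm_zero_left, neg_zero]
    linear_combination h2
  have hq' : ¬ p ∣ Nat.card F - 1 := by
    rw [Nat.card_eq_fintype_card, hF]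
    exact hq
  exact mers_row h2 (KSideU.HU_ε hF) (nd_HU hF) hp hk hk3 hpk hq' hd' (sl_of_psl hp hk3 hq' hL)
    (Or.inl ⟨1, one_ne_zero, hok⟩)

/-- **`PSU_n(q)`, `q` even, `p = 2 ^ k - 1`, `k ≥ 3`.** -/
theorem psu_mers' (hF : Fintype.card F = q ^ 2) (hN : 3 ≤ N) (h2 : (2 : F) = 0) {p k : ℕ}
    (hp : p.Prime) (hk : k.Prime) (hk3 : 3 ≤ k) (hpk : p + 1 = 2 ^ k)
    (hd : p ∣ Nat.card (PSU N F q))
    (hL : ¬ p ∣ Nat.card F - 1 →
      FprRow (p + 1) 1 p (Matrix.ProjectiveSpecialLinearGroup (Fin k) F)) :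
    FprRow (p + 1) 1 p (PSU N F q) := by
  by_cases hq : p ∣ q ^ 2 - 1
  · exact psu_eone hF hN h2 hp (mers_ne_two hk hpk) (mers_sq hF h2 hp hk hk3 hpk hq)
  · exact psu_mers hF hN h2 hp hk hk3 hpk hq hd
      (hL (by rw [Nat.card_eq_fintype_card, hF]; exact hq))

end U

section O

open LieClassical LieClassical.OrthCore LieClassical.OrthFinite LieClassical.OrthForms

theorem omega_mers {ι : Type} [Fintype ι] [DecidableEq ι] {F : Type*} [Field F] [Finite F]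
    {Q : QuadraticForm F (ι → F)} (hQ : Nondeg Q) (hd7 : 7 ≤ Module.finrank F (ι → F))
    (h2 : (2 : F) = 0) {p k : ℕ} (hp : p.Prime)
    (hk : k.Prime) (hk3 : 3 ≤ k) (hpk : p + 1 = 2 ^ k) (hq : ¬ p ∣ Nat.card F - 1)
    (hd : p ∣ Nat.card (Cfsg.POmega F ⇑Q))
    (hL : FprRow (p + 1) 1 p (Matrix.ProjectiveSpecialLinearGroup (Fin k) F)) :
    FprRow (p + 1) 1 p (Cfsg.POmega F ⇑Q) := by
  have : Finite ((ι → F) ≃ₗ[F] (ι → F)) := instFin
  have hG := good_of_finite hQ (by omega : 5 ≤ Module.finrank F (ι → F))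
  apply omega_of_SG hQ (by omega) hp
  have hd' : p ∣ Nat.card (SG (KSideO.PO Q)) := by
    rw [SG_PO]
    exact dvd_card_of_surjective (KSideO.toPOmega hG) (KSideO.toPOmega_surjective hG) hd
  refine mers_row h2 rfl ?_ hp hk hk3 hpk hq hd' (sl_of_psl hp hk3 hq hL) (Or.inr hd7)
  intro v hv
  by_contra hcon
  push Not at hcon
  exact hv (hQ v hcon)

/-- **`PΩ⁺_{2m}(q)`, `q` even, `p = 2 ^ k - 1`, `p ∤ q - 1`.** -/
theorem oplus_mers {F : Type} [Field F] [Fintype F] {m : ℕ} (hm : 4 ≤ m) (h2 : (2 : F) = 0)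
    {p k : ℕ} (hp : p.Prime)
    (hk : k.Prime) (hk3 : 3 ≤ k) (hpk : p + 1 = 2 ^ k) (hq : ¬ p ∣ Nat.card F - 1)
    (hd : p ∣ Nat.card (Cfsg.POmega F (Cfsg.quadFormPlus m F)))
    (hL : FprRow (p + 1) 1 p (Matrix.ProjectiveSpecialLinearGroup (Fin k) F)) :
    FprRow (p + 1) 1 p (Cfsg.POmega F (Cfsg.quadFormPlus m F)) := by
  rw [← coe_plusForm] at hd ⊢
  have hd' : 7 ≤ Module.finrank F (Fin m ⊕ Fin m → F) := by
    rw [Module.finrank_fintype_fun_eq_card, Fintype.card_sum, Fintype.card_fin]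
    omega
  exact omega_mers (nondeg_plusForm m F) hd' h2 hp hk hk3 hpk hq hd hL

/-- **`PΩ⁻_{2m}(q)`, `q` even, `p = 2 ^ k - 1`, `p ∤ q - 1`.** -/
theorem ominus_mers {F : Type} [Field F] [Fintype F] {m : ℕ} (hm : 4 ≤ m) {a b : F}
    (hab : ∀ z₁ z₂ : F, z₁ ^ 2 + a * z₁ * z₂ + b * z₂ ^ 2 = 0 → z₁ = 0 ∧ z₂ = 0)
    (h2 : (2 : F) = 0) {p k : ℕ} (hp : p.Prime)
    (hk : k.Prime) (hk3 : 3 ≤ k) (hpk : p + 1 = 2 ^ k) (hq : ¬ p ∣ Nat.card F - 1)
    (hd : p ∣ Nat.card (Cfsg.POmega F (Cfsg.quadFormMinus (m - 1) F a b)))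
    (hL : FprRow (p + 1) 1 p (Matrix.ProjectiveSpecialLinearGroup (Fin k) F)) :
    FprRow (p + 1) 1 p (Cfsg.POmega F (Cfsg.quadFormMinus (m - 1) F a b)) := by
  rw [← coe_minusForm] at hd ⊢
  have hd' : 7 ≤ Module.finrank F ((Fin (m - 1) ⊕ Fin (m - 1)) ⊕ Fin 2 → F) := by
    rw [Module.finrank_fintype_fun_eq_card, Fintype.card_sum, Fintype.card_sum, Fintype.card_fin,
      Fintype.card_fin]
    omega
  exact omega_mers (nondeg_minusForm (m - 1) F a b hab) hd' h2 hp hk hk3 hpk hq hd hL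

/-- **`PΩ⁺_{2m}(q)`, `q` even, `p = 2 ^ k - 1`, `k ≥ 3`.** -/
theorem oplus_mers' {F : Type} [Field F] [Fintype F] {m : ℕ} (hm : 4 ≤ m) (h2 : (2 : F) = 0)
    {p k : ℕ} (hp : p.Prime) (hk : k.Prime) (hk3 : 3 ≤ k) (hpk : p + 1 = 2 ^ k)
    (hd : p ∣ Nat.card (Cfsg.POmega F (Cfsg.quadFormPlus m F)))
    (hL : ¬ p ∣ Nat.card F - 1 →
      FprRow (p + 1) 1 p (Matrix.ProjectiveSpecialLinearGroup (Fin k) F)) :
    FprRow (p + 1) 1 p (Cfsg.POmega F (Cfsg.quadFormPlus m F)) := by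
  by_cases hq : p ∣ Nat.card F - 1
  · exact oplus_eone hm h2 hp (mers_ne_two hk hpk) hq
  · exact oplus_mers hm h2 hp hk hk3 hpk hq hd (hL hq)

/-- **`PΩ⁻_{2m}(q)`, `q` even, `p = 2 ^ k - 1`, `k ≥ 3`.** -/
theorem ominus_mers' {F : Type} [Field F] [Fintype F] {m : ℕ} (hm : 4 ≤ m) {a b : F}
    (hab : ∀ z₁ z₂ : F, z₁ ^ 2 + a * z₁ * z₂ + b * z₂ ^ 2 = 0 → z₁ = 0 ∧ z₂ = 0)
    (h2 : (2 : F) = 0) {p k : ℕ} (hp : p.Prime)
    (hk : k.Prime) (hk3 : 3 ≤ k) (hpk : p + 1 = 2 ^ k)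
    (hd : p ∣ Nat.card (Cfsg.POmega F (Cfsg.quadFormMinus (m - 1) F a b)))
    (hL : ¬ p ∣ Nat.card F - 1 →
      FprRow (p + 1) 1 p (Matrix.ProjectiveSpecialLinearGroup (Fin k) F)) :
    FprRow (p + 1) 1 p (Cfsg.POmega F (Cfsg.quadFormMinus (m - 1) F a b)) := by
  by_cases hq : p ∣ Nat.card F - 1
  · exact ominus_eone hm hab h2 hp (mers_ne_two hk hpk) hq
  · exact ominus_mers hm hab h2 hp hk hk3 hpk hq hd (hL hq)

end O

end Cfsg.Agent.H398.FPR
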