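import Cfsg.Agent.H398.FPR.Free

/-!
# Reduction of the prime `p` to another prime

* `frob_uGood`: `x` normalises the group `Y` and acts on it without fixed points, `Y` has ratio
  `|Fix Y| ≤ n / (|Y| + 1)` and all other `Y`-orbits are regular (e.g. `|Y|` prime). Then
  `(|Y| + 1) fix(x) ≤ 2 n`.
* `growth_uGood`: `x ∈ K` has ratio `1 / b` on the nontrivial orbits of `K`, `y ∈ K` has ratio
  `1 / c`; then `b c fix(x) ≤ (b + c - 1) n`.
-/

set_option autoImplicit false
open Subgroup MulAction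
open scoped Pointwise

namespace Cfsg.Agent.H398.FPR

section

variable {G X : Type*} [Group G] [MulAction G X]

/-- The orbits of a group of prime order. -/
theorem ncard_orbit_prime [Finite G] {r : ℕ} (hr : r.Prime) {Y : Subgroup G}
    (hY : Nat.card Y = r) {ω : X} (hω : ω ∉ fs Y X) : (orbit Y ω).ncard = r := by
  rw [ncard_orbit_eq]
  have h1 := relIndex_mul_card (stabilizer G ω) Y
  rw [hY] at h1
  rcases (Nat.dvd_prime hr).1 (Dvd.intro _ h1 : (stabilizer G ω).relIndex Y ∣ r) with h2 | h2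
  · exfalso
    apply hω
    rw [mem_fs]
    exact relIndex_eq_one.1 h2
  · exact h2

/-- **The Frobenius group lemma**, counting form. -/
theorem frob_bound [Finite G] [Finite X] {r : ℕ} (hr : r.Prime) {x : G} {Y : Subgroup G}
    (hY : Nat.card Y = r) (hf : FreeOn x Y) :
    r * (fixedBy X x \ fs Y X).ncard + (fs Y X).ncard ≤ Nat.card X := by
  classical
  have := Fintype.ofFinite X
  have h1 : r * (fixedBy X x \ fs Y X).ncard ≤ ((fs Y X)ᶜ).ncard := by
    have h2 := sum_orbits (M := Y) (A := fixedBy X x) (Y := (fs Y X)ᶜ) (c1 := r) (c2 := 1)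
      (fun m y hy hmy => hy ((fs_smul_mem_iff (le_normalizer m.2)).1 hmy)) (by
        intro y hy
        rw [one_mul]
        rcases (fixedBy X x ∩ orbit Y y).eq_empty_or_nonempty with h0 | ⟨ω, hω1, hω2⟩
        · rw [h0, Set.ncard_empty, mul_zero]
          exact Nat.zero_le _
        · have h4 : orbit Y y = orbit Y ω := (orbit_eq_iff.2 hω2).symm
          rw [h4]
          have hω3 : ω ∉ fs Y X := by
            intro hω
            obtain ⟨m, rfl⟩ := hω2
            exact hy ((fs_smul_mem_iff (le_normalizer m.2)).1 hω)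
          exact hf.ratio hω1 (by rw [← ncard_orbit_eq, ncard_orbit_prime hr hY hω3]))
    rw [one_mul] at h2
    rw [Set.sdiff_eq]
    exact h2
  have h5 := Set.ncard_add_ncard_compl (fs Y X)
  omega

/-- **The Frobenius group lemma.** -/
theorem frob_uGood [Finite G] {r : ℕ} (hr : r.Prime) {x y : G} (hy : orderOf y = r)
    (hf : FreeOn x (zpowers y)) (h : UGood 1 (r + 1) y) : UGood 2 (r + 1) x := by
  classical
  intro H hH
  have h1 := frob_bound (X := G ⧸ H) hr (Y := zpowers y) (by rw [Nat.card_zpowers, hy]) hf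
  have h2 := h H hH
  have h3 : fs (zpowers y) (G ⧸ H) = fixedBy (G ⧸ H) y := by
    ext z
    rw [mem_fs, zpowers_le]
    rfl
  rw [h3] at h1
  rw [Nat.card_coe_set_eq] at h2 ⊢
  have e1 := Set.ncard_inter_add_ncard_sdiff_eq_ncard (fixedBy (G ⧸ H) x) (fixedBy (G ⧸ H) y)
    (Set.toFinite _)
  have e2 : (fixedBy (G ⧸ H) x ∩ fixedBy (G ⧸ H) y).ncard ≤ (fixedBy (G ⧸ H) y).ncard :=
    Set.ncard_le_ncard Set.inter_subset_right (Set.toFinite _)
  obtain ⟨a, ha⟩ : ∃ a, a = (fixedBy (G ⧸ H) x ∩ fixedBy (G ⧸ H) y).ncard := ⟨_, rfl⟩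
  obtain ⟨b, hb⟩ : ∃ b, b = (fixedBy (G ⧸ H) x \ fixedBy (G ⧸ H) y).ncard := ⟨_, rfl⟩
  obtain ⟨c, hc⟩ : ∃ c, c = (fixedBy (G ⧸ H) y).ncard := ⟨_, rfl⟩
  obtain ⟨n, hn⟩ : ∃ n, n = Nat.card (G ⧸ H) := ⟨_, rfl⟩
  rw [← ha, ← hb] at e1
  rw [← ha, ← hc] at e2
  rw [← hb, ← hc, ← hn] at h1
  rw [← hc, ← hn] at h2
  rw [← e1, ← hn]
  obtain ⟨s, rfl⟩ := Nat.exists_eq_add_of_le hr.one_le
  -- (s + 2) c ≤ n and (1 + s) b + c ≤ n
  have k1 : (1 + s + 1) * a ≤ (1 + s + 1) * c := Nat.mul_le_mul_left _ e2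
  have k2 : (1 + s) * ((1 + s + 1) * (a + b)) ≤ (1 + s) * (2 * n) := by
    have k3 : (1 + s + 1) * ((1 + s) * b + c) ≤ (1 + s + 1) * n := Nat.mul_le_mul_left _ h1
    have k4 : (1 + s) * ((1 + s + 1) * a) ≤ (1 + s) * ((1 + s + 1) * c) :=
      Nat.mul_le_mul_left _ k1
    have k5 : s * ((1 + s + 1) * c) ≤ s * (1 * n) := Nat.mul_le_mul_left _ h2
    nlinarith
  exact Nat.le_of_mul_le_mul_left k2 (by omega)

/-- For `p = 3` and `7`. -/
theorem three_of_seven [Finite G] {x y : G} (hy : orderOf y = 7)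
    (hf : FreeOn x (zpowers y)) (h : UGood 1 8 y) : UGood 1 4 x := by
  intro H hH
  have := frob_uGood (by norm_num : Nat.Prime 7) hy hf h H hH
  omega

/-- Free action on a group of prime order: one noncentral conjugate is enough. -/
theorem freeOn_zpowers [Finite G] {r m : ℕ} (hr : r.Prime) {x y : G} (hy : orderOf y = r)
    (hxy : x * y * x⁻¹ = y ^ m) (hne : x * y ≠ y * x) : FreeOn x (zpowers y) := by
  have hfin : Finite (zpowers y) := inferInstance
  have hconj : ∀ r ∈ zpowers y, x * r * x⁻¹ ∈ zpowers y := by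
    rintro _ ⟨i, rfl⟩
    refine ⟨m * i, ?_⟩
    show y ^ ((m : ℤ) * i) = x * y ^ i * x⁻¹
    rw [zpow_mul, zpow_natCast, ← hxy, conj_zpow]
  constructor
  · rw [mem_normalizer_iff]
    intro g
    refine ⟨hconj g, fun hg => ?_⟩
    let f : zpowers y → zpowers y := fun r => ⟨x * r * x⁻¹, hconj r r.2⟩
    have hf : Function.Injective f := by
      intro a b hab
      have h1 : x * a * x⁻¹ = x * b * x⁻¹ := congrArg Subtype.val hab
      exact Subtype.ext (mul_left_cancel (mul_right_cancel h1))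
    obtain ⟨r, hr⟩ := (Finite.injective_iff_surjective.1 hf) ⟨_, hg⟩
    have h2 : x * r * x⁻¹ = x * g * x⁻¹ := congrArg Subtype.val hr
    have h3 : (r : G) = g := mul_left_cancel (mul_right_cancel h2)
    rw [← h3]
    exact r.2
  · intro g hg hxg
    by_contra hg1
    apply hne
    -- `g` generates `⟨y⟩`
    have h1 : orderOf g = r := by
      have h2 : orderOf g ∣ r := by
        obtain ⟨i, rfl⟩ := hg
        rw [← hy]
        exact orderOf_dvd_of_pow_eq_one (by
          show (y ^ i) ^ orderOf y = 1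
          rw [← zpow_natCast, ← zpow_mul, mul_comm, zpow_mul, zpow_natCast, pow_orderOf_eq_one,
            one_zpow])
      rcases (Nat.dvd_prime hr).1 h2 with h3 | h3
      · exact absurd (orderOf_eq_one_iff.1 h3) hg1
      · exact h3
    have h2 : zpowers g = zpowers y := by
      apply Subgroup.eq_of_le_of_card_ge
      · rwa [zpowers_le]
      · rw [Nat.card_zpowers, Nat.card_zpowers, h1, hy]
    have h3 : y ∈ zpowers g := by rw [h2]; exact mem_zpowers y
    obtain ⟨i, hi⟩ := h3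
    have h4 : Commute x g := by
      show x * g = g * x
      rw [← mul_inv_eq_iff_eq_mul]
      exact hxg
    have h5 : Commute x y := by
      have h6 := h4.zpow_right i
      have h7 : g ^ i = y := hi
      rwa [h7] at h6
    exact h5

/-- **Growth through a subgroup containing a good element.** -/
theorem growth_uGood [Finite G] {b c : ℕ} {K : Subgroup G} {x y : G} (hxK : x ∈ K)
    (hyK : y ∈ K) (hb : 1 ≤ b) (hK : UGood 1 b (⟨x, hxK⟩ : K)) (hy : UGood 1 c y) :
    UGood (b + c - 1) (b * c) x := by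
  classical
  intro H hH
  have h1 := bound_in_fs (X := G ⧸ H) (R := ⊥) hxK hK (by
    intro k _
    rw [mem_normalizer_iff]
    intro g
    rw [mem_bot, mem_bot]
    constructor
    · rintro rfl
      group
    · intro h
      rwa [mul_inv_eq_one, mul_eq_left] at h)
  have h2 := hy H hH
  have h3 : fs (⊥ : Subgroup G) (G ⧸ H) = Set.univ := by
    ext z
    simp only [mem_fs, bot_le, Set.mem_univ]
  rw [h3, Set.inter_univ, Set.univ_inter, Set.ncard_univ] at h1
  have e1 := Set.ncard_inter_add_ncard_sdiff_eq_ncard (fixedBy (G ⧸ H) x) (fs K (G ⧸ H))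
    (Set.toFinite _)
  have e2 : fixedBy (G ⧸ H) x ∩ fs K (G ⧸ H) = fs K (G ⧸ H) := by
    rw [Set.inter_eq_right]
    exact fun z hz => hz hxK
  have e3 : (fs K (G ⧸ H)).ncard ≤ (fixedBy (G ⧸ H) y).ncard :=
    Set.ncard_le_ncard (fun z hz => hz hyK) (Set.toFinite _)
  rw [e2] at e1
  rw [Nat.card_coe_set_eq] at h2 ⊢
  rw [← e1]
  obtain ⟨u, hu⟩ : ∃ u, u = (fs K (G ⧸ H)).ncard := ⟨_, rfl⟩
  obtain ⟨v, hv⟩ : ∃ v, v = (fixedBy (G ⧸ H) x \ fs K (G ⧸ H)).ncard := ⟨_, rfl⟩
  obtain ⟨w, hw⟩ : ∃ w, w = (fixedBy (G ⧸ H) y).ncard := ⟨_, rfl⟩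
  obtain ⟨n, hn⟩ : ∃ n, n = Nat.card (G ⧸ H) := ⟨_, rfl⟩
  rw [← hu, ← hv, ← hn] at h1
  rw [← hw, ← hn] at h2
  rw [← hu, ← hw] at e3
  rw [← hu, ← hv, ← hn]
  obtain ⟨s, rfl⟩ := Nat.exists_eq_add_of_le hb
  have e4 : 1 + s + c - 1 = s + c := by omega
  rw [e4]
  -- `(1 + s) v + u ≤ n`, `c u ≤ n`
  have k1 : c * ((1 + s) * v + u) ≤ c * n := Nat.mul_le_mul_left _ h1
  have k2 : s * (c * u) ≤ s * n := by
    apply Nat.mul_le_mul_left
    calc c * u ≤ c * w := Nat.mul_le_mul_left _ e3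
      _ ≤ 1 * n := h2
      _ = n := one_mul n
  nlinarith

end

end Cfsg.Agent.H398.FPR
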