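import Cfsg.Agent.H398.FPR.Free

/-!
# Two Heisenberg radicals

`Q₁`, `Q₂` are nonabelian with `Qᵢ' ≤ Zᵢ ≤ Z(Qᵢ)`, `x` acts freely on both and with the ratio `1 / M`
on the nontrivial orbits, `M ≤ |Zᵢ|`, and a subgroup containing `Q₁` and an element `≠ 1` of `Z₂` is
`G`. Then the ratio of `x` is at most `1 / M`.
-/

set_option autoImplicit false
open Subgroup MulAction
open scoped Pointwise

namespace Cfsg.Agent.H398.FPR

open Cfsg.Agent.H435.Fpr (PairM orbit_ratio_M)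

section

variable {G : Type*} [Group G]

/-- The index of `H ∩ Q` in the Heisenberg group `Q` is big if `H ∩ Z = 1`. -/
theorem heis_relIndex [Finite G] {M : ℕ} {Q Z H : Subgroup G} (hZ : Z ≤ Q)
    (hc : ∀ z ∈ Z, ∀ g ∈ Q, z * g = g * z)
    (hd : ∀ a ∈ Q, ∀ b ∈ Q, a * b * a⁻¹ * b⁻¹ ∈ Z)
    (hna : ¬ ∀ a ∈ Q, ∀ b ∈ Q, a * b = b * a) (hMZ : M ≤ Nat.card Z)
    (hH : ∀ z ∈ Z, z ∈ H → z = 1) : 2 * M ≤ H.relIndex Q := by
  classical
  have h1 := relIndex_mul_card H Q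
  have hcommA : ∀ a ∈ H ⊓ Q, ∀ b ∈ H ⊓ Q, a * b = b * a := by
    rintro a ⟨ha1, ha2⟩ b ⟨hb1, hb2⟩
    have h2 := hH _ (hd a ha2 b hb2)
      (mul_mem (mul_mem (mul_mem ha1 hb1) (inv_mem ha1)) (inv_mem hb1))
    rw [mul_inv_eq_one, mul_inv_eq_iff_eq_mul] at h2
    exact h2
  -- the subgroup `A Z`
  let B : Subgroup G :=
    { carrier := {g | ∃ a ∈ H ⊓ Q, ∃ z ∈ Z, g = a * z}
      one_mem' := ⟨1, one_mem _, 1, one_mem _, (one_mul 1).symm⟩
      mul_mem' := by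
        rintro _ _ ⟨a, ha, z, hz, rfl⟩ ⟨b, hb, w, hw, rfl⟩
        refine ⟨a * b, mul_mem ha hb, z * w, mul_mem hz hw, ?_⟩
        have h2 := hc z hz b hb.2
        calc a * z * (b * w) = a * (z * b) * w := by group
          _ = a * (b * z) * w := by rw [h2]
          _ = a * b * (z * w) := by group
      inv_mem' := by
        rintro _ ⟨a, ha, z, hz, rfl⟩
        refine ⟨a⁻¹, inv_mem ha, z⁻¹, inv_mem hz, ?_⟩
        rw [mul_inv_rev]
        exact hc _ (inv_mem hz) _ (inv_mem ha).2 }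
  have hBQ : B ≤ Q := by
    rintro _ ⟨a, ha, z, hz, rfl⟩
    exact mul_mem ha.2 (hZ hz)
  have hBc : Nat.card B = Nat.card (H ⊓ Q : Subgroup G) * Nat.card Z := by
    rw [← Nat.card_prod]
    apply Nat.card_congr
    symm
    refine Equiv.ofBijective (fun a => (⟨a.1 * a.2, a.1, a.1.2, a.2, a.2.2, rfl⟩ : B)) ⟨?_, ?_⟩
    · rintro ⟨a, z⟩ ⟨b, w⟩ hab
      have h2 : (a : G) * z = b * w := congrArg Subtype.val hab
      have h3 : (b : G)⁻¹ * a = w * (z : G)⁻¹ := by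
        rw [inv_mul_eq_iff_eq_mul, ← mul_assoc, ← h2, mul_inv_cancel_right]
      have h4 : (w : G) * (z : G)⁻¹ = 1 := by
        apply hH _ (mul_mem w.2 (inv_mem z.2))
        rw [← h3]
        exact mul_mem (inv_mem b.2.1) a.2.1
      have h5 : (w : G) = z := mul_inv_eq_one.1 h4
      rw [h4, inv_mul_eq_one] at h3
      rw [Prod.mk.injEq]
      exact ⟨Subtype.ext h3.symm, Subtype.ext h5.symm⟩
    · rintro ⟨_, a, ha, z, hz, rfl⟩
      exact ⟨(⟨a, ha⟩, ⟨z, hz⟩), rfl⟩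
  have hdvd : Nat.card Z ∣ H.relIndex Q := by
    have h2 : Nat.card B ∣ Nat.card Q := card_dvd_of_le hBQ
    rw [hBc, ← h1, mul_comm] at h2
    exact Nat.dvd_of_mul_dvd_mul_right Nat.card_pos h2
  obtain ⟨c, hc'⟩ := hdvd
  by_contra hlt
  push Not at hlt
  have hpos : 0 < H.relIndex Q := by
    rcases Nat.eq_zero_or_pos (H.relIndex Q) with h0 | h0
    · rw [h0, zero_mul] at h1
      exact absurd h1.symm Nat.card_pos.ne'
    · exact h0
  have hc1 : c = 1 := by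
    rcases Nat.lt_or_ge c 2 with h2 | h2
    · have : c ≠ 0 := by
        rintro rfl
        rw [mul_zero] at hc'
        omega
      omega
    · exfalso
      have h3 : Nat.card Z * 2 ≤ Nat.card Z * c := Nat.mul_le_mul_left _ h2
      omega
  rw [hc1, mul_one] at hc'
  have hBQ' : B = Q := by
    apply Subgroup.eq_of_le_of_card_ge hBQ
    rw [hBc, ← h1, hc', mul_comm]
  apply hna
  intro a ha b hb
  rw [← hBQ'] at ha hb
  obtain ⟨a', ha', z, hz, rfl⟩ := ha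
  obtain ⟨b', hb', w, hw, rfl⟩ := hb
  have e1 := hc z hz b' hb'.2
  have e2 := hc w hw a' ha'.2
  have e3 := hc z hz w (hZ hw)
  have e4 := hcommA a' ha' b' hb'
  calc a' * z * (b' * w) = a' * (z * b') * w := by group
    _ = a' * b' * (z * w) := by rw [e1]; group
    _ = b' * a' * (w * z) := by rw [e3, e4]
    _ = b' * (w * a') * z := by rw [e2]; group
    _ = b' * w * (a' * z) := by group

/-- **Two Heisenberg radicals.** -/
theorem heis_uGood [Finite G] {M : ℕ} {x : G} {Q1 Q2 Z1 Z2 : Subgroup G}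
    (f1 : FreeOn x Q1) (f2 : FreeOn x Q2) (h1 : PairM M x Q1) (h2 : PairM M x Q2)
    (hZ1 : Z1 ≤ Q1) (hZ2 : Z2 ≤ Q2)
    (hc1 : ∀ z ∈ Z1, ∀ g ∈ Q1, z * g = g * z) (hc2 : ∀ z ∈ Z2, ∀ g ∈ Q2, z * g = g * z)
    (hd1 : ∀ a ∈ Q1, ∀ b ∈ Q1, a * b * a⁻¹ * b⁻¹ ∈ Z1)
    (hd2 : ∀ a ∈ Q2, ∀ b ∈ Q2, a * b * a⁻¹ * b⁻¹ ∈ Z2)
    (hna1 : ¬ ∀ a ∈ Q1, ∀ b ∈ Q1, a * b = b * a) (hna2 : ¬ ∀ a ∈ Q2, ∀ b ∈ Q2, a * b = b * a)
    (hM1 : M ≤ Nat.card Z1) (hM2 : M ≤ Nat.card Z2)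
    (hg1 : ∀ H : Subgroup G, Q1 ≤ H → ∀ z ∈ Z2, z ≠ 1 → z ∈ H → H = ⊤)
    (hg2 : ∀ H : Subgroup G, Q2 ≤ H → ∀ z ∈ Z1, z ≠ 1 → z ∈ H → H = ⊤) : UGood 1 M x := by
  apply two_free_uGood f1 f2
  intro H hH hxH
  by_cases a1 : Q1 ≤ H
  · have := heis_relIndex hZ2 hc2 hd2 hna2 hM2 (H := H) (fun z hz hzH => by
      by_contra hz1
      exact hH (hg1 H a1 z hz hz1 hzH))
    omega
  · by_cases a2 : Q2 ≤ H
    · have := heis_relIndex hZ1 hc1 hd1 hna1 hM1 (H := H) (fun z hz hzH => by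
        by_contra hz1
        exact hH (hg2 H a2 z hz hz1 hzH))
      omega
    · have b1 := le_relIndex_of_pairM h1 hxH a1
      have b2 := le_relIndex_of_pairM h2 hxH a2
      omega

end

end Cfsg.Agent.H398.FPR
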