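import Cfsg.Agent.H398.FPR.CTwo
import Cfsg.Agent.H110.Fpr.SharpSp

/-!
# Mersenne primes: the relation `x + 1 = x ^ s`, totally singular minimal subspaces, frames
-/

set_option autoImplicit false
open Subgroup MulAction

namespace Cfsg.Agent.H398.FPR

open Cfsg.Agent.TitsThree.Siegel Cfsg.Agent.TitsThree.SiegelGen Cfsg.Agent.H110.Fpr
open Polynomial

section

variable {F : Type*} [Field F] {V : Type*} [AddCommGroup V] [Module F V]

/-- **The relation.** -/
theorem mers_rel [Finite F] [Finite V] (h2 : (2 : F) = 0) {p k : ℕ} (hp : p.Prime)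
    (hpk : p + 1 = 2 ^ k) {x : V ≃ₗ[F] V} (hx : x ^ p = 1) {T : Submodule F V}
    (hT : IsMin x T) (hmov : ∃ v ∈ T, x v ≠ v) : ∃ s : ℕ, ∀ v ∈ T, x v + v = (x ^ s) v := by
  have hch := charP_two h2
  have : Fact (Nat.Prime 2) := ⟨Nat.prime_two⟩
  have hpf : Fact p.Prime := ⟨hp⟩
  obtain ⟨hfin, hcard⟩ := hT.card_quot
  have hprime := hT.ann_isPrime
  have hdom : IsDomain (F[X] ⧸ ann x T) := Ideal.Quotient.isDomain _
  let π : F[X] →+* (F[X] ⧸ ann x T) := Ideal.Quotient.mk (ann x T)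
  have hπ : ∀ g, π g = 0 ↔ g ∈ ann x T := fun g => Ideal.Quotient.eq_zero_iff_mem
  have hCinj : Function.Injective (π.comp C) := (π.comp C).injective
  have hchR : CharP (F[X] ⧸ ann x T) 2 := charP_of_injective_ringHom hCinj 2
  have hαp : π X ^ p = 1 := by
    rw [← map_pow, ← map_one π, ← sub_eq_zero, ← map_sub, hπ]
    intro v _
    rw [op_sub, op_X_pow, op_one, hx]
    exact sub_self v
  have hα1 : π X ≠ 1 := by
    rw [← map_one π, Ne, ← sub_eq_zero, ← map_sub, hπ]
    intro h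
    obtain ⟨v, hv, hv1⟩ := hmov
    apply hv1
    have := h v hv
    rw [op_sub, op_X, op_one, sub_eq_zero] at this
    exact this
  have h1 : (π X + 1) ^ p = 1 := by
    have h3 : (π X + 1) ^ 2 ^ k = π X + 1 := by
      rw [add_pow_char_pow, one_pow, ← hpk, pow_succ, hαp, one_mul]
    rw [← hpk, pow_succ] at h3
    have h4 : π X + 1 ≠ 0 := by
      intro h5
      apply hα1
      have h6 : π X = -1 := eq_neg_of_add_eq_zero_left h5
      rw [h6]
      exact CharTwo.neg_eq 1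
    exact mul_right_cancel₀ h4 (by rw [h3, one_mul])
  have hprim : IsPrimitiveRoot (π X) p := by
    rw [IsPrimitiveRoot.iff_orderOf]
    exact orderOf_eq_prime hαp hα1
  have : NeZero p := ⟨hp.ne_zero⟩
  obtain ⟨s, -, hs⟩ := hprim.eq_pow_of_pow_eq_one h1
  refine ⟨s, fun v hv => ?_⟩
  have h5 : X ^ s - (X + 1) ∈ ann x T := by
    rw [← hπ, map_sub, map_add, map_pow, hs, map_one, sub_self]
  have h6 := h5 v hv
  rw [op_sub, op_X_pow, op_add, op_X, op_one, sub_eq_zero] at h6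
  exact h6.symm

theorem orderOf_two {p k : ℕ} (hp : p.Prime) (hk : k.Prime) (hpk : p + 1 = 2 ^ k) :
    orderOf (2 : ZMod p) = k := by
  have hpf : Fact p.Prime := ⟨hp⟩
  apply orderOf_eq_prime_iff (hp := ⟨hk⟩) |>.2
  constructor
  · have h1 : ((p + 1 : ℕ) : ZMod p) = ((2 ^ k : ℕ) : ZMod p) := by rw [hpk]
    push_cast at h1
    rw [← h1, CharP.cast_eq_zero, zero_add]
  · intro h
    have h1 : (1 : ZMod p) = 0 := by linear_combination h
    exact one_ne_zero h1

theorem orderOf_card {F : Type*} [Field F] [Finite F] (h2 : (2 : F) = 0) {p k : ℕ}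
    (hp : p.Prime) (hk : k.Prime) (hpk : p + 1 = 2 ^ k) (hq : ¬ p ∣ Nat.card F - 1) :
    orderOf ((Nat.card F : ℕ) : ZMod p) = k := by
  classical
  have hpf : Fact p.Prime := ⟨hp⟩
  have := Fintype.ofFinite F
  have hch := charP_two h2
  obtain ⟨a, -, ha⟩ := FiniteField.card F 2
  have h1 : ((Nat.card F : ℕ) : ZMod p) = 2 ^ (a : ℕ) := by
    rw [Nat.card_eq_fintype_card, ha]
    push_cast
    rfl
  have h3 : orderOf ((Nat.card F : ℕ) : ZMod p) ∣ k := by
    rw [← orderOf_two hp hk hpk, h1]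
    exact orderOf_pow_dvd _
  rcases (Nat.dvd_prime hk).1 h3 with h4 | h4
  · exfalso
    apply hq
    rw [orderOf_eq_one_iff] at h4
    have h5 := (dvd_pow_sub_one_iff (p := p) (q := Nat.card F) (k := 1) Nat.card_pos).2
      (by rw [pow_one]; exact h4)
    rwa [pow_one] at h5
  · exact h4

end

variable {F : Type*} [Field F] {V : Type*} [AddCommGroup V] [Module F V]
variable {H : HForm F V} {P : PQ H}

theorem charF_ne {p : ℕ} (h2 : (2 : F) = 0) (hodd : Odd p) : (p : F) ≠ 0 := by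
  obtain ⟨k, hk⟩ := hodd
  rw [hk]
  push_cast
  rw [h2, zero_mul, zero_add]
  exact one_ne_zero

/-- **Totally singular subspaces of dimension `k`.** -/
theorem exists_ts [Finite F] [Finite V] (h2 : (2 : F) = 0) {p k : ℕ} (hp : p.Prime)
    (hk : k.Prime) (hk3 : 3 ≤ k) (hpk : p + 1 = 2 ^ k) (hq : ¬ p ∣ Nat.card F - 1)
    (hd : p ∣ Nat.card (SG P)) :
    ∃ (T : Submodule F V) (x : V ≃ₗ[F] V), x ∈ SG P ∧ x ^ p = 1 ∧ IsMin x T ∧
      (∃ v ∈ T, x v ≠ v) ∧ (∀ u ∈ T, P.ok u 0) ∧ (∀ u ∈ T, ∀ v ∈ T, H.h u v = 0) ∧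
      Module.finrank F T = k := by
  have hch := charP_two h2
  have : Fact (Nat.Prime 2) := ⟨Nat.prime_two⟩
  have hfin : Finite (V ≃ₗ[F] V) := instFin
  have hk2 : 2 ∣ 2 ^ k := dvd_pow_self 2 hk.ne_zero
  have hodd : Odd p := by
    rw [← hpk] at hk2
    rw [Nat.odd_iff]
    omega
  have hpF := charF_ne h2 hodd
  obtain ⟨x, hxS, hxp, hx1⟩ := exists_order_p hp hd
  obtain ⟨hxi, hxok, -⟩ := SG_iso hxS
  have hU : Inv x (movS p x) := movS_inv rfl
  have hU0 : movS p x ≠ ⊥ := by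
    intro h
    apply hx1
    have h1 := fixS_sup_movS hxp hpF
    rw [h, bot_sup_eq] at h1
    ext v
    have hv : v ∈ fixS x := by rw [h1]; trivial
    exact hv
  obtain ⟨T, hTU, hT⟩ := exists_isMin hU hU0
  have hfpf : ∀ v ∈ T, x v = v → v = 0 := fun v hv h => eq_zero_of_mem hpF (hTU hv) h
  obtain ⟨v, hv, hv0⟩ := (Submodule.ne_bot_iff T).1 hT.ne
  have hmov : ∃ v ∈ T, x v ≠ v := ⟨v, hv, fun h => hv0 (hfpf v hv h)⟩
  have hTT : ∀ u ∈ T, ∀ v ∈ T, H.h u v = 0 := by
    by_contra hcon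
    push Not at hcon
    obtain ⟨u, hu, w, hw, huw⟩ := hcon
    obtain ⟨n, hn, -⟩ := hT.exists_conj (r := 2) hp hxi hxp ⟨u, hu, w, hw, huw⟩ hmov
    rw [dvd_pow_add_one_iff] at hn
    obtain ⟨s, hs, -⟩ := even_orderOf hp (by
      rintro rfl
      revert hodd
      decide) hn
    have h3 : orderOf (2 : ZMod p) = k := orderOf_two hp hk hpk
    have h4 : ((2 : ℕ) : ZMod p) = 2 := by push_cast; rfl
    rw [h4, h3] at hs
    have h5 : 2 ∣ k := ⟨s, hs⟩
    have h6 := (Nat.prime_dvd_prime_iff_eq Nat.prime_two hk).1 h5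
    omega
  refine ⟨T, x, hxS, hxp, hT, hmov, ?_, hTT, ?_⟩
  · exact sing_of_moved hxok hT.inv hTT (surj_of_fpf hT.inv hfpf)
  · rw [hT.finrank_eq hp hxp hmov hpF, orderOf_card h2 hp hk hpk hq]

/-- **Frames from totally singular subspaces.** -/
theorem exists_frame [Finite V] (hε : H.ε = 1) (n : ℕ) : ∀ W : Submodule F V,
    (∀ v ∈ W, v ≠ 0 → ∃ w ∈ W, H.h v w ≠ 0) → ∀ T ≤ W, (∀ u ∈ T, P.ok u 0) →
    (∀ u ∈ T, ∀ v ∈ T, H.h u v = 0) → n ≤ Module.finrank F T →
    ∃ e f : Fin n → V, (∀ i, e i ∈ W) ∧ (∀ i, f i ∈ W) ∧ HFr P e f := by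
  have hfin : Module.Finite F V := Module.Finite.of_finite
  induction n with
  | zero =>
    intro W _ T _ _ _ _
    exact ⟨fun i => i.elim0, fun i => i.elim0, fun i => i.elim0, fun i => i.elim0,
      ⟨fun i => i.elim0, fun i => i.elim0, fun i => i.elim0, fun i => i.elim0,
        fun i => i.elim0⟩⟩
  | succ n ih =>
    intro W hnd T hTW hTs hTT hn
    obtain ⟨e0, he0T, he00⟩ : ∃ e ∈ T, e ≠ 0 := by
      apply (Submodule.ne_bot_iff T).1
      rintro rfl
      rw [finrank_bot] at hn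
      omega
    have he0s := hTs e0 he0T
    obtain ⟨f0, hf0W, hf0s, hef⟩ := exists_hyp hnd (hTW he0T) he0s he00
    obtain ⟨hnd', hd'⟩ := split_hyp hnd (hTW he0T) hf0W he0s hf0s hef
    have hfe : H.h f0 e0 = 1 := by rw [H.swap e0 f0, hef, map_one, mul_one, hε]
    -- `T ∩ f0^⊥`
    obtain ⟨T1, hT1⟩ : ∃ T1, T1 = T ⊓ perp H {f0} := ⟨_, rfl⟩
    have hT1W : T1 ≤ W ⊓ perp H {e0, f0} := by
      intro v hv
      rw [hT1] at hv
      refine ⟨hTW hv.1, ?_⟩
      rintro u (rfl | rfl)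
      · exact hTT v hv.1 u he0T
      · exact hv.2 u rfl
    have hdim : n ≤ Module.finrank F T1 := by
      have h1 : T ≤ T1 ⊔ Submodule.span F {e0} := by
        intro v hv
        have h3 : v = (v - H.h v f0 • e0) + H.h v f0 • e0 := by abel
        rw [h3]
        refine Submodule.add_mem_sup ?_ (Submodule.smul_mem _ _
          (Submodule.mem_span_singleton_self _))
        rw [hT1]
        refine ⟨T.sub_mem hv (T.smul_mem _ he0T), ?_⟩
        rintro u rfl
        rw [H.sub_left, H.smul_left, hef, mul_one, sub_self]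
      have h4 := Submodule.finrank_mono h1
      have h5 := Submodule.finrank_add_le_finrank_add_finrank T1 (Submodule.span F {e0})
      have h6 : Module.finrank F (Submodule.span F ({e0} : Set V)) ≤ 1 :=
        Cfsg.Agent.H221.PP.finrank_span_singleton_le' e0
      omega
    obtain ⟨e, f, he, hf, hfr⟩ := ih _ hnd' T1 hT1W (fun u hu => hTs u (by rw [hT1] at hu; exact hu.1))
      (fun u hu v hv => hTT u (by rw [hT1] at hu; exact hu.1) v (by rw [hT1] at hv; exact hv.1)) hdim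
    have pe : ∀ i, H.h (e i) e0 = 0 ∧ H.h (e i) f0 = 0 := fun i =>
      ⟨(he i).2 e0 (by simp), (he i).2 f0 (by simp)⟩
    have pf : ∀ i, H.h (f i) e0 = 0 ∧ H.h (f i) f0 = 0 := fun i =>
      ⟨(hf i).2 e0 (by simp), (hf i).2 f0 (by simp)⟩
    refine ⟨Fin.cons e0 e, Fin.cons f0 f, ?_, ?_, ⟨?_, ?_, ?_, ?_, ?_⟩⟩
    · intro i
      refine Fin.cases ?_ (fun i => ?_) i
      · exact hTW he0T
      · exact (he i).1
    · intro i
      refine Fin.cases ?_ (fun i => ?_) i
      · exact hf0W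
      · exact (hf i).1
    · intro i
      refine Fin.cases ?_ (fun i => ?_) i
      · exact he0s
      · exact hfr.es i
    · intro i
      refine Fin.cases ?_ (fun i => ?_) i
      · exact hf0s
      · exact hfr.fs i
    · intro i j
      refine Fin.cases ?_ (fun i => ?_) i <;> refine Fin.cases ?_ (fun j => ?_) j
      · exact P.iso he0s
      · exact H.orth_symm (pe j).1
      · exact (pe i).1
      · exact hfr.ee i j
    · intro i j
      refine Fin.cases ?_ (fun i => ?_) i <;> refine Fin.cases ?_ (fun j => ?_) j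
      · exact P.iso hf0s
      · exact H.orth_symm (pf j).2
      · exact (pf i).2
      · exact hfr.ff i j
    · intro i j
      refine Fin.cases ?_ (fun i => ?_) i <;> refine Fin.cases ?_ (fun j => ?_) j
      · rw [if_pos rfl]; exact hef
      · rw [if_neg (Fin.succ_ne_zero j).symm]; exact H.orth_symm (pf j).1
      · rw [if_neg (Fin.succ_ne_zero i)]; exact (pe i).2
      · have h7 := hfr.ef i j
        simp only [Fin.cons_succ, Fin.succ_inj]
        exact h7

end Cfsg.Agent.H398.FPR
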