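import Cfsg.Agent.H401.Final
import Cfsg.Agent.H409.FprBasic

/-!
# S4183 from S3578: the number of Sylow subgroups of a subgroup containing a Sylow subgroup
-/

set_option autoImplicit false
open Subgroup MulAction
open scoped Pointwise

namespace Cfsg.Agent.H398.FPR

open Cfsg.Agent.H401
open Cfsg.Agent.H409

variable {p : ℕ} [Fact p.Prime]

theorem sylow_number_of_fs {G : Type*} [Group G] [Finite G] {a b : ℕ} {H : Subgroup G}
    {P : Sylow p G} (hP : (P : Subgroup G) ≤ H)
    (hF : a * (fs (P : Subgroup G) (G ⧸ H)).ncard ≤ b * Nat.card (G ⧸ H)) :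
    a * Nat.card (Sylow p ↥H) ≤ b * Nat.card (Sylow p G) := by
  classical
  have hcount := double_count (Set.univ : Set (Sylow p G)) (Set.univ : Set (G ⧸ H))
    (fun Q x => (Q : Subgroup G) ≤ stabilizer G x)
    (m := (fs (P : Subgroup G) (G ⧸ H)).ncard) (n := Nat.card (Sylow p ↥H))
    (by
      intro Q _
      obtain ⟨g, rfl⟩ := MulAction.exists_smul_eq G P Q
      rw [Sylow.coe_subgroup_smul]
      simp only [Set.mem_univ, true_and]
      exact ncard_fs_smul' (X := G ⧸ H) (P : Subgroup G) g)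
    (by
      intro x _
      obtain ⟨g, rfl⟩ := QuotientGroup.mk_surjective x
      simp only [Set.mem_univ, true_and]
      rw [← card_sylow_le hP]
      have hst : stabilizer G (g : G ⧸ H) = MulAut.conj g • H := coe_stabilizer H g
      have : {Q : Sylow p G | (Q : Subgroup G) ≤ stabilizer G (g : G ⧸ H)} =
          (fun Q : Sylow p G => g • Q) '' {Q : Sylow p G | (Q : Subgroup G) ≤ H} := by
        ext Q
        simp only [Set.mem_ofPred_eq, Set.mem_image]
        constructor
        · intro hQ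
          refine ⟨g⁻¹ • Q, ?_, smul_inv_smul _ _⟩
          rw [Sylow.coe_subgroup_smul, map_inv, ← Subgroup.subset_pointwise_smul_iff, ← hst]
          exact hQ
        · rintro ⟨R, hR, rfl⟩
          rw [hst, Sylow.coe_subgroup_smul, Subgroup.pointwise_smul_le_pointwise_smul_iff]
          exact hR
      rw [this, Set.ncard_image_of_injective _ (MulAction.injective g)])
  rw [Set.ncard_univ, Set.ncard_univ] at hcount
  have hn : 0 < Nat.card (G ⧸ H) := Nat.card_pos
  apply Nat.le_of_mul_le_mul_left _ hn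
  calc Nat.card (G ⧸ H) * (a * Nat.card (Sylow p ↥H))
      = a * (Nat.card (G ⧸ H) * Nat.card (Sylow p ↥H)) := by ring
    _ = a * (Nat.card (Sylow p G) * (fs (P : Subgroup G) (G ⧸ H)).ncard) := by
      rw [hcount]
    _ = Nat.card (Sylow p G) * (a * (fs (P : Subgroup G) (G ⧸ H)).ncard) := by ring
    _ ≤ Nat.card (Sylow p G) * (b * Nat.card (G ⧸ H)) := Nat.mul_le_mul_left _ hF
    _ = Nat.card (G ⧸ H) * (b * Nat.card (Sylow p G)) := by ring

/-- **A row bounds the number of Sylow subgroups.** -/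
theorem sylow_number_of_row {G : Type*} [Group G] [Finite G] {a b : ℕ} (h : FprRow a b p G)
    {H : Subgroup G} (hH : H ≠ ⊤) {P : Sylow p G} (hP : (P : Subgroup G) ≤ H) :
    a * Nat.card (Sylow p ↥H) ≤ b * Nat.card (Sylow p G) := by
  refine sylow_number_of_fs hP ?_
  obtain ⟨x, ⟨k, hx⟩, hle⟩ := h H hH
  refine le_trans (Nat.mul_le_mul_left a ?_) hle
  -- `x` lies in a conjugate of `P`
  have hxp : IsPGroup p (zpowers x) := by
    rw [IsPGroup.iff_card]
    exact ⟨k, by rw [Nat.card_zpowers, hx]⟩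
  obtain ⟨Q, hQ⟩ := hxp.exists_le_sylow
  obtain ⟨g, hg⟩ := MulAction.exists_smul_eq G P Q
  have h1 : (fs (P : Subgroup G) (G ⧸ H)).ncard = (fs (Q : Subgroup G) (G ⧸ H)).ncard := by
    rw [← hg, Sylow.coe_subgroup_smul]
    exact (ncard_fs_smul' (X := G ⧸ H) (P : Subgroup G) g).symm
  rw [h1, Nat.card_coe_set_eq]
  apply Set.ncard_le_ncard _ (Set.toFinite _)
  intro w hw
  exact hw (hQ (mem_zpowers x))

end Cfsg.Agent.H398.FPR
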