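import Cfsg.Agent.H435.Fpr.Sharp
import Cfsg.Agent.H398.FPR.Growth

/-!
# The exact ratio `1 / (p + 1)` from two radicals and a Levi component

`x ∈ K`, `K` normalises the nilpotent groups `R₁`, `R₂`, all nontrivial `R i`-orbits have ratio
`≤ 1 / M`, `x` has ratio `≤ 1 / M` on all nontrivial transitive `K`-sets, and on the
`R₂`-orbits of the common fixed points of `K` and `R₁` the ratio is `≤ 1 / (2 M - 1)` (and
conversely). Then the ratio of `x` is `≤ 1 / M`.
-/

set_option autoImplicit false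
open Subgroup MulAction
open scoped Pointwise

namespace Cfsg.Agent.H398.FPR

open Cfsg.Agent.H435.Fpr (PairM orbit_ratio_M)

section

variable {G X : Type*} [Group G] [MulAction G X]

theorem fs_smul_mem {R : Subgroup G} {m : G} (hm : m ∈ normalizer (R : Set G)) {y : X}
    (hy : y ∈ fs R X) : m • y ∈ fs R X := by
  intro r hr
  have h1 : m⁻¹ * r * m ∈ stabilizer G y := by
    apply hy
    have := (mem_normalizer_iff.1 (inv_mem hm) r).1 hr
    rwa [inv_inv] at this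
  rw [mem_stabilizer_iff] at h1 ⊢
  have h2 : r • m • y = m • ((m⁻¹ * r * m) • y) := by
    simp only [smul_smul]
    congr 1
    group
  rw [h2, h1]

theorem fs_smul_mem_iff {R : Subgroup G} {m : G} (hm : m ∈ normalizer (R : Set G)) {y : X} :
    m • y ∈ fs R X ↔ y ∈ fs R X := by
  constructor
  · intro h
    have := fs_smul_mem (inv_mem hm) h
    rwa [inv_smul_smul] at this
  · exact fs_smul_mem hm

/-- Summing the uniform bound for `x ∈ K` over the `K`-orbits in `fs R X` which are not points. -/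
theorem bound_in_fs [Finite X] {M : ℕ} {x : G} {K R : Subgroup G} (hxK : x ∈ K)
    (hK : UGood 1 M (⟨x, hxK⟩ : K)) (hn : K ≤ normalizer (R : Set G)) :
    M * ((fixedBy X x ∩ fs R X) \ fs K X).ncard + (fs R X ∩ fs K X).ncard ≤
      (fs R X).ncard := by
  classical
  let Y : Set X := fs R X \ fs K X
  have hYK : ∀ (m : K) (y : X), y ∈ Y → m • y ∈ Y := by
    rintro m y ⟨hy1, hy2⟩
    refine ⟨fs_smul_mem (hn m.2) hy1, ?_⟩
    intro h
    apply hy2
    exact (fs_smul_mem_iff (le_normalizer m.2)).1 h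
  let instY : MulAction K Y :=
    { smul := fun m y => ⟨m • (y : X), hYK m y y.2⟩
      one_smul := fun y => Subtype.ext (one_smul K (y : X))
      mul_smul := fun m n y => Subtype.ext (mul_smul m n (y : X)) }
  have h1 := hK.sum (X := Y) (by
    intro z hz
    apply z.2.2
    intro k hk
    have h2 : (⟨k, hk⟩ : K) ∈ stabilizer K z := by rw [hz]; trivial
    have h3 : (⟨k, hk⟩ : K) • z = z := h2
    exact congrArg Subtype.val h3)
  have h2 : Nat.card (fixedBy Y (⟨x, hxK⟩ : K)) = ((fixedBy X x ∩ fs R X) \ fs K X).ncard := by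
    rw [← Nat.card_coe_set_eq]
    apply Nat.card_congr
    refine ⟨fun z => ⟨z.1.1, ⟨⟨congrArg Subtype.val z.2, z.1.2.1⟩, z.1.2.2⟩⟩,
      fun z => ⟨⟨z.1, ⟨z.2.1.2, z.2.2⟩⟩, Subtype.ext z.2.1.1⟩, fun _ => rfl, fun _ => rfl⟩
  have h3 : Nat.card Y = (fs R X \ fs K X).ncard := Nat.card_coe_set_eq _
  have h4 : (fs R X ∩ fs K X).ncard + (fs R X \ fs K X).ncard = (fs R X).ncard :=
    Set.ncard_inter_add_ncard_sdiff_eq_ncard _ _ (Set.toFinite _)
  rw [h2, h3, one_mul] at h1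
  omega

/-- Bound outside the fixed points of `R2`, with a better ratio on the orbits of `F`. -/
theorem bound_outside [Finite G] [Finite X] {M : ℕ} (hM : 2 ≤ M) {x : G} {R2 : Subgroup G}
    (h2 : PairM M x R2) {F : Set X} (hFx : F ⊆ fixedBy X x)
    (hb : ∀ ω ∈ F, (2 * M - 1) * (fixedBy X x ∩ orbit R2 ω).ncard ≤ (orbit R2 ω).ncard) :
    M * (fixedBy X x \ fs R2 X).ncard + (M - 1) * F.ncard + (fs R2 X).ncard ≤ Nat.card X := by
  classical
  have hsm : ∀ (m : R2) (y : X), (m • y) ∈ fs R2 X → y ∈ fs R2 X := by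
    intro m y hmy
    exact (fs_smul_mem_iff (le_normalizer m.2)).1 hmy
  -- the part of the complement covered by the orbits of `F`
  let Z : Set X := {y | ∃ ω ∈ F, y ∈ orbit R2 ω}
  have hFZ : F ⊆ Z := fun ω hω => ⟨ω, hω, mem_orbit_self ω⟩
  have hZ : ∀ (m : R2) (y : X), y ∈ Z → m • y ∈ Z := by
    rintro m y ⟨ω, hω, hy⟩
    exact ⟨ω, hω, by
      rw [← orbit_eq_iff] at hy ⊢
      rw [orbit_smul]
      exact hy⟩
  have hFR : ∀ ω ∈ F, ω ∉ fs R2 X := by
    intro ω hω hωR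
    have h3 := hb ω hω
    have h4 : orbit R2 ω = {ω} := by
      ext z
      constructor
      · rintro ⟨m, rfl⟩
        exact hωR m.2
      · rintro rfl
        exact mem_orbit_self _
    rw [h4] at h3
    have h5 : fixedBy X x ∩ {ω} = {ω} := by
      ext z
      constructor
      · exact fun h => h.2
      · rintro rfl
        exact ⟨hFx hω, rfl⟩
    rw [h5, Set.ncard_singleton] at h3
    omega
  have hZR : Z ⊆ (fs R2 X)ᶜ := by
    rintro y ⟨ω, hω, ⟨m, rfl⟩⟩ hy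
    exact hFR ω hω (hsm m ω hy)
  have h3 : (2 * M - 1) * (fixedBy X x ∩ Z).ncard ≤ 1 * Z.ncard := by
    apply sum_orbits (M := R2)
    · exact fun m y hy => hZ m y hy
    · rintro y ⟨ω, hω, hy⟩
      rw [one_mul]
      have h4 : orbit R2 y = orbit R2 ω := orbit_eq_iff.2 hy
      rw [h4]
      exact hb ω hω
  have h4 : M * (fixedBy X x ∩ ((fs R2 X)ᶜ \ Z)).ncard ≤ 1 * ((fs R2 X)ᶜ \ Z).ncard := by
    apply sum_orbits (M := R2)
    · rintro m y ⟨hy1, hy2⟩
      refine ⟨fun hmy => hy1 (hsm m y hmy), ?_⟩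
      rintro ⟨ω, hω, hy⟩
      refine hy2 ⟨ω, hω, ?_⟩
      rw [← orbit_eq_iff] at hy ⊢
      rwa [orbit_smul] at hy
    · intro y hy
      rw [one_mul]
      rcases (fixedBy X x ∩ orbit R2 y).eq_empty_or_nonempty with h0 | ⟨ω, hω1, hω2⟩
      · rw [h0, Set.ncard_empty, mul_zero]
        exact Nat.zero_le _
      · have h4 : orbit R2 y = orbit R2 ω := (orbit_eq_iff.2 hω2).symm
        rw [h4]
        apply orbit_ratio_M h2 hω1
        intro hω
        obtain ⟨m, rfl⟩ := hω2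
        exact hy.1 (hsm m y hω)
  rw [one_mul] at h3 h4
  -- counting
  have c1 := Set.ncard_add_ncard_compl (fs R2 X)
  have c2 : Z.ncard + ((fs R2 X)ᶜ \ Z).ncard = ((fs R2 X)ᶜ).ncard := by
    have := Set.ncard_inter_add_ncard_sdiff_eq_ncard ((fs R2 X)ᶜ) Z (Set.toFinite _)
    rwa [Set.inter_eq_right.2 hZR] at this
  have c3 : (fixedBy X x ∩ Z).ncard + (fixedBy X x ∩ ((fs R2 X)ᶜ \ Z)).ncard =
      (fixedBy X x \ fs R2 X).ncard := by
    have := Set.ncard_inter_add_ncard_sdiff_eq_ncard (fixedBy X x \ fs R2 X) Z (Set.toFinite _)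
    rw [← this]
    congr 2
    · ext z
      constructor
      · rintro ⟨h1, h2⟩
        exact ⟨⟨h1, hZR h2⟩, h2⟩
      · rintro ⟨⟨h1, -⟩, h2⟩
        exact ⟨h1, h2⟩
    · ext z
      constructor
      · rintro ⟨h1, h2, h3⟩
        exact ⟨⟨h1, h2⟩, h3⟩
      · rintro ⟨⟨h1, h2⟩, h3⟩
        exact ⟨h1, h2, h3⟩
  have c4 : F.ncard ≤ (fixedBy X x ∩ Z).ncard :=
    Set.ncard_le_ncard (fun ω hω => ⟨hFx hω, hFZ hω⟩) (Set.toFinite _)
  obtain ⟨u, hu⟩ : ∃ u, u = (fixedBy X x ∩ Z).ncard := ⟨_, rfl⟩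
  obtain ⟨v, hv⟩ : ∃ v, v = (fixedBy X x ∩ ((fs R2 X)ᶜ \ Z)).ncard := ⟨_, rfl⟩
  rw [← hu, ← hv] at c3
  rw [← hu] at h3 c4
  rw [← hv] at h4
  rw [← c3]
  obtain ⟨N, rfl⟩ := Nat.exists_eq_add_of_le hM
  have e1 : 2 * (2 + N) - 1 = (2 + N) + (2 + N - 1) := by omega
  rw [e1, add_mul] at h3
  have e2 := Nat.mul_le_mul_left (2 + N - 1) c4
  rw [mul_add]
  omega

/-- **Main counting lemma.** -/
theorem t4_set [Finite G] [Finite X] {M : ℕ} (hM : 2 ≤ M) {x : G} {K R1 R2 : Subgroup G}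
    (hxK : x ∈ K) (hK : UGood 1 M (⟨x, hxK⟩ : K))
    (hn1 : K ≤ normalizer (R1 : Set G)) (hn2 : K ≤ normalizer (R2 : Set G))
    (h1 : PairM M x R1) (h2 : PairM M x R2)
    (hb1 : ∀ ω ∈ fs R1 X ∩ fs K X,
      (2 * M - 1) * (fixedBy X x ∩ orbit R2 ω).ncard ≤ (orbit R2 ω).ncard)
    (hb2 : ∀ ω ∈ fs R2 X ∩ fs K X,
      (2 * M - 1) * (fixedBy X x ∩ orbit R1 ω).ncard ≤ (orbit R1 ω).ncard) :
    M * Nat.card (fixedBy X x) ≤ Nat.card X := by
  have hF : ∀ R : Subgroup G, fs R X ∩ fs K X ⊆ fixedBy X x := fun R ω hω => hω.2 hxK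
  have a1 := bound_outside hM h2 (hF R1) hb1
  have a2 := bound_outside hM h1 (hF R2) hb2
  have b1 := bound_in_fs (X := X) hxK hK hn1
  have b2 := bound_in_fs (X := X) hxK hK hn2
  have key : ∀ R : Subgroup G, (fixedBy X x \ fs R X).ncard +
      ((fixedBy X x ∩ fs R X) \ fs K X).ncard + (fs R X ∩ fs K X).ncard =
      (fixedBy X x).ncard := by
    intro R
    have e1 := Set.ncard_inter_add_ncard_sdiff_eq_ncard (fixedBy X x) (fs R X) (Set.toFinite _)
    have e2 := Set.ncard_inter_add_ncard_sdiff_eq_ncard (fixedBy X x ∩ fs R X) (fs K X)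
      (Set.toFinite _)
    have e3 : fixedBy X x ∩ fs R X ∩ fs K X = fs R X ∩ fs K X := by
      ext z
      constructor
      · rintro ⟨⟨-, h1⟩, h2⟩
        exact ⟨h1, h2⟩
      · rintro ⟨h1, h2⟩
        exact ⟨⟨h2 hxK, h1⟩, h2⟩
    rw [e3] at e2
    omega
  have k1 := key R1
  have k2 := key R2
  rw [Nat.card_coe_set_eq]
  obtain ⟨f, hf⟩ : ∃ f, f = (fixedBy X x).ncard := ⟨_, rfl⟩
  obtain ⟨u1, hu1⟩ : ∃ f, f = (fixedBy X x \ fs R1 X).ncard := ⟨_, rfl⟩
  obtain ⟨u2, hu2⟩ : ∃ f, f = (fixedBy X x \ fs R2 X).ncard := ⟨_, rfl⟩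
  obtain ⟨v1, hv1⟩ : ∃ f, f = ((fixedBy X x ∩ fs R1 X) \ fs K X).ncard := ⟨_, rfl⟩
  obtain ⟨v2, hv2⟩ : ∃ f, f = ((fixedBy X x ∩ fs R2 X) \ fs K X).ncard := ⟨_, rfl⟩
  obtain ⟨a, ha⟩ : ∃ f, f = (fs R1 X ∩ fs K X).ncard := ⟨_, rfl⟩
  obtain ⟨d, hd⟩ : ∃ f, f = (fs R2 X ∩ fs K X).ncard := ⟨_, rfl⟩
  rw [← hu1, ← hv1, ← ha, ← hf] at k1
  rw [← hu2, ← hv2, ← hd, ← hf] at k2
  rw [← hv1, ← ha] at b1
  rw [← hv2, ← hd] at b2
  rw [← hu2, ← ha] at a1
  rw [← hu1, ← hd] at a2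
  rw [← hf]
  obtain ⟨N, rfl⟩ := Nat.exists_eq_add_of_le hM
  have e1 : 2 + N - 1 = N + 1 := by omega
  rw [e1] at a1 a2
  -- the two inequalities
  have i1 : (2 + N) * f + (N + 1) * a ≤ Nat.card X + (N + 1) * d := by
    rw [← k2]
    have : (2 + N) * (u2 + v2 + d) + (N + 1) * a =
        ((2 + N) * u2 + (N + 1) * a) + ((2 + N) * v2 + d) + (N + 1) * d := by ring
    rw [this]
    omega
  have i2 : (2 + N) * f + (N + 1) * d ≤ Nat.card X + (N + 1) * a := by
    rw [← k1]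
    have : (2 + N) * (u1 + v1 + a) + (N + 1) * d =
        ((2 + N) * u1 + (N + 1) * d) + ((2 + N) * v1 + a) + (N + 1) * a := by ring
    rw [this]
    omega
  omega

end

/-- `K` normalises `R`, `[R, x] = R` and `K`-invariant sections at the top of `R` have order at
least `M`. -/
structure PairK {G : Type*} [Group G] (M : ℕ) (K : Subgroup G) (x : G) (R : Subgroup G) :
    Prop where
  nilp : Group.IsNilpotent R
  norm : K ≤ normalizer (R : Set G)
  full : CommFull R x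
  big : ∀ R1 : Subgroup G, R1 < R → K ≤ normalizer (R1 : Set G) → R ≤ normalizer (R1 : Set G) →
    ⁅R, R⁆ ≤ R1 → M * Nat.card R1 ≤ Nat.card R

section

variable {G X : Type*} [Group G] [MulAction G X]

/-- If `R / R1` is abelian and `[R, x] = R`, then `x` has no fixed point on `R / R1`. -/
theorem fpf_of_commFull [Finite G] {x : G} {R R1 : Subgroup G} (h1 : R1 ≤ R)
    (hxR : x ∈ normalizer (R : Set G)) (hxR1 : x ∈ normalizer (R1 : Set G))
    (hab : ⁅R, R⁆ ≤ R1) (hfull : CommFull R x) {r : G} (hr : r ∈ R)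
    (hr1 : x ∈ stCoset R1 r) : r ∈ R1 := by
  classical
  have hRR1 : R ≤ normalizer (R1 : Set G) := by
    intro g hg
    rw [mem_normalizer_iff]
    intro h
    have aux : ∀ g ∈ R, ∀ h ∈ R1, g * h * g⁻¹ ∈ R1 := by
      intro g hg h hh
      have h2 : g * h * g⁻¹ * h⁻¹ ∈ R1 := hab (commutator_mem_commutator hg (h1 hh))
      have h3 := mul_mem h2 hh
      rwa [inv_mul_cancel_right] at h3
    constructor
    · exact aux g hg h
    · intro h2
      have h3 := aux g⁻¹ (inv_mem hg) _ h2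
      have h4 : g⁻¹ * (g * h * g⁻¹) * g⁻¹⁻¹ = h := by group
      rwa [h4] at h3
  let N : Subgroup R := R1.subgroupOf R
  have hN : N.Normal := by
    constructor
    intro n hn g
    rw [mem_subgroupOf] at hn ⊢
    exact (mem_normalizer_iff.1 (hRR1 g.2) _).1 hn
  have hcomm : ∀ a b : R ⧸ N, a * b = b * a := by
    intro a b
    obtain ⟨a, rfl⟩ := QuotientGroup.mk_surjective a
    obtain ⟨b, rfl⟩ := QuotientGroup.mk_surjective b
    show ((a * b : R) : R ⧸ N) = ((b * a : R) : R ⧸ N)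
    rw [QuotientGroup.eq, mem_subgroupOf]
    have h2 : ((b : G)⁻¹ * (a : G)⁻¹ * (b : G)⁻¹⁻¹ * (a : G)⁻¹⁻¹) ∈ R1 :=
      hab (commutator_mem_commutator (inv_mem b.2) (inv_mem a.2))
    have h3 : (((a * b)⁻¹ * (b * a) : R) : G) =
        (b : G)⁻¹ * (a : G)⁻¹ * (b : G)⁻¹⁻¹ * (a : G)⁻¹⁻¹ := by
      push_cast
      group
    rw [h3]
    exact h2
  -- the commutator map
  have hconj : ∀ r : R, x * r * x⁻¹ * (r : G)⁻¹ ∈ R := fun r =>
    mul_mem ((mem_normalizer_iff.1 hxR _).1 r.2) (inv_mem r.2)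
  have hmk : ∀ a b : R, ((a : R ⧸ N) = (b : R ⧸ N)) ↔ (a : G)⁻¹ * b ∈ R1 := by
    intro a b
    rw [QuotientGroup.eq, mem_subgroupOf]
    rfl
  let θ0 : R → R ⧸ N := fun r => ((⟨x * r * x⁻¹ * (r : G)⁻¹, hconj r⟩ : R) : R ⧸ N)
  have hθ0m : ∀ a b : R, θ0 (a * b) = θ0 a * θ0 b := by
    intro a b
    have h2 : θ0 (a * b) = (((⟨x * a * x⁻¹ * (a : G)⁻¹, hconj a⟩ : R) * (a * ⟨x * b * x⁻¹ * (b : G)⁻¹, hconj b⟩ * a⁻¹) : R) : R ⧸ N) := by
      show ((⟨x * ((a * b : R) : G) * x⁻¹ * ((a * b : R) : G)⁻¹, hconj (a * b)⟩ : R) : R ⧸ N) = _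
      congr 1
      apply Subtype.ext
      push_cast
      group
    rw [h2]
    show θ0 a * ((a : R ⧸ N) * θ0 b * (a : R ⧸ N)⁻¹) = _
    rw [hcomm (a : R ⧸ N) (θ0 b), mul_inv_cancel_right]
  let θ1 : R →* R ⧸ N := MonoidHom.mk' θ0 hθ0m
  have hker : N ≤ θ1.ker := by
    intro n hn
    rw [MonoidHom.mem_ker]
    show ((⟨x * n * x⁻¹ * (n : G)⁻¹, hconj n⟩ : R) : R ⧸ N) = 1
    rw [QuotientGroup.eq_one_iff, mem_subgroupOf]
    rw [mem_subgroupOf] at hn
    exact mul_mem ((mem_normalizer_iff.1 hxR1 _).1 hn) (inv_mem hn)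
  let θ : R ⧸ N →* R ⧸ N := QuotientGroup.lift N θ1 hker
  have hθ : ∀ r : R, θ (r : R ⧸ N) = ((⟨x * r * x⁻¹ * (r : G)⁻¹, hconj r⟩ : R) : R ⧸ N) :=
    fun r => rfl
  have hsurj : Function.Surjective θ := by
    rw [← MonoidHom.range_eq_top]
    by_contra hne
    -- the preimage in `G`
    let D : Subgroup G := (θ.range.comap (QuotientGroup.mk' N)).map R.subtype
    have hDR : D ≤ R := by
      rintro _ ⟨r, -, rfl⟩
      exact r.2
    have hDlt : D < R := by
      refine lt_of_le_of_ne hDR ?_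
      intro hD
      apply hne
      rw [eq_top_iff]
      intro q _
      obtain ⟨r, rfl⟩ := QuotientGroup.mk_surjective q
      have h2 : (r : G) ∈ D := by rw [hD]; exact r.2
      obtain ⟨s, hs, hsr⟩ := h2
      have h3 : s = r := Subtype.ext hsr
      subst h3
      exact hs
    apply hfull D hDlt
    intro r hr
    refine ⟨⟨x * r * x⁻¹ * r⁻¹, hconj ⟨r, hr⟩⟩, ?_, rfl⟩
    exact ⟨((⟨r, hr⟩ : R) : R ⧸ N), hθ ⟨r, hr⟩⟩
  have hinj : Function.Injective θ := Finite.injective_iff_surjective.2 hsurj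
  have h5 : θ ((⟨r, hr⟩ : R) : R ⧸ N) = 1 := by
    rw [hθ, QuotientGroup.eq_one_iff, mem_subgroupOf]
    exact hr1.2
  have h6 : ((⟨r, hr⟩ : R) : R ⧸ N) = 1 := hinj (by rw [h5, map_one])
  rw [QuotientGroup.eq_one_iff, mem_subgroupOf] at h6
  exact h6

theorem mem_normalizer_map {k : G} {A : Subgroup G} :
    k ∈ normalizer (A : Set G) ↔ A.map (MulAut.conj k).toMonoidHom = A := by
  constructor
  · intro h
    ext g
    constructor
    · rintro ⟨a, ha, rfl⟩
      exact (mem_normalizer_iff.1 h a).1 ha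
    · intro hg
      refine ⟨k⁻¹ * g * k, ?_, ?_⟩
      · rw [SetLike.mem_coe, mem_normalizer_iff.1 h]
        have : k * (k⁻¹ * g * k) * k⁻¹ = g := by group
        rwa [this]
      · show k * (k⁻¹ * g * k) * k⁻¹ = g
        group
  · intro h
    rw [mem_normalizer_iff]
    intro g
    constructor
    · intro hg
      rw [← h]
      exact ⟨g, hg, rfl⟩
    · intro hg
      rw [← h] at hg
      obtain ⟨a, ha, hag⟩ := hg
      have : k * a * k⁻¹ = k * g * k⁻¹ := hag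
      have h2 : a = g := mul_left_cancel (mul_right_cancel this)
      rw [← h2]
      exact ha

theorem mem_normalizer_sup {k : G} {A B : Subgroup G} (hA : k ∈ normalizer (A : Set G))
    (hB : k ∈ normalizer (B : Set G)) : k ∈ normalizer ((A ⊔ B : Subgroup G) : Set G) := by
  rw [mem_normalizer_map] at *
  rw [Subgroup.map_sup, hA, hB]

theorem mem_normalizer_commutator {k : G} {A : Subgroup G} (hA : k ∈ normalizer (A : Set G)) :
    k ∈ normalizer ((⁅A, A⁆ : Subgroup G) : Set G) := by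
  rw [mem_normalizer_map] at *
  rw [Subgroup.map_commutator, hA]

/-- In a finite nilpotent group `R` proper subgroups do not supplement the derived subgroup. -/
theorem sup_commutator_lt [Finite G] {R S0 : Subgroup G} (hnilp : Group.IsNilpotent R)
    (h0 : S0 < R) : S0 ⊔ ⁅R, R⁆ < R := by
  have hlt : S0.subgroupOf R ≠ ⊤ := by
    intro h
    rw [subgroupOf_eq_top] at h
    exact absurd (lt_of_lt_of_le h0 h) (lt_irrefl _)
  obtain ⟨T, hT, hT2⟩ := (eq_top_or_exists_le_coatom (S0.subgroupOf R)).resolve_left hlt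
  have hTn : T.Normal :=
    Subgroup.NormalizerCondition.normal_of_coatom T
      (Group.normalizerCondition_of_isNilpotent (G := R)) hT
  have hsimple : IsSimpleGroup (R ⧸ T) := by
    have : Nontrivial (R ⧸ T) := by
      rw [QuotientGroup.nontrivial_iff]
      exact hT.1
    refine ⟨fun H hH => ?_⟩
    have h1 : T ≤ H.comap (QuotientGroup.mk' T) := by
      intro t ht
      rw [mem_comap]
      have : QuotientGroup.mk' T t = 1 := (QuotientGroup.eq_one_iff t).2 ht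
      rw [this]
      exact one_mem _
    rcases hT.le_iff.1 h1 with h2 | h2
    · right
      rw [eq_top_iff]
      intro q _
      obtain ⟨r, rfl⟩ := QuotientGroup.mk_surjective q
      have h3 : r ∈ H.comap (QuotientGroup.mk' T) := by rw [h2]; trivial
      exact h3
    · left
      rw [eq_bot_iff]
      intro q hq
      obtain ⟨r, rfl⟩ := QuotientGroup.mk_surjective q
      have h3 : r ∈ H.comap (QuotientGroup.mk' T) := hq
      rw [h2] at h3
      rw [mem_bot]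
      exact (QuotientGroup.eq_one_iff r).2 h3
  have hcomm : commutator R ≤ T := by
    have h1 := (IsSimpleGroup.comm_iff_isSolvable (G := R ⧸ T)).2 inferInstance
    rw [commutator_def, commutator_le]
    intro a _ b _
    rw [← QuotientGroup.eq_one_iff]
    show (a : R ⧸ T) * (b : R ⧸ T) * (a : R ⧸ T)⁻¹ * (b : R ⧸ T)⁻¹ = 1
    rw [h1 (a : R ⧸ T) (b : R ⧸ T)]
    group
  have hle : S0 ⊔ ⁅R, R⁆ ≤ T.map R.subtype := by
    apply sup_le
    · intro g hg
      exact ⟨⟨g, h0.le hg⟩, hT2 (mem_subgroupOf.2 hg), rfl⟩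
    · rw [commutator_le]
      intro a ha b hb
      refine ⟨(⟨a, ha⟩ : R) * (⟨b, hb⟩ : R) * (⟨a, ha⟩ : R)⁻¹ * (⟨b, hb⟩ : R)⁻¹, ?_, rfl⟩
      apply hcomm
      rw [commutator_def]
      exact commutator_mem_commutator (mem_top _) (mem_top _)
  refine lt_of_le_of_ne ?_ ?_
  · apply sup_le h0.le
    rw [commutator_le]
    intro a ha b hb
    exact mul_mem (mul_mem (mul_mem ha hb) (inv_mem ha)) (inv_mem hb)
  · intro h
    apply hT.1
    rw [eq_top_iff]
    intro r _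
    have h1 : (r : G) ∈ S0 ⊔ ⁅R, R⁆ := by rw [h]; exact r.2
    obtain ⟨t, ht, htr⟩ := hle h1
    have h2 : t = r := Subtype.ext htr
    rw [← h2]
    exact ht

/-- **Orbit ratio** at a common fixed point of `K`. -/
theorem orbit_ratio_K [Finite G] {M : ℕ} {K : Subgroup G} {x : G} (hxK : x ∈ K) {R : Subgroup G}
    (h : PairK M K x R) {ω : X} (hω : ω ∈ fs K X) (hωR : ω ∉ fs R X) :
    M * (fixedBy X x ∩ orbit R ω).ncard ≤ (orbit R ω).ncard := by
  classical
  have hxω : x • ω = ω := hω hxK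
  have hxR := h.norm hxK
  obtain ⟨S0, hS0⟩ : ∃ S0 : Subgroup G, S0 = R ⊓ stabilizer G ω := ⟨_, rfl⟩
  have hS0R : S0 < R := by
    refine lt_of_le_of_ne (by rw [hS0]; exact inf_le_left) ?_
    intro h
    apply hωR
    rw [mem_fs, ← h, hS0]
    exact inf_le_right
  have hKS0 : K ≤ normalizer (S0 : Set G) := by
    intro k hk
    have hkω : k ∈ stabilizer G ω := hω hk
    rw [mem_normalizer_iff]
    intro g
    rw [hS0, mem_inf, mem_inf]
    constructor
    · rintro ⟨h1, h2⟩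
      exact ⟨(mem_normalizer_iff.1 (h.norm hk) g).1 h1, mul_mem (mul_mem hkω h2) (inv_mem hkω)⟩
    · rintro ⟨h1, h2⟩
      refine ⟨(mem_normalizer_iff.1 (h.norm hk) g).2 h1, ?_⟩
      have h3 := mul_mem (mul_mem (inv_mem hkω) h2) hkω
      have h4 : k⁻¹ * (k * g * k⁻¹) * k = g := by group
      rwa [h4] at h3
  obtain ⟨R1, hR1⟩ : ∃ R1 : Subgroup G, R1 = S0 ⊔ ⁅R, R⁆ := ⟨_, rfl⟩
  have hR1R : R1 < R := by rw [hR1]; exact sup_commutator_lt h.nilp hS0R
  have hSR1 : S0 ≤ R1 := by rw [hR1]; exact le_sup_left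
  have hab : ⁅R, R⁆ ≤ R1 := by rw [hR1]; exact le_sup_right
  have hKR1 : K ≤ normalizer (R1 : Set G) := by
    intro k hk
    rw [hR1]
    exact mem_normalizer_sup (hKS0 hk) (mem_normalizer_commutator (h.norm hk))
  have hxR1 := hKR1 hxK
  have hRR1 : R ≤ normalizer (R1 : Set G) := by
    intro g hg
    have aux : ∀ g ∈ R, ∀ h ∈ R1, g * h * g⁻¹ ∈ R1 := by
      intro g hg h hh
      have h2 : g * h * g⁻¹ * h⁻¹ ∈ R1 := hab (commutator_mem_commutator hg (hR1R.le hh))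
      have h3 := mul_mem h2 hh
      rwa [inv_mul_cancel_right] at h3
    rw [mem_normalizer_iff]
    intro h
    constructor
    · exact aux g hg h
    · intro h2
      have h3 := aux g⁻¹ (inv_mem hg) _ h2
      have h4 : g⁻¹ * (g * h * g⁻¹) * g⁻¹⁻¹ = h := by group
      rwa [h4] at h3
  have hC : ∀ r ∈ R, x ∈ stCoset R1 r → r ∈ R1 := fun r hr hr1 =>
    fpf_of_commFull hR1R.le hxR hxR1 hab h.full hr hr1
  -- fixed points in the orbit lie in the orbit of `R1`
  have hfix : fixedBy X x ∩ orbit R ω ⊆ orbit R1 ω := by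
    rintro _ ⟨hz, ⟨r, rfl⟩⟩
    have hz' : x • ((r : G) • ω) = (r : G) • ω := hz
    have h1 : (r : G)⁻¹ * (x * r * x⁻¹) ∈ S0 := by
      rw [hS0, mem_inf]
      refine ⟨mul_mem (inv_mem r.2) ((mem_normalizer_iff.1 hxR _).1 r.2), ?_⟩
      rw [mem_stabilizer_iff]
      have h2 : ((r : G)⁻¹ * (x * r * x⁻¹)) • ω = (r : G)⁻¹ • (x • ((r : G) • (x⁻¹ • ω))) := by
        simp only [smul_smul, mul_assoc]
      have h3 : x⁻¹ • ω = ω := by rw [inv_smul_eq_iff, hxω]
      rw [h2, h3, hz', inv_smul_smul]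
    have h2 : x * r * x⁻¹ * (r : G)⁻¹ ∈ R1 := by
      have h3 := (mem_normalizer_iff.1 (hRR1 r.2) _).1 (hSR1 h1)
      have h4 : (r : G) * ((r : G)⁻¹ * (x * r * x⁻¹)) * (r : G)⁻¹ = x * r * x⁻¹ * (r : G)⁻¹ := by
        group
      rwa [h4] at h3
    have h3 : x ∈ stCoset R1 (r : G) := ⟨hxR1, h2⟩
    have h4 := hC r r.2 h3
    exact ⟨⟨r, h4⟩, rfl⟩
  have hcard := h.big R1 hR1R hKR1 hRR1 hab
  -- orbit counting
  have horb : ∀ T : Subgroup G, S0 ≤ T → T ≤ R → (orbit T ω).ncard * Nat.card S0 = Nat.card T := by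
    intro T hT1 hT2
    have h1 : Nat.card (orbit T ω) * Nat.card (stabilizer T ω) = Nat.card T := by
      have := Fintype.ofFinite T
      have : Finite (orbit T ω) := (Set.finite_range (fun m : T => m • ω)).to_subtype
      have := Fintype.ofFinite (orbit T ω)
      have := Fintype.ofFinite (stabilizer T ω)
      rw [Nat.card_eq_fintype_card, Nat.card_eq_fintype_card, Nat.card_eq_fintype_card]
      exact card_orbit_mul_card_stabilizer_eq_card_group T ω
    have h2 : Nat.card (stabilizer T ω) = Nat.card S0 := by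
      have h3 : (stabilizer T ω).map T.subtype = S0 := by
        ext g
        rw [hS0, mem_inf, mem_map]
        constructor
        · rintro ⟨t, ht, rfl⟩
          exact ⟨hT2 t.2, ht⟩
        · rintro ⟨hg1, hg2⟩
          exact ⟨⟨g, hT1 (by rw [hS0]; exact ⟨hg1, hg2⟩)⟩, hg2, rfl⟩
      rw [← h3]
      exact Nat.card_congr (Subgroup.equivMapOfInjective _ _ T.subtype_injective).toEquiv
    rw [h2, Nat.card_coe_set_eq] at h1
    exact h1
  have hfinR1 : (orbit R1 ω).Finite := Set.finite_range (fun m : R1 => m • ω)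
  have h1 := Set.ncard_le_ncard hfix hfinR1
  have h2 := horb R1 hSR1 hR1R.le
  have h3 := horb R hS0R.le le_rfl
  have h4 : 0 < Nat.card S0 := Nat.card_pos
  have h5 : M * (orbit R1 ω).ncard * Nat.card S0 ≤ (orbit R ω).ncard * Nat.card S0 := by
    rw [mul_assoc, h2, h3]
    exact hcard
  exact (Nat.mul_le_mul_left _ h1).trans (Nat.le_of_mul_le_mul_right h5 h4)

end

section

variable {G : Type*} [Group G]

/-- The stabilizers of the points of `G ⧸ H` are proper. -/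
theorem stabilizer_ne_top_of_ne {H : Subgroup G} (hH : H ≠ ⊤) (z : G ⧸ H) :
    stabilizer G z ≠ ⊤ := by
  intro hz
  apply hH
  obtain ⟨g, rfl⟩ := QuotientGroup.mk_surjective z
  rw [eq_top_iff]
  intro h _
  have h1 : g * h * g⁻¹ ∈ stabilizer G ((g : G) : G ⧸ H) := by rw [hz]; trivial
  have h2 : (g * h * g⁻¹) • ((g : G) : G ⧸ H) = ((g : G) : G ⧸ H) := h1
  have h3 : ((g * h * g⁻¹ * g : G) : G ⧸ H) = ((g : G) : G ⧸ H) := h2
  rw [inv_mul_cancel_right, eq_comm, QuotientGroup.eq] at h3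
  have h4 : g⁻¹ * (g * h) = h := by group
  rwa [h4] at h3

/-- **T4.** `x ∈ K`, the groups `R1`, `R2`, `K` generate `G`, `x` is uniformly good in `K`, and the
`K`-invariant top sections of `R1` and `R2` have order at least `2 M - 1`. -/
theorem t4_uGood [Finite G] {M : ℕ} (hM : 2 ≤ M) {x : G} {K R1 R2 : Subgroup G}
    (hxK : x ∈ K) (hK : UGood 1 M (⟨x, hxK⟩ : K)) (h1 : PairM M x R1) (h2 : PairM M x R2)
    (k1 : PairK (2 * M - 1) K x R1) (k2 : PairK (2 * M - 1) K x R2)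
    (hgen : R1 ⊔ R2 ⊔ K = ⊤) : UGood 1 M x := by
  intro H hH
  have hno : ∀ ω : G ⧸ H, ω ∈ fs R1 (G ⧸ H) → ω ∈ fs R2 (G ⧸ H) → ω ∈ fs K (G ⧸ H) →
      False := by
    intro ω a1 a2 a3
    apply stabilizer_ne_top_of_ne hH ω
    rw [eq_top_iff, ← hgen]
    exact sup_le (sup_le a1 a2) a3
  rw [one_mul]
  apply t4_set hM hxK hK k1.norm k2.norm h1 h2
  · intro ω hω
    exact orbit_ratio_K hxK k2 hω.2 (fun h => hno ω hω.1 h hω.2)
  · intro ω hω
    exact orbit_ratio_K hxK k1 hω.2 (fun h => hno ω h hω.1 hω.2)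

/-- **T4**, the version without common fixed points of `K` and one radical: if no conjugate of
`H` contains `K` and `R1`, the ratio is fine. -/
theorem t4_of_empty [Finite G] {M : ℕ} {x : G} {K R1 : Subgroup G}
    (hxK : x ∈ K) (hK : UGood 1 M (⟨x, hxK⟩ : K)) (hn1 : K ≤ normalizer (R1 : Set G))
    (h1 : PairM M x R1) {H : Subgroup G}
    (hno : ∀ g : G, K ≤ H.map (MulAut.conj g).toMonoidHom →
      R1 ≤ H.map (MulAut.conj g).toMonoidHom → False) :
    M * Nat.card (fixedBy (G ⧸ H) x) ≤ Nat.card (G ⧸ H) := by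
  have hst : ∀ g : G, stabilizer G ((g : G) : G ⧸ H) = H.map (MulAut.conj g).toMonoidHom := by
    intro g
    ext a
    rw [mem_stabilizer_iff]
    have h3 : a • ((g : G) : G ⧸ H) = ((a * g : G) : G ⧸ H) := rfl
    rw [h3, eq_comm, QuotientGroup.eq]
    constructor
    · intro h
      refine ⟨g⁻¹ * (a * g), h, ?_⟩
      show g * (g⁻¹ * (a * g)) * g⁻¹ = a
      group
    · rintro ⟨b, hb, rfl⟩
      have : g⁻¹ * ((MulAut.conj g).toMonoidHom b * g) = b := by
        show g⁻¹ * (g * b * g⁻¹ * g) = b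
        group
      rw [this]
      exact hb
  have hempty : fs R1 (G ⧸ H) ∩ fs K (G ⧸ H) = ∅ := by
    rw [Set.eq_empty_iff_forall_notMem]
    rintro z ⟨hz1, hz2⟩
    obtain ⟨g, rfl⟩ := QuotientGroup.mk_surjective z
    refine hno g ?_ ?_
    · rw [← hst]
      exact hz2
    · rw [← hst]
      exact hz1
  have a1 := h1.bound (X := G ⧸ H)
  have b1 := bound_in_fs (X := G ⧸ H) hxK hK hn1
  rw [hempty, Set.ncard_empty, add_zero] at b1
  have e1 := Set.ncard_inter_add_ncard_sdiff_eq_ncard (fixedBy (G ⧸ H) x) (fs R1 (G ⧸ H))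
    (Set.toFinite _)
  have e2 : (fixedBy (G ⧸ H) x ∩ fs R1 (G ⧸ H)) \ fs K (G ⧸ H) =
      fixedBy (G ⧸ H) x ∩ fs R1 (G ⧸ H) := by
    rw [sdiff_eq_left, Set.disjoint_iff_inter_eq_empty, Set.eq_empty_iff_forall_notMem]
    rintro z ⟨⟨-, hz1⟩, hz2⟩
    have : z ∈ fs R1 (G ⧸ H) ∩ fs K (G ⧸ H) := ⟨hz1, hz2⟩
    rw [hempty] at this
    exact this
  rw [e2] at b1
  rw [Nat.card_coe_set_eq, ← e1, mul_add]
  omega

end

end Cfsg.Agent.H398.FPR
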